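import Mathlib
import Cfsg.Prelude.Def_RootSubgroups

/-! Interface for S5720 (an element with a large fixed space). See notes/FX.md. -/

set_option autoImplicit false
set_option linter.unusedSectionVars false

open Module
open scoped MatrixGroups

namespace H17.FV

universe u v w

/-- at most one involution -/
def UI (H : Type*) [Group H] : Prop := ∀ x y : H, x * x = 1 → y * y = 1 → x ≠ 1 → y ≠ 1 → x = y

/-- no `(3,3,3)` triangle -/
def NT (H : Type*) [Group H] : Prop :=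
  ∀ a b : H, a ^ 3 = 1 → b ^ 3 = 1 → (a * b) ^ 3 = 1 → a ≠ 1 → b ≠ 1 → a * b ≠ 1 → a = b

/-- no elementary abelian subgroup of order 25 -/
def N5 (H : Type*) [Group H] : Prop :=
  ∀ a b : H, a ^ 5 = 1 → b ^ 5 = 1 → Commute a b → a ≠ 1 → b ∈ Subgroup.zpowers a

section
variable {H X : Type*} [Group H] [Group X] {f : X →* H}

theorem UI.inj (h : UI H) (hf : Function.Injective f) : UI X := fun x y a b c d =>
  hf (h _ _ (by rw [← map_mul, a, map_one]) (by rw [← map_mul, b, map_one])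
    ((map_ne_one_iff f hf).2 c) ((map_ne_one_iff f hf).2 d))

theorem NT.inj (h : NT H) (hf : Function.Injective f) : NT X := fun x y a b c d e g =>
  hf (h _ _ (by rw [← map_pow, a, map_one]) (by rw [← map_pow, b, map_one])
    (by rw [← map_mul, ← map_pow, c, map_one]) ((map_ne_one_iff f hf).2 d)
    ((map_ne_one_iff f hf).2 e) (by rw [← map_mul]; exact (map_ne_one_iff f hf).2 g))

theorem N5.inj (h : N5 H) (hf : Function.Injective f) : N5 X := fun x y a b c d => by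
  obtain ⟨k, hk⟩ := h _ _ (by rw [← map_pow, a, map_one]) (by rw [← map_pow, b, map_one])
    (c.map f) ((map_ne_one_iff f hf).2 d)
  exact ⟨k, hf (by rw [map_zpow]; exact hk)⟩
end

/-- every non-identity element has a small fixed space -/
def Small {K H V : Type*} [Field K] [Group H] [AddCommGroup V] [Module K V]
    (ρ : Representation K H V) : Prop :=
  ∀ h : H, h ≠ 1 → 6 * finrank K (LinearMap.ker (ρ h - 1)) < finrank K V

def LT : Prop := ∀ (H : Type u) (K : Type v) (V : Type w) [Group H] [Field K] [AddCommGroup V]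
  [Module K V] [FiniteDimensional K V] (ρ : Representation K H V), Small ρ → NT H ∧ UI H

def L5 : Prop := ∀ (H : Type u) (K : Type v) (V : Type w) [Group H] [Field K] [AddCommGroup V]
  [Module K V] [FiniteDimensional K V] (ρ : Representation K H V), Small ρ → N5 H

/-- `L` maps onto `SL₂(q)`, `q > 5` odd, with odd kernel, or onto `A₇` -/
def Top (L : Type*) [Group L] : Prop :=
  (∃ (F : Type) (_ : Field F) (_ : Fintype F), Odd (Fintype.card F) ∧ 5 < Fintype.card F ∧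
    ∃ f : L →* SL(2, F), Function.Surjective f ∧ Odd (Nat.card f.ker)) ∨
  ∃ f : L →* alternatingGroup (Fin 7), Function.Surjective f

/-- a minimal cover of `SL₂(p)` with odd kernel -/
structure MinC {X : Type*} [Group X] {p : ℕ} (f : X →* SL(2, ZMod p)) : Prop where
  surj : Function.Surjective f
  odd : Odd (Nat.card f.ker)
  min : ∀ Y : Subgroup X, Y.map f = ⊤ → Y = ⊤

def G1 : Prop := ∀ (H : Type u) [Group H] [Finite H], 120 < (Cfsg.solvableRadical H).index → UI H →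
  ∃ L : Subgroup H, Top L

def G2 : Prop := ∀ (L : Type u) [Group L] [Finite L], NT L → N5 L → Top L →
  ∃ p : ℕ, p.Prime ∧ 7 ≤ p ∧ ∃ (X : Subgroup L) (f : X →* SL(2, ZMod p)), MinC f

def G3 : Prop := ∀ (X : Type u) [Group X] [Finite X] (p : ℕ) [Fact p.Prime] (f : X →* SL(2, ZMod p)),
  7 ≤ p → MinC f → UI X → NT X → f.ker ≤ Subgroup.center X

def G4 : Prop := (∀ (X : Type u) [Group X] [Finite X] (p : ℕ) [Fact p.Prime] (f : X →* SL(2, ZMod p)),
  7 ≤ p → MinC f → f.ker ≤ Subgroup.center X → Function.Injective f) ∧ ¬ NT SL(2, ZMod 7)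

/-- images of the standard generators of `SL₂(p)` generating an algebra -/
structure Dat (K A : Type*) [Field K] [Ring A] [Algebra K A] (p : ℕ) where
  U : ZMod p → A
  H : (ZMod p)ˣ → A
  w : A
  U0 : U 0 = 1
  Uadd : ∀ a b, U (a + b) = U a * U b
  H1 : H 1 = 1
  Hmul : ∀ a b, H (a * b) = H a * H b
  HU : ∀ (l : (ZMod p)ˣ) c, H l * U c = U ((l : ZMod p) ^ 2 * c) * H l
  ww : w * w = H (-1)
  wH : ∀ l, w * H l = H l⁻¹ * w
  cube : ∀ l : (ZMod p)ˣ, (w * H l * U (-((l⁻¹ : (ZMod p)ˣ) : ZMod p))) ^ 3 = 1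
  gen : Algebra.adjoin K (Set.range U ∪ Set.range H ∪ {w}) = ⊤

/-- the action of `y` on `M` -/
abbrev act (K M : Type*) {A : Type*} [Field K] [Ring A] [Algebra K A] [AddCommGroup M] [Module K M]
    [Module A M] [IsScalarTower K A M] (y : A) : End K M := Algebra.lsmul K K M y

/-- the rank of `y` on `M` -/
noncomputable abbrev rk (K M : Type*) {A : Type*} [Field K] [Ring A] [Algebra K A] [AddCommGroup M]
    [Module K M] [Module A M] [IsScalarTower K A M] (y : A) : ℕ :=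
  finrank K (LinearMap.range (act K M y))

namespace Dat
variable {K A : Type*} [Field K] [Ring A] [Algebra K A] {p : ℕ} (D : Dat K A p)

def a (l : (ZMod p)ˣ) : A := D.w * D.H l * D.U (-((l⁻¹ : (ZMod p)ˣ) : ZMod p))

def N (l : (ZMod p)ˣ) : A := 1 + D.a l + D.a l ^ 2

def R (l : (ZMod p)ˣ) : A := D.N l * D.H l⁻¹

def Y (ν : (ZMod p)ˣ) : A :=
  D.H ν⁻¹ * (D.U (-1) + D.H (-1) * D.U ((ν : ZMod p) ^ 2)) -
    (D.U (-(ν : ZMod p)) + D.H (-1) * D.U ((ν⁻¹ : (ZMod p)ˣ) : ZMod p))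

theorem HH (l : (ZMod p)ˣ) : D.H l * D.H l⁻¹ = 1 := by rw [← D.Hmul, mul_inv_cancel, D.H1]

theorem HH' (l : (ZMod p)ˣ) : D.H l⁻¹ * D.H l = 1 := by rw [← D.Hmul, inv_mul_cancel, D.H1]

theorem UU (c : ZMod p) : D.U c * D.U (-c) = 1 := by rw [← D.Uadd, add_neg_cancel, D.U0]

theorem Ucomm (b c : ZMod p) : D.U b * D.U c = D.U c * D.U b := by rw [← D.Uadd, ← D.Uadd, add_comm]

theorem zz : D.H (-1) * D.H (-1) = 1 := by rw [← D.Hmul, neg_mul_neg, mul_one, D.H1]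

/-- `z = H (-1)` is central -/
theorem zc (y : A) : D.H (-1) * y = y * D.H (-1) := by
  have h : y ∈ Algebra.adjoin K (Set.range D.U ∪ Set.range D.H ∪ {D.w}) := D.gen ▸ Algebra.mem_top
  refine (Algebra.commute_of_mem_adjoin_of_forall_mem_commute h ?_).eq
  rintro _ ((⟨c, rfl⟩ | ⟨l, rfl⟩) | rfl)
  · exact (D.HU _ c).trans (by simp)
  · exact (D.Hmul _ _).symm.trans ((congrArg _ (mul_comm _ _)).trans (D.Hmul _ _))
  · exact ((D.wH _).trans (by simp)).symm

theorem a_cube (l : (ZMod p)ˣ) : D.a l ^ 3 = 1 := D.cube l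

theorem a_sq (l : (ZMod p)ˣ) :
    D.a l ^ 2 = D.H (-1) * D.U ((l⁻¹ : (ZMod p)ˣ) : ZMod p) * D.w * D.H l := by
  have h1 : D.a l * (D.H (-1) * D.U ((l⁻¹ : (ZMod p)ˣ) : ZMod p) * D.w * D.H l) = 1 := by
    have e : D.U (-((l⁻¹ : (ZMod p)ˣ) : ZMod p)) * D.U ((l⁻¹ : (ZMod p)ˣ) : ZMod p) = 1 := by
      rw [D.Ucomm, D.UU]
    calc _ = D.H (-1) * (D.w * (D.H l * ((D.U (-((l⁻¹ : (ZMod p)ˣ) : ZMod p)) *
          D.U ((l⁻¹ : (ZMod p)ˣ) : ZMod p)) * (D.w * D.H l)))) := by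
          rw [a, mul_assoc (D.H (-1)), mul_assoc (D.H (-1)), ← mul_assoc, ← D.zc]; simp only [mul_assoc]
      _ = 1 := by rw [e, one_mul, D.wH, ← mul_assoc (D.H l), D.HH, one_mul, D.ww, D.zz]
  calc D.a l ^ 2 = D.a l ^ 2 * (D.a l * _) := by rw [h1, mul_one]
    _ = _ := by rw [← mul_assoc, ← pow_succ, D.a_cube, one_mul]

theorem R_eq (l : (ZMod p)ˣ) : D.R l = D.H l⁻¹ + D.w * D.U (-(l : ZMod p)) +
    D.H (-1) * D.U ((l⁻¹ : (ZMod p)ˣ) : ZMod p) * D.w := by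
  have e : (l : ZMod p) ^ 2 * -((l⁻¹ : (ZMod p)ˣ) : ZMod p) = -l := by
    rw [sq, mul_neg, mul_assoc, Units.mul_inv, mul_one]
  rw [R, N, D.a_sq, a, add_mul, add_mul, one_mul, mul_assoc _ (D.H l) (D.H _), D.HH, mul_one,
    mul_assoc D.w, D.HU, e, mul_assoc D.w, mul_assoc _ (D.H l), D.HH, mul_one]

/-- `w U(-l) w = z U(l⁻¹) w H(l) U(l⁻¹)` -/
theorem wUw (l : (ZMod p)ˣ) : D.w * D.U (-(l : ZMod p)) * D.w = D.H (-1) *
    D.U ((l⁻¹ : (ZMod p)ˣ) : ZMod p) * D.w * D.H l * D.U ((l⁻¹ : (ZMod p)ˣ) : ZMod p) := by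
  have e : (l : ZMod p) ^ 2 * -((l⁻¹ : (ZMod p)ˣ) : ZMod p) = -l := by
    rw [sq, mul_neg, mul_assoc, Units.mul_inv, mul_one]
  have e2 : D.U (-((l⁻¹ : (ZMod p)ˣ) : ZMod p)) * D.U ((l⁻¹ : (ZMod p)ˣ) : ZMod p) = 1 := by
    rw [D.Ucomm, D.UU]
  rw [← D.a_sq, sq, a]
  simp only [mul_assoc]
  rw [e2, mul_one, ← mul_assoc (D.H l), D.HU, e, D.wH, mul_assoc, ← mul_assoc (D.H l), D.HH, one_mul]

/-- the key identity: `Y` is a sum of four terms through `N ν`, `N 1` -/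
theorem Y_eq (ν : (ZMod p)ˣ) : D.Y ν = D.R ν * D.U (-1) + D.H (-1) * D.U 1 * D.R ν -
    D.R 1 * D.U (-(ν : ZMod p)) - D.H (-1) * D.U ((ν⁻¹ : (ZMod p)ˣ) : ZMod p) * D.R 1 := by
  have e : D.H ν⁻¹ * D.U ((ν : ZMod p) ^ 2) = D.U 1 * D.H ν⁻¹ := by
    rw [D.HU, ← mul_pow, Units.inv_mul, one_pow]
  have z1 : ∀ x y : A, x * (D.H (-1) * y) = D.H (-1) * (x * y) := fun x y => by
    rw [← mul_assoc, ← D.zc, mul_assoc]
  have z2 : ∀ y : A, D.H (-1) * (D.H (-1) * y) = y := fun y => by rw [← mul_assoc, D.zz, one_mul]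
  have c1 : ∀ (b c : ZMod p) (y : A), D.U b * (D.U c * y) = D.U c * (D.U b * y) := fun b c y => by
    rw [← mul_assoc, D.Ucomm, mul_assoc]
  rw [Y, D.R_eq, D.R_eq]
  simp only [inv_one, Units.val_one, D.H1, mul_add, add_mul, mul_assoc, one_mul, mul_one]
  rw [z1 (D.H ν⁻¹), e, z1 (D.U 1), z2, z1 (D.U _), z2, c1 1, D.Ucomm (-1)]
  abel

variable [Fact p.Prime] [CharP K p]

/-- the prime field inside `K` -/
abbrev φ (_ : Dat K A p) : ZMod p →+* K := ZMod.castHom (dvd_refl p) K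

/-- a homogeneous generator of the radical of `K[U]` -/
noncomputable def e : A := ∑ c : (ZMod p)ˣ, D.φ ((c⁻¹ : (ZMod p)ˣ) : ZMod p) • D.U c

/-- the projection on the weight `l ↦ l ^ j` -/
noncomputable def π (j : ℕ) : A := -∑ l : (ZMod p)ˣ, D.φ (((l⁻¹ : (ZMod p)ˣ) : ZMod p) ^ j) • D.H l

/-- the facts on `e` and `π` -/
structure EF : Prop where
  ep : D.e ^ p = 0
  Ue : ∀ c, ∃ y ∈ Algebra.adjoin K {D.e}, D.U c = 1 - D.φ c • D.e + D.e * D.e * y
  eU : ∃ y : A, D.U 1 - 1 = y * D.e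
  He : ∀ l : (ZMod p)ˣ, D.H l * D.e = D.φ ((l : ZMod p) ^ 2) • (D.e * D.H l)
  Hπ : ∀ (l : (ZMod p)ˣ) j, D.H l * D.π j = D.φ ((l : ZMod p) ^ j) • D.π j
  πH : ∀ (l : (ZMod p)ˣ) j, D.π j * D.H l = D.φ ((l : ZMod p) ^ j) • D.π j
  eπ : ∀ j, D.e * D.π j = D.π (j + 2) * D.e
  per : ∀ j k, j ≡ k [MOD p - 1] → D.π j = D.π k
  ππ : ∀ j, D.π j * D.π j = D.π j
  orth : ∀ j k, ¬ j ≡ k [MOD p - 1] → D.π j * D.π k = 0
  sum : ∑ j ∈ Finset.range (p - 1), D.π j = 1

variable (ν : (ZMod p)ˣ) (M : Type*) [AddCommGroup M] [Module K M] [Module A M] [IsScalarTower K A M]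

/-- the inequality that is inherited from composition factors -/
def Ineq : Prop := finrank K M + 2 * rk K M (D.π 3) ≤ 2 * (rk K M (D.N 1) + rk K M (D.N ν)) +
  2 * rk K M (D.e * D.π (p - 2)) + 2 * rk K M (D.e ^ ((p - 1) / 2) * D.π 3) + rk K M (D.e * D.π (p - 3))

variable {M}
/-- `M` is uniserial for `U`, generated by `v` of weight `j` -/
structure Uni (s j : ℕ) (v : M) (c : K) : Prop where
  pos : 0 < s
  bas : ∃ b : Basis (Fin s) K M, ∀ i, b i = D.e ^ (i : ℕ) • v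
  nil : D.e ^ s • v = 0
  wt : D.π j • v = v
  c0 : c ≠ 0
  top : D.w • D.e ^ (s - 1) • v = c • v

end Dat

/-- binder for a module over an algebra with data, cross characteristic allowed -/
def All0 (P : ∀ (K : Type v) (A M : Type w) [Field K] [Ring A] [Algebra K A] [AddCommGroup M]
    [Module K M] [Module A M] [IsScalarTower K A M] (p : ℕ) [Fact p.Prime],
    Dat K A p → (ZMod p)ˣ → Prop) : Prop :=
  ∀ (K : Type v) (A M : Type w) [Field K] [Ring A] [Algebra K A] [AddCommGroup M]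
    [Module K M] [Module A M] [IsScalarTower K A M] [FiniteDimensional K M] (p : ℕ) [Fact p.Prime]
    (D : Dat K A p) (ν : (ZMod p)ˣ), 11 ≤ p → orderOf ν = p - 1 → P K A M p D ν

/-- binder, defining characteristic, with the facts `EF` -/
def All (P : ∀ (K : Type v) (A M : Type w) [Field K] [Ring A] [Algebra K A] [AddCommGroup M]
    [Module K M] [Module A M] [IsScalarTower K A M] (p : ℕ) [Fact p.Prime] [CharP K p],
    Dat K A p → (ZMod p)ˣ → Prop) : Prop :=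
  ∀ (K : Type v) (A M : Type w) [Field K] [Ring A] [Algebra K A] [AddCommGroup M]
    [Module K M] [Module A M] [IsScalarTower K A M] [FiniteDimensional K M] (p : ℕ) [Fact p.Prime]
    [CharP K p] (D : Dat K A p) (ν : (ZMod p)ˣ), 11 ≤ p → orderOf ν = p - 1 → D.EF → P K A M p D ν

/-- Vandermonde step of the cross-characteristic case -/
def VD : Prop := All0.{v, w} fun K _ M _ _ _ _ _ _ _ p _ D ν => (p : K) ≠ 0 →
  (∀ m : M, D.H (-1) • m = -m) →
  5 * finrank K ↥(LinearMap.ker (act K M (D.Y ν)) ⊓ LinearMap.range (act K M (D.U 1 - 1))) ≤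
    rk K M (D.U 1 - 1)

def CR : Prop := All0.{v, w} fun K _ M _ _ _ _ _ _ _ p _ D ν => (p : K) ≠ 0 →
  (∀ m : M, D.H (-1) • m = -m) → 2 * finrank K M ≤ 5 * (rk K M (D.N 1) + rk K M (D.N ν))

def EK : Prop := ∀ (K : Type v) (A : Type w) [Field K] [Ring A] [Algebra K A] (p : ℕ) [Fact p.Prime]
  [CharP K p] (D : Dat K A p), 11 ≤ p → D.EF

def CH : Prop := All.{v, w} fun K _ M _ _ _ _ _ _ _ p _ _ D _ => ∀ j,
  finrank K ↥(LinearMap.ker (act K M (D.e ^ ((p - 1) / 2))) ⊓ LinearMap.range (act K M (D.π j))) +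
    finrank K ↥(LinearMap.ker (act K M (D.e ^ ((p - 1) / 2))) ⊓ LinearMap.range (act K M (D.π (j + 1)))) ≤
    finrank K (LinearMap.ker (act K M D.e))

def BL : Prop := All.{v, w} fun K _ M _ _ _ _ _ _ _ p _ _ D _ =>
  2 * rk K M (D.e * D.π (p - 2)) + 2 * rk K M (D.e ^ ((p - 1) / 2) * D.π 3) +
    rk K M (D.e * D.π (p - 3)) ≤ 2 * rk K M (D.π 3) + 2 * finrank K (LinearMap.ker (act K M D.e))

def US : Prop := All.{v, w} fun _ A M _ _ _ _ _ _ _ _ _ _ D _ => IsSimpleModule A M →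
  ∃ s j v c, D.Uni (M := M) s j v c

def SP : Prop := All.{v, w} fun _ _ M _ _ _ _ _ _ _ _ _ _ D ν => ∀ s j v c, D.Uni (M := M) s j v c →
  Even j → D.Ineq ν M

def S2 : Prop := All.{v, w} fun _ _ M _ _ _ _ _ _ _ _ _ _ D ν => ∀ s j v c, D.Uni (M := M) s j v c →
  Odd j → Even s ∧ (s = 2 → D.Ineq ν M)

/-- lower bound for the rank of `Y` where `z = -1` -/
def SL : Prop := All.{v, w} fun K _ M _ _ _ _ _ _ _ p _ _ D ν => (∀ m : M, D.H (-1) • m = -m) →
  rk K M D.e ≤ rk K M (D.Y ν) + rk K M (D.e * D.π (p - 2))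

/-- upper bound for the rank of `Y` where `z = -1` -/
def SU : Prop := All.{v, w} fun K _ M _ _ _ _ _ _ _ _ _ _ D ν => ∀ s j v c, D.Uni (M := M) s j v c →
  (∀ m : M, D.H (-1) • m = -m) → 2 < s → rk K M (D.Y ν) + 2 ≤ 2 * (rk K M (D.N 1) + rk K M (D.N ν))

def SM : Prop := All.{v, w} fun _ _ M _ _ _ _ _ _ _ _ _ _ D ν => ∀ s j v c, D.Uni (M := M) s j v c →
  Odd j → D.Ineq ν M

def SI : Prop := All.{v, w} fun _ A M _ _ _ _ _ _ _ _ _ _ D ν => IsSimpleModule A M → D.Ineq ν M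

def CF : Prop := All.{v, w} fun _ _ M _ _ _ _ _ _ _ _ _ _ D ν => D.Ineq ν M

/-- triangular perturbation of an injective map -/
theorem tr {K M : Type*} [Field K] [AddCommGroup M] [Module K M] [FiniteDimensional K M]
    {e D E : End K M} (he : IsNilpotent e) (hD : Function.Injective D)
    (h1 : ∀ i, ∀ m ∈ LinearMap.range (e ^ i), D m ∈ LinearMap.range (e ^ i))
    (h2 : ∀ i, ∀ m ∈ LinearMap.range (e ^ i), E m ∈ LinearMap.range (e ^ (i + 1))) :
    Function.Injective (D + E) := by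
  refine (injective_iff_map_eq_zero _).2 fun m hm => ?_
  have k : ∀ i, m ∈ LinearMap.range (e ^ i) := fun i => by
    induction i with
    | zero => exact ⟨m, rfl⟩
    | succ i ih =>
      have s : Function.Surjective (D.restrict (h1 (i + 1))) :=
        LinearMap.injective_iff_surjective.1 fun x y h => Subtype.ext (hD (congrArg Subtype.val h))
      obtain ⟨x, hx⟩ := s ⟨-E m, neg_mem (h2 i m ih)⟩
      have : D x = D m := (congrArg Subtype.val hx).trans (eq_neg_of_add_eq_zero_left hm).symm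
      exact hD this ▸ x.2
  obtain ⟨n, hn⟩ := he
  obtain ⟨x, hx⟩ := k n
  rw [← hx, hn]; rfl

end H17.FV
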