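import Cfsg.Agent.H17.FV0

/-! Assembly of S5720 from the chunks of `H17.FV0`. -/

set_option autoImplicit false
set_option linter.unusedSectionVars false

open Module
open scoped MatrixGroups

namespace H17.FV

universe u v w

section mat0
variable {R : Type*} [CommRing R]

def mu (c : R) : SL(2, R) := ⟨!![1, c; 0, 1], by simp [Matrix.det_fin_two]⟩

def mh (l : Rˣ) : SL(2, R) := ⟨!![(l : R), 0; 0, ((l⁻¹ : Rˣ) : R)], by simp [Matrix.det_fin_two]⟩

def mw (R : Type*) [CommRing R] : SL(2, R) := ⟨!![0, -1; 1, 0], by simp [Matrix.det_fin_two]⟩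

theorem mu0 : mu (0 : R) = 1 := Subtype.ext Matrix.one_fin_two.symm

theorem mu_add (a b : R) : mu (a + b) = mu a * mu b :=
  Subtype.ext (show _ = (mu a).1 * (mu b).1 by simp [mu, add_comm])

theorem mh1 : mh (1 : Rˣ) = 1 := Subtype.ext (by simp [mh, Matrix.one_fin_two])

theorem mh_mul (a b : Rˣ) : mh (a * b) = mh a * mh b :=
  Subtype.ext (show _ = (mh a).1 * (mh b).1 by simp [mh, mul_comm])

theorem mhu (l : Rˣ) (c : R) : mh l * mu c = mu ((l : R) ^ 2 * c) * mh l :=
  Subtype.ext (show (mh l).1 * (mu c).1 = (mu _).1 * (mh l).1 by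
    have : (l : R) * c = (l : R) ^ 2 * c * ((l⁻¹ : Rˣ) : R) := by
      linear_combination (-(l : R) * c) * l.mul_inv
    simp [mh, mu, ← this])

theorem mww : mw R * mw R = mh (-1) :=
  Subtype.ext (show (mw R).1 * (mw R).1 = _ by simp [mh, mw])

theorem mwh (l : Rˣ) : mw R * mh l = mh l⁻¹ * mw R :=
  Subtype.ext (show (mw R).1 * (mh l).1 = (mh _).1 * (mw R).1 by simp [mh, mw])

def ma (l : Rˣ) : SL(2, R) := mw R * mh l * mu (-((l⁻¹ : Rˣ) : R))

theorem ma_val (l : Rˣ) : (ma l).1 = !![0, -((l⁻¹ : Rˣ) : R); (l : R), -1] :=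
  show (mw R).1 * (mh l).1 * (mu _).1 = _ by simp [mh, mw, mu]

theorem ma_cube (l : Rˣ) : ma l ^ 3 = 1 := by
  refine Subtype.ext ?_
  rw [pow_succ, sq, Matrix.SpecialLinearGroup.coe_mul, Matrix.SpecialLinearGroup.coe_mul, ma_val]
  simp [Matrix.one_fin_two]

end mat0

section mat
variable {p : ℕ} [Fact p.Prime]

theorem ma_ne (l : (ZMod p)ˣ) : ma l ≠ 1 := fun h => by
  have := congrFun (congrFun (ma_val l) 0) 0
  rw [h] at this
  exact one_ne_zero (α := ZMod p) this

theorem mu_ne : mu (1 : ZMod p) ≠ 1 := fun h => by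
  have := congrFun (congrFun (congrArg Subtype.val h) 0) 1
  simp [mu] at this

theorem mz_ne (hp : 11 ≤ p) : mh (-1 : (ZMod p)ˣ) ≠ 1 := fun h => by
  have := congrFun (congrFun (congrArg Subtype.val h) 0) 0
  simp [mh] at this
  have h2 : ((2 : ℕ) : ZMod p) = 0 := by
    rw [Nat.cast_ofNat]; linear_combination -this
  have := Nat.le_of_dvd two_pos ((ZMod.natCast_eq_zero_iff 2 p).1 h2)
  omega

variable {K : Type v} {V : Type w} [Field K] [AddCommGroup V] [Module K V]
  (σ : Representation K SL(2, ZMod p) V)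

def gens : Set (End K V) := Set.range (fun c => σ (mu c)) ∪ Set.range (fun l => σ (mh l)) ∪ {σ (mw _)}

def dat : Dat K (Algebra.adjoin K (gens σ)) p where
  U c := ⟨σ (mu c), Algebra.subset_adjoin (.inl (.inl ⟨c, rfl⟩))⟩
  H l := ⟨σ (mh l), Algebra.subset_adjoin (.inl (.inr ⟨l, rfl⟩))⟩
  w := ⟨σ (mw _), Algebra.subset_adjoin (.inr rfl)⟩
  U0 := Subtype.ext (show σ _ = 1 by rw [mu0, map_one])
  Uadd a b := Subtype.ext (show σ _ = σ _ * σ _ by rw [mu_add, map_mul])
  H1 := Subtype.ext (show σ _ = 1 by rw [mh1, map_one])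
  Hmul a b := Subtype.ext (show σ _ = σ _ * σ _ by rw [mh_mul, map_mul])
  HU l c := Subtype.ext (show σ _ * σ _ = σ _ * σ _ by rw [← map_mul, mhu, map_mul])
  ww := Subtype.ext (show σ _ * σ _ = σ _ by rw [← map_mul, mww])
  wH l := Subtype.ext (show σ _ * σ _ = σ _ * σ _ by rw [← map_mul, mwh, map_mul])
  cube l := Subtype.ext (show (σ _ * σ _ * σ _) ^ 3 = 1 by
    rw [← map_mul, ← map_mul, ← map_pow]; exact (congrArg σ (ma_cube l)).trans (map_one σ))
  gen := by
    refine Eq.trans ?_ (Algebra.adjoin_adjoin_coe_preimage (R := K) (s := gens σ))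
    congr 1
    ext x
    constructor
    · rintro ((⟨c, rfl⟩ | ⟨c, rfl⟩) | rfl)
      exacts [.inl (.inl ⟨c, rfl⟩), .inl (.inr ⟨c, rfl⟩), .inr rfl]
    · rintro ((⟨c, h⟩ | ⟨c, h⟩) | h)
      exacts [.inl (.inl ⟨c, Subtype.ext h⟩), .inl (.inr ⟨c, Subtype.ext h⟩), .inr (Subtype.ext h)]

theorem dat_a (l : (ZMod p)ˣ) : act K V ((dat σ).a l) = σ (ma l) := by
  rw [ma, map_mul, map_mul]; rfl

theorem rk_N (l : (ZMod p)ˣ) [FiniteDimensional K V] :
    rk K V ((dat σ).N l) ≤ finrank K (LinearMap.ker (σ (ma l) - 1)) := by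
  refine Submodule.finrank_mono ?_
  rintro _ ⟨x, rfl⟩
  have : (σ (ma l) - 1) * act K V ((dat σ).N l) = 0 := by
    rw [show act K V ((dat σ).N l) = 1 + act K V ((dat σ).a l) + act K V ((dat σ).a l) ^ 2 from rfl,
      dat_a, ← sub_self (1 : End K V)]
    conv_rhs => arg 1; rw [← map_one σ, ← ma_cube l, map_pow]
    noncomm_ring
  exact LinearMap.congr_fun this x

end mat

theorem rk_sub {K A M : Type*} [Field K] [Ring A] [Algebra K A] [AddCommGroup M] [Module K M]
    [Module A M] [IsScalarTower K A M] [FiniteDimensional K M] (N : Submodule A M) (y : A) :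
    rk K N y ≤ rk K M y := by
  refine (Submodule.finrank_map_subtype_eq (N.restrictScalars K) (LinearMap.range (act K N y))).ge.trans
    (Submodule.finrank_mono ?_)
  rintro _ ⟨_, ⟨x, rfl⟩, rfl⟩
  exact ⟨x, rfl⟩

theorem rep (cr : CR.{v, w}) (ek : EK.{v, w}) (bl : BL.{v, w}) (cf : CF.{v, w}) {p : ℕ} [Fact p.Prime]
    (hp : 11 ≤ p) {K : Type v} {V : Type w} [Field K] [AddCommGroup V] [Module K V]
    [FiniteDimensional K V] (σ : Representation K SL(2, ZMod p) V) : ¬ Small σ := fun h => by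
  obtain ⟨ν, hν⟩ := IsCyclic.exists_ofOrder_eq_natCard (α := (ZMod p)ˣ)
  rw [Nat.card_eq_fintype_card, ZMod.card_units] at hν
  have a1 := h _ (ma_ne 1)
  have a2 := h _ (ma_ne ν)
  have b1 := rk_N σ 1
  have b2 := rk_N σ ν
  set D := dat σ with hD
  by_cases hK : (p : K) = 0
  · have : CharP K p := (CharP.charP_iff_prime_eq_zero Fact.out).2 hK
    have ef := ek K _ p D hp
    have c1 := bl K _ V p D ν hp hν ef
    have c2 : D.Ineq ν V := cf K _ V p D ν hp hν ef
    have a3 := h _ (mu_ne (p := p))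
    have c3 : finrank K (LinearMap.ker (act K V D.e)) ≤ finrank K (LinearMap.ker (σ (mu 1) - 1)) := by
      refine Submodule.finrank_mono fun x hx => ?_
      obtain ⟨y, hy⟩ := ef.eU
      show (D.U 1 - 1) • x = 0
      rw [hy, mul_smul, show D.e • x = 0 from hx, smul_zero]
    unfold Dat.Ineq at c2
    beta_reduce at c1
    omega
  · let N : Submodule (Algebra.adjoin K (gens σ)) V :=
      { carrier := {x | D.H (-1) • x = -x}
        add_mem' := fun {x y} hx hy => by
          simp only [Set.mem_ofPred_eq] at *; rw [smul_add, hx, hy, neg_add]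
        zero_mem' := by simp
        smul_mem' := fun y x hx => by
          simp only [Set.mem_ofPred_eq] at *; rw [← mul_smul, D.zc, mul_smul, hx, smul_neg] }
    have : FiniteDimensional K N :=
      Module.Finite.of_injective (N.subtype.restrictScalars K) N.injective_subtype
    have c1 := cr K _ N p D ν hp hν hK fun m => Subtype.ext m.2
    have c2 := rk_sub (K := K) N (D.N 1)
    have c3 := rk_sub (K := K) N (D.N ν)
    have a3 := h _ (mz_ne hp)
    have c4 := LinearMap.finrank_range_add_finrank_ker (σ (mh (-1)) + 1)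
    have c5 : finrank K (LinearMap.range (σ (mh (-1)) + 1)) ≤
        finrank K (LinearMap.ker (σ (mh (-1)) - 1)) := by
      refine Submodule.finrank_mono ?_
      rintro _ ⟨x, rfl⟩
      have : (σ (mh (-1)) - 1) * (σ (mh (-1)) + 1) = 0 := by
        have e : σ (mh (-1)) * σ (mh (-1)) = 1 := congrArg Subtype.val D.zz
        rw [← sub_self (1 : End K V)]
        conv_rhs => arg 1; rw [← e]
        noncomm_ring
      exact LinearMap.congr_fun this x
    have c6 : finrank K (LinearMap.ker (σ (mh (-1)) + 1)) ≤ finrank K (N.restrictScalars K) :=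
      Submodule.finrank_mono fun x hx => eq_neg_of_add_eq_zero_left hx
    have c7 : finrank K (N.restrictScalars K) = finrank K N := rfl
    omega

theorem si (us : US.{v, w}) (sp : SP.{v, w}) (sm : SM.{v, w}) : SI.{v, w} := by
  intro K A M _ _ _ _ _ _ _ _ p _ _ D ν hp hν ef hs
  obtain ⟨s, j, x, c, h⟩ := us K A M p D ν hp hν ef hs
  rcases Nat.even_or_odd j with e | e
  exacts [sp K A M p D ν hp hν ef s j x c h e, sm K A M p D ν hp hν ef s j x c h e]

theorem fin (lt : LT.{u, v, w}) (l5 : L5.{u, v, w}) (g1 : G1.{u}) (g2 : G2.{u}) (g3 : G3.{u})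
    (g4 : G4.{u}) (cr : CR.{v, w}) (ek : EK.{v, w}) (bl : BL.{v, w}) (cf : CF.{v, w})
    {H : Type u} [Group H] [Finite H] (hR : 120 < (Cfsg.solvableRadical H).index)
    {K : Type v} {V : Type w} [Field K] [AddCommGroup V] [Module K V] [FiniteDimensional K V]
    (ρ : Representation K H V) :
    ∃ h : H, h ≠ 1 ∧ (finrank K V : ℚ) / 6 ≤ finrank K (LinearMap.ker (ρ h - 1)) := by
  by_contra hc
  have hs : Small ρ := fun h h1 => by
    by_contra e
    refine hc ⟨h, h1, ?_⟩
    rw [div_le_iff₀ (by norm_num)]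
    exact_mod_cast (not_lt.1 e).trans_eq (mul_comm _ _)
  obtain ⟨nt, ui⟩ := lt H K V ρ hs
  have n5 := l5 H K V ρ hs
  obtain ⟨L, hL⟩ := g1 H hR ui
  obtain ⟨p, hp, h7, X, f, hf⟩ := g2 L (nt.inj L.subtype_injective) (n5.inj L.subtype_injective) hL
  have := Fact.mk hp
  have i1 : Function.Injective (L.subtype.comp X.subtype) :=
    L.subtype_injective.comp X.subtype_injective
  have fi := g4.1 X p f h7 hf (g3 X p f h7 hf (ui.inj i1) (nt.inj i1))
  let e := MulEquiv.ofBijective f ⟨fi, hf.surj⟩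
  let g := (L.subtype.comp X.subtype).comp e.symm.toMonoidHom
  have gi : Function.Injective g := i1.comp e.symm.injective
  have h11 : 11 ≤ p := by
    by_contra h
    have : p < 11 := not_le.1 h
    interval_cases p
    · exact g4.2 (nt.inj gi)
    all_goals exact absurd hp (by norm_num)
  exact rep cr ek bl cf h11 (ρ.comp g) fun x hx => hs (g x) ((map_ne_one_iff g gi).2 hx)

end H17.FV
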