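import Cfsg.Agent.H17.FV1
import Cfsg.Agent.H2.FV1
import Cfsg.Agent.H2.FV2
import Cfsg.Agent.H3.FV1
import Cfsg.Agent.H26.FV1
import Cfsg.Agent.H13.FV1
import Cfsg.Agent.H22.FV1
import Cfsg.Agent.H22.FV2
import Cfsg.Agent.H6.FV1
import Cfsg.Agent.H27.FY1
import Cfsg.Agent.H9.FV1
import Cfsg.Agent.H23.FV1
import Cfsg.Agent.H29.FV1
import Cfsg.Agent.H21.FV1
import Cfsg.Agent.H11.FY1
import Cfsg.Agent.H15.FV1
import Cfsg.Agent.H18.FY1
import Cfsg.Agent.H10.FV.A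

/-! S5720 from the chunk `G3`. -/

set_option autoImplicit false

namespace H17.FV

universe u v w

theorem main (g3 : G3.{u}) {H : Type u} [Group H] [Finite H]
    (hR : 120 < (Cfsg.solvableRadical H).index) {K : Type v} {V : Type w} [Field K] [AddCommGroup V]
    [Module K V] [FiniteDimensional K V] (ρ : Representation K H V) :
    ∃ h : H, h ≠ 1 ∧ (Module.finrank K V : ℚ) / 6 ≤ Module.finrank K (LinearMap.ker (ρ h - 1)) :=
  fin H2.FV.lt H3.FV.l5 H26.FV.g1 H13.FV.g2 g3 H22.FV.g4 (H6.FV.cr H27.FY.vd) H2.FV.ek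
    (H9.FV.bl H23.FV.ch)
    (H29.FV.cf (si H21.FV.us H11.FY.sp (H22.FV.sm H23.FV.ch H15.FV.s2 H18.FY.sl H10.FV.su))) hR ρ

end H17.FV
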