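/-
Fixity four, part 1: a non-normal TI-subgroup `Q` of a `2`-group `S` with `N_S(Q)/Q ≤ S₄` forces
sectional rank at most four.
-/
import Cfsg.Agent.H17.FX0

set_option autoImplicit false
set_option linter.unusedSectionVars false

namespace H17.FX
open Cfsg Subgroup H24.E8
open H19 hiding eq_bot_mono

variable {G : Type*} [Group G] [Finite G] {A B D E H K L M P Q R S T W X Y : Subgroup G} {a b g r s t x y : G}
  {k m : ℕ}

structure Nn (D L S Q R P : Subgroup G) (g : G) : Prop where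
  i : T4 D L
  pg : PG 2 S
  eQ : Q = S ⊓ L
  eR : R = S ⊓ D
  eP : P = cj g Q
  gS : g ∈ S
  gN : g ∈ N(R)
  gR : g ∉ D
  ne : Q ≠ ⊥

namespace Nn
variable (c : Nn D L S Q R P g)
include c

theorem symm : Nn (cj g D) (cj g L) S P R Q g⁻¹ where
  i := c.i.J g
  pg := c.pg
  eQ := by rw [c.eP, c.eQ, cj_inf, cj_of_mem c.gS]
  eR := by rw [← cj_of_mem_norm c.gN, c.eR, cj_inf, cj_of_mem c.gS]
  eP := by rw [c.eP, cj_inv_cj]
  gS := inv_mem c.gS
  gN := inv_mem c.gN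
  gR := fun h => c.gR (by simpa using mem_cj.1 h)
  ne := by rw [c.eP]; exact fun h => c.ne (cj_eq_bot.1 h)

theorem QL : Q ≤ L := c.eQ.le.trans inf_le_right
theorem RS : R ≤ S := c.eR.le.trans inf_le_left
theorem RD : R ≤ D := c.eR.le.trans inf_le_right
theorem QR : Q ≤ R := by rw [c.eQ, c.eR]; exact inf_le_inf_left _ c.i.le
theorem PR : P ≤ R := c.symm.QR
theorem RL : R ⊓ L = Q := le_antisymm (c.eQ.ge.trans' (inf_le_inf_right _ c.RS)) (le_inf c.QR c.QL)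
theorem nQ : R ≤ N(Q) := c.eQ ▸ norms_inf (norms_of_le c.RS) (c.RD.trans c.i.norm)
theorem pR : PG 2 R := c.pg.of_le c.RS
theorem pQ : PG 2 Q := c.pR.of_le c.QR

theorem ti (hs : s ∈ S) (hx : x ∈ Q) (x1 : x ≠ 1) (h : s * x * s⁻¹ ∈ Q) : s ∈ R :=
  c.eR.ge ⟨hs, D.inv_mem_iff.1 (c.i.ti _ x (c.QL hx) x1 (mem_cj_inv.2 (c.QL h)))⟩

theorem dj (hs : s ∈ S) (h : s ∉ R) : Q ⊓ cj s Q = ⊥ := by
  by_contra e
  obtain ⟨x, hx, x1⟩ := exists_ne_one e
  exact h (inv_mem_iff.1 (c.ti (inv_mem hs) hx.1 x1 (by simpa using mem_cj.1 hx.2)))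

theorem cQ (hs : s ∈ S) (h : s ∉ R) : Q ⊓ C[s] = ⊥ := by
  by_contra e
  obtain ⟨x, hx, x1⟩ := exists_ne_one e
  exact h (c.ti hs hx.1 x1 (by rw [← mem_cent1.1 hx.2]; simpa using hx.1))

theorem gR' : g ∉ R := fun h => c.gR (c.RD h)
theorem QP : Q ⊓ P = ⊥ := c.eP ▸ c.dj c.gS c.gR'
theorem PL : P ⊓ L = ⊥ := eq_bot_mono (le_inf (c.RL.le.trans' (inf_le_inf_right _ c.PR)) inf_le_left) c.QP
theorem cent : Q ≤ C(P) := cents_of_norms_disjoint (c.PR.trans c.nQ) (c.QR.trans c.symm.nQ) c.QP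
theorem cP : #P = #Q := by rw [c.eP, card_cj]
theorem cA : #(Q ⊔ P) = #Q * #Q := by rw [card_sup_of_disjoint (c.PR.trans c.nQ) c.QP, c.cP]
theorem AR : Q ⊔ P ≤ R := sup_le c.QR c.PR
theorem nA : R ≤ N(Q ⊔ P) := norms_sup c.nQ c.symm.nQ
theorem cR : #R ≤ #Q * 8 := c.RL ▸ c.i.card8 c.RD c.pR

theorem c8 (hs : s ∈ S) (h : s ∉ R) : #(R ⊓ C[s]) ≤ 8 := by
  have := c.i.card8 (inf_le_left.trans c.RD) (c.pR.infl C[s])
  rwa [inf_right_comm, c.RL, c.cQ hs h, card_bot, one_mul] at this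

theorem bR : Bk 16 R := c.i.ext (k := 4) c.RD c.pR (c.RL ▸ c.symm.i.bk4 (c.QR.trans c.symm.RD) c.pQ c.symm.PL)

theorem cases : #Q = 2 ∨ #Q = 4 ∨ #Q = 8 := by
  have h1 := c.i.card8 (c.PR.trans c.RD) c.symm.pQ
  rw [c.PL, card_bot, c.cP] at h1
  have h2 := ne_bot_iff_one_lt_card.1 c.ne
  obtain ⟨n, hn⟩ := c.pQ.exists_card
  rw [hn] at h1 h2 ⊢
  have := (Nat.pow_le_pow_iff_right one_lt_two (m := 3)).1 h1
  interval_cases n <;> simp at h2 ⊢

theorem fin (l : W ≤ S) (i : R.relIndex W ≤ 2) : Bk 16 W := fun H M l1 l2 s => by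
  by_cases h : H ≤ R
  · exact c.bR H M h l2 s
  · obtain ⟨y, hy, hy'⟩ := SetLike.not_le_iff_exists.1 h
    exact t1 s hy ((card_le (inf_le_inf_right _ l1)).trans ((card_idx R W _).trans
      (Nat.mul_le_mul i (c.c8 (l (l1 hy)) hy'))))

/-- elements of `R` centralizing an abelian `P` of order at least `4` -/
theorem memA (h : Ab P) (h4 : 4 ≤ #P) (hr : r ∈ R) (e : P ≤ C[r]) : r ∈ Q ⊔ P := by
  have l : P ⊔ zpowers r ≤ R := sup_le c.PR (zpowers_le.2 hr)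
  have ab : Ab (P ⊔ zpowers r) := comm_sup h (comm_zpowers r) (by rwa [cent_zpowers])
  have h1 := c.i.card4 (l.trans c.RD) (c.pR.of_le l) fun x hx y hy => by
    rw [mul_comm_of_comm ab hx hy]; simp
  have l' : ((P ⊔ zpowers r) ⊓ L) ⊔ P ≤ P ⊔ zpowers r := sup_le inf_le_left le_sup_left
  have h2 := card_sup_of_disjoint (norms_of_comm ab le_sup_left (inf_le_left (b := L)))
    (eq_bot_mono (by rw [inf_comm]; exact inf_le_inf_left _ inf_le_right) c.PL)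
  have := eq_of_le_of_card_eq l' (le_antisymm (card_le l') (h1.trans (h2 ▸ Nat.mul_le_mul_left _ h4)))
  exact sup_le_sup_right (c.RL.le.trans' (inf_le_inf_right _ l)) P (this.ge (mem_sup_right (mem_zpowers r)))

theorem eight (h : #Q = 8) : Bk 16 S := by
  have eA : Q ⊔ P = R := eq_of_le_of_card_eq c.AR (le_antisymm (card_le c.AR) (by rw [c.cA, h]; have := c.cR; omega))
  have na : ¬ Ab Q := fun ab => by
    have := c.symm.i.card8 (c.QR.trans c.symm.RD) c.pQ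
    have := c.symm.i.card4 (c.QR.trans c.symm.RD) c.pQ fun x hx y hy => by
      rw [mul_comm_of_comm ab hx hy]; simp
    rw [c.symm.PL, card_bot] at this
    omega
  have k : ∀ s ∈ S ⊓ N(R), s ∉ R → g⁻¹ * s ∈ R := fun s hs h' => by
    by_contra h''
    have n : R ≤ N(cj s Q) := by rw [← cj_norm, ← cj_of_mem_norm hs.2]; exact cj_mono s c.nQ
    have l : cj s Q ≤ R := cj_le_of_mem_norm hs.2 c.QR
    have h1 := cents_of_norms_disjoint (l.trans c.nQ) (c.QR.trans n) (c.dj hs.1 h')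
    have h2 := cents_of_norms_disjoint (l.trans c.symm.nQ) (c.PR.trans n) (by
      rw [← cj_eq_bot (g := g⁻¹), cj_inf, ← c.symm.eP, ← cj_mul]
      exact c.dj (mul_mem (inv_mem c.gS) hs.1) h'')
    exact na (comm_cj.1 (comm_iff_le_cent.2 (l.trans (eA ▸ sup_le h1 h2))))
  have i2 : R.relIndex (S ⊓ N(R)) ≤ 2 := idx_two fun x hx y hy hx' hy' => by
    simpa [mul_assoc] using mul_mem (inv_mem (k x hx hx')) (k y hy hy')
  by_cases e : S ≤ S ⊓ N(R)
  · exact (c.fin inf_le_left i2).mono e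
  exfalso
  obtain ⟨u, uS, hu, hu'⟩ := grow c.pg inf_le_left e
  have l : ∀ X ≤ R, cj u X ≤ S ⊓ N(R) := fun X l => cj_le_of_mem_norm hu (l.trans (le_inf c.RS le_normalizer))
  have key : ∀ X Y : Subgroup G, X ≤ R → Y ≤ R → #X = 8 → #Y = 8 → X ≤ C(Y) → X ⊓ Y = ⊥ → cj u X ≤ R :=
      fun X Y lX lY cX cY ce d y hy => by
    by_contra hy'
    have pX := (c.pR.of_le lX).J u
    obtain ⟨z, hz, z1⟩ := exists_ne_one (pX.center_ne_bot (ne_bot_iff_one_lt_card.2 (by rw [card_cj]; omega)))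
    have h4 : 4 ≤ #(cj u X ⊓ C[y]) := by
      by_cases hc : y ∈ zpowers z
      · rw [inf_eq_left.2 ((le_cent1_iff.2 hz.2).trans (cent1_le_cent1_of_mem_zpowers hc)), card_cj]; omega
      · have := two_mul_le' (H := zpowers z) (K := cj u X ⊓ C[y])
          (zpowers_le.2 ⟨hz.1, cent_le_cent1 hy hz.2⟩) ⟨hy, mem_cent1_self y⟩ hc
        have := ne_bot_iff_one_lt_card.1 (ne_bot_of_mem (mem_zpowers z) z1)
        omega
    have ce' : cj u X ≤ C(cj u Y) := cj_cent u Y ▸ cj_mono u ce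
    have h5 := dj_le (A := S ⊓ N(R) ⊓ C[y]) (inf_le_inf_right C[y] (l X lX))
      (le_inf (l Y lY) (le_cent1_iff.2 (ce' hy))) (norms_of_cents (cents_symm (inf_le_left.trans ce')))
      (eq_bot_mono (inf_le_inf_right _ inf_le_left) (by rw [← cj_inf, d, cj_bot]))
    have h6 := (card_idx R _ C[y]).trans (Nat.mul_le_mul i2 (c.c8 (l X lX hy).1 hy'))
    rw [card_cj, cY] at h5
    omega
  refine hu' ⟨uS, mem_norm_of_cj_le ?_⟩
  nth_rw 1 [← eA]
  rw [cj_sup]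
  exact sup_le (key Q P c.QR c.PR h (c.cP.trans h) c.cent c.QP)
    (key P Q c.PR c.QR (c.cP.trans h) h c.symm.cent c.symm.QP)

theorem half (h : #Q = 4) (hr : r ∈ R) (h' : r ∉ Q ⊔ P) : #(P ⊓ C[r]) ≤ 2 := by
  have := two_mul_le (inf_lt_left.2 fun e => h' (c.memA (ab4 (c.cP.trans h)) (c.cP.trans h).ge hr e))
  have := c.cP
  omega

theorem c4 (h : #Q = 4) (hs : s ∈ S) (h' : s ∉ Q ⊔ P) : #((Q ⊔ P) ⊓ C[s]) ≤ 4 := by
  by_cases hr : s ∈ R
  · rw [← cent_zpowers, sup_inf_cent_of_disjoint (zpowers_le.2 (c.nQ hr)) (zpowers_le.2 (c.symm.nQ hr))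
      (c.PR.trans c.nQ) c.QP, cent_zpowers]
    refine (Nat.le_of_dvd (Nat.mul_pos (card_pos _) (card_pos _)) (card_sup_dvd (norms_of_cents
      (cents_mono c.symm.cent inf_le_left inf_le_left)))).trans ?_
    exact Nat.mul_le_mul (c.symm.half (c.cP.trans h) hr (by rwa [sup_comm])) (c.half h hr h')
  · have := dj_le (A := Q ⊔ P) le_sup_left (inf_le_left (b := C[s])) (inf_le_left.trans (c.AR.trans c.nQ))
      (eq_bot_mono (inf_le_inf_left _ inf_le_right) (c.cQ hs hr))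
    rw [c.cA, h] at this
    omega

theorem abA (h : #Q = 4) : Ab (Q ⊔ P) := comm_sup (ab4 h) (ab4 (c.cP.trans h)) c.cent

theorem four_e8 (h : #Q = 4) (x : Ex Q) (hr : r ∈ R) (h' : r ∉ Q ⊔ P) : Bk 16 S := by
  have xP : Ex P := c.eP ▸ ex_J x g
  have k1 : ∃ r ∈ R, r ∉ Q ⊔ P ∧ r * r ∈ L := by
    obtain ⟨p, hp, hp'⟩ := SetLike.not_le_iff_exists.1 fun e =>
      h' (c.memA (ab4 (c.cP.trans h)) (c.cP.trans h).ge hr e)
    rcases c.i.pair c.RD c.pR hr (c.PR hp) (fun e => hp' (mem_cent1.2 (by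
      have := c.PL.le ⟨P.mul_mem (conj_mem_of_norm (c.symm.nQ hr) hp) (inv_mem hp), e⟩
      rw [mem_bot, mul_inv_eq_one, mul_inv_eq_iff_eq_mul] at this
      exact this.symm))) with k | k | k
    exacts [⟨r, hr, h', k.1⟩, ⟨r, hr, h', k.1⟩, ⟨_, mul_mem hr (c.PR hp),
      fun e => h' ((mul_mem_cancel_right (mem_sup_right hp)).1 e), k.2⟩]
  have k2 : ∃ r ∈ R, r ∉ Q ⊔ P ∧ r * r = 1 := by
    obtain ⟨r, hr, h', k⟩ := k1
    by_cases r2 : r * r = 1
    · exact ⟨r, hr, h', r2⟩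
    have rQ : r * r ∈ Q := c.RL.le ⟨mul_mem hr hr, k⟩
    have hh := c.symm.half (c.cP.trans h) hr (by rwa [sup_comm])
    obtain ⟨q, hq, hq'⟩ := SetLike.not_le_iff_exists.1 fun e : Q ≤ C[r] => by
      rw [inf_eq_left.2 e] at hh; omega
    refine ⟨r * q, mul_mem hr (c.QR hq), fun e => h' ((mul_mem_cancel_right (mem_sup_left hq)).1 e), ?_⟩
    have m := conj_mem_of_norm' (c.nQ hr) hq
    have e := eq_of_le_of_card_eq (H := zpowers (r * r)) (K := Q ⊓ C[r]) (zpowers_le.2 ⟨rQ, mem_cent1.2 (by group)⟩)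
      (le_antisymm (card_le (zpowers_le.2 ⟨rQ, mem_cent1.2 (by group)⟩)) (by rwa [card_zp (x _ rQ) r2]))
    rcases mem_zp (x _ rQ) (e.ge (show r⁻¹ * q * r * q ∈ Q ⊓ C[r] from ⟨mul_mem m hq, mem_cent1.2 (by
      calc r⁻¹ * q * r * q * r = r⁻¹ * q * (r * r) * (r⁻¹ * q * r) := by group
        _ = r⁻¹ * (q * (r * r)) * (r⁻¹ * q * r) := by group
        _ = r * (q * (r⁻¹ * q * r)) := by rw [x.comm hq rQ]; group
        _ = _ := by rw [x.comm hq m])⟩)) with k | k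
    · refine absurd (mem_cent1.2 ?_) hq'
      rw [mul_eq_one_iff_eq_inv, x.inv hq] at k
      nth_rw 2 [← k]; group
    · calc r * q * (r * q) = r * r * (r⁻¹ * q * r * q) := by group
        _ = 1 := by rw [k]; exact x _ rQ
  obtain ⟨r, hr, h', r2⟩ := k2
  have i2 : (Q ⊔ P).relIndex R ≤ 2 := by
    have := card_mul_relIndex c.AR
    have := c.cR
    rw [c.cA, h] at *; omega
  have h8 := (card_idx (Q ⊔ P) R C[r]).trans (Nat.mul_le_mul i2 (c.c4 h (c.RS hr) h'))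
  have n : ∀ X, PG 2 X → r ∈ N(X) → X ≠ ⊥ → X ⊓ C[r] ≠ ⊥ := fun X pX n h => cent_zpowers r ▸
    pX.meet_cent (c.pR.of_le (zpowers_le.2 hr)) (zpowers_le.2 n) h
  have n1 := n Q c.pQ (c.nQ hr) c.ne
  have n2 := ne_bot_iff_one_lt_card.1 (n P c.symm.pQ (c.symm.nQ hr) c.symm.ne)
  have h4 := dj_le (A := (Q ⊔ P) ⊓ C[r]) (inf_le_inf_right C[r] le_sup_left) (inf_le_inf_right C[r] le_sup_right)
    (norms_of_cents (cents_mono c.symm.cent inf_le_left inf_le_left))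
    (eq_bot_mono (inf_le_inf inf_le_left inf_le_left) c.QP)
  have h5 := two_mul_le' (inf_le_inf_right C[r] c.AR) ⟨hr, mem_cent1_self r⟩ fun e => h' e.1
  have xA := ex_sup x xP c.cent
  obtain ⟨q, hq, q1⟩ := exists_ne_one n1
  have := ne_bot_iff_one_lt_card.1 n1
  refine e8 c.pg (E := R ⊓ C[r]) (inf_le_left.trans c.RS) (fun y hy => ?_) (by nlinarith) fun s hs =>
    ⟨c.ti hs.1 hq.1 q1 (by rw [← mem_cent.1 hs.2 q ⟨c.QR hq.1, hq.2⟩]; simpa using hq.1),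
      cent_le_cent1 (H := R ⊓ C[r]) ⟨hr, mem_cent1_self r⟩ hs.2⟩
  by_cases e : y ∈ Q ⊔ P
  · exact xA y e
  · have := xA _ (idx2' i2 hy.1 hr e h')
    rwa [mul_assoc, ← mul_assoc r, ← mem_cent1.1 hy.2, mul_assoc, r2, mul_one] at this

theorem finW (h : #Q = 4) (l : W ≤ S) (i : (Q ⊔ P).relIndex W ≤ 4) : Bk 16 W := fun H M l1 l2 s => by
  by_cases h' : H ≤ Q ⊔ P
  · exact bk_card (by rw [c.cA, h]) H M h' l2 s
  · obtain ⟨y, hy, hy'⟩ := SetLike.not_le_iff_exists.1 h'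
    exact t1 s hy ((card_le (inf_le_inf_right _ l1)).trans ((card_idx (Q ⊔ P) W _).trans
      (Nat.mul_le_mul i (c.c4 h (l (l1 hy)) hy'))))

theorem exB (h : #Q = 4) (eA : A = Q ⊔ P) (eW : W = S ⊓ N(A)) (i : A.relIndex W ≤ 4) (n : ¬ S ≤ W) :
    ∃ s, W ≤ N(cj s A) ∧ A ⊔ cj s A = W ∧ #(A ⊓ cj s A) = 4 ∧
      ∀ a ∈ A, ∀ b ∈ cj s A, a * b = b * a → a ∈ cj s A ∨ b ∈ A := by
  obtain ⟨s, sS, hs, hs'⟩ := grow c.pg (eW.le.trans inf_le_left) n
  have cA : #A = 16 := by rw [eA, c.cA, h]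
  have AW : A ≤ W := eW ▸ le_inf (eA.le.trans (c.AR.trans c.RS)) le_normalizer
  have nA : W ≤ N(A) := eW.le.trans inf_le_right
  have BW := cj_le_of_mem_norm hs AW
  have ab : Ab (cj s A) := comm_cj.2 (eA ▸ c.abA h)
  have k : ∀ b ∈ cj s A, b ∉ A → A ⊓ cj s A ≤ A ⊓ C[b] ∧ #(A ⊓ C[b]) ≤ 4 := fun b hb hb' =>
    ⟨inf_le_inf_left _ (le_cent1_iff.2 (comm_iff_le_cent.1 ab hb)), eA ▸ c.c4 h ((eW.le (BW hb)).1) (eA ▸ hb')⟩
  obtain ⟨b, hb, hb'⟩ := SetLike.not_le_iff_exists.1 fun e => hs' (eW.ge ⟨sS, mem_norm_of_cj_le e⟩)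
  have h1 := (card_le (k b hb hb').1).trans (k b hb hb').2
  have h2 := card_sup_mul_inf (BW.trans nA)
  have h3 := card_mul_relIndex AW
  have h4 := card_le (sup_le AW BW)
  rw [card_cj, cA] at h2
  have h5 : #(A ⊓ cj s A) = 4 := by
    by_contra e
    have := Nat.mul_le_mul (h4.trans (show #W ≤ 64 by rw [← h3, cA]; omega)) (show #(A ⊓ cj s A) ≤ 3 by omega)
    omega
  refine ⟨s, by rw [← cj_norm, ← cj_of_mem_norm hs]; exact cj_mono s nA,
    eq_of_le_of_card_eq (sup_le AW BW) (by rw [h5] at h2; rw [cA] at h3; omega), h5, fun a ha b hb e => ?_⟩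
  by_contra hc
  rw [not_or] at hc
  exact hc.1 ((eq_of_le_of_card_eq (k b hb hc.2).1 (le_antisymm (card_le (k b hb hc.2).1)
    (h5 ▸ (k b hb hc.2).2))).ge ⟨ha, mem_cent1.2 e⟩).2

theorem four_cyc (h : #Q = 4) (x : ¬ Ex Q) : Bk 16 S := by
  simp only [Ex, not_forall] at x
  obtain ⟨u, hu, u2⟩ := x
  have o : ∀ X : Subgroup G, #X = 4 → ∀ u ∈ X, u * u ≠ 1 → u * u * (u * u) = 1 ∧
      ∀ y ∈ X, y * y = 1 → y ∈ zpowers (u * u) := fun X cX u hu u2 => by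
    have h4 : u * u * (u * u) = 1 := by
      have := orderOf_dvd_iff_pow_eq_one.1 (cX ▸ orderOf_dvd_card' hu)
      rw [← this, show 4 = 2 + 2 from rfl, pow_add, sq]
    refine ⟨h4, fun y hy y2 => by_contra fun hy' => u2 ?_⟩
    have := two_mul_le' (H := zpowers (u * u)) (K := zpowers (u * u) ⊔ zpowers y) le_sup_left
      (mem_sup_right (mem_zpowers y)) hy'
    have l : zpowers (u * u) ⊔ zpowers y ≤ X := sup_le (zpowers_le.2 (mul_mem hu hu)) (zpowers_le.2 hy)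
    rw [card_zp h4 u2] at this
    exact ex_sup (ex_zp h4) (ex_zp y2) (cents_of_comm (ab4 cX) (le_sup_left.trans l) (le_sup_right.trans l)) u
      ((eq_of_le_of_card_eq l (le_antisymm (card_le l) (by omega))).ge hu)
  have hv : g * u * g⁻¹ ∈ P := c.eP ▸ conj_mem_cj.2 hu
  have v2 : g * u * g⁻¹ * (g * u * g⁻¹) ≠ 1 := fun e => u2 (by
    rw [show u * u = g⁻¹ * (g * u * g⁻¹ * (g * u * g⁻¹)) * g by group, e]; group)
  obtain ⟨o1, o2⟩ := o Q h u hu u2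
  obtain ⟨o3, o4⟩ := o P (c.cP.trans h) _ hv v2
  set v := g * u * g⁻¹
  have i2 : R.relIndex (S ⊓ N(Q ⊔ P)) ≤ 2 := by
    refine pwi (c.pg.infl _) 1 ?_
    have := ti_count (X := S ⊓ N(Q ⊔ P)) (R := R) (s := {u * u})
      (s' := (zpowers (u * u) ⊔ zpowers (v * v) : Subgroup G) \ {1}) (fun w hw q hq => ⟨?_, fun e => u2 (by
        rw [← show q = u * u from hq, show q = w⁻¹ * (w * q * w⁻¹) * w by group, show w * q * w⁻¹ = 1 from e]; group)⟩)
      fun w hw q hq q' hq' e => c.ti hw.1 (mul_mem hu hu) u2 (by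
        rw [← show q = u * u from hq, e, show q' = u * u from hq']; exact mul_mem hu hu)
    · have h1 := Nat.le_of_dvd (Nat.mul_pos (card_pos _) (card_pos _)) (card_sup_dvd (norms_of_cents (cents_mono
        c.symm.cent (zpowers_le.2 (mul_mem hv hv)) (zpowers_le.2 (mul_mem hu hu)))))
      rw [ncard_ne, Set.ncard_singleton] at this
      rw [card_zp o1 u2, card_zp o3 v2] at h1
      omega
    · obtain rfl : q = u * u := hq
      obtain ⟨a, ha, b, hb, e⟩ := (mem_sup_of_norm (c.PR.trans c.nQ)).1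
        (conj_mem_of_norm hw.2 (mem_sup_left (mul_mem hu hu)))
      have e2 : a * a * (b * b) = 1 := by
        calc _ = a * b * (a * b) := by rw [mul_assoc a b, ← mul_assoc b, mem_cent.1 (c.cent ha) b hb]; group
          _ = w * (u * u * (u * u)) * w⁻¹ := by rw [← e]; group
          _ = 1 := by rw [o1]; group
      have b2 : b * b = 1 := c.QP.le ⟨by
        rw [eq_inv_of_mul_eq_one_right e2]; exact Q.inv_mem (mul_mem ha ha), mul_mem hb hb⟩
      rw [b2, mul_one] at e2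
      rw [e]
      exact mul_mem (mem_sup_left (o2 a ha e2)) (mem_sup_right (o4 b hb b2))
  by_cases n : S ≤ S ⊓ N(Q ⊔ P)
  · exact (c.fin inf_le_left i2).mono n
  exfalso
  have l := le_inf c.RS c.nA
  have cR := c.cR
  obtain ⟨s, nB, e, c4, k⟩ := c.exB h rfl rfl (by
    have := card_mul_relIndex c.AR
    rw [← relIndex_mul_relIndex _ _ _ c.AR l]
    rw [c.cA, h] at *
    exact Nat.mul_le_mul (show _ ≤ 2 by omega) i2) n
  obtain ⟨b, hb, hb'⟩ := SetLike.not_le_iff_exists.1 fun l' : cj s (Q ⊔ P) ≤ R => by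
    have h1 := card_sup_mul_inf ((le_sup_right.trans e.le).trans inf_le_right)
    have := card_le (sup_le c.AR l')
    rw [c4, card_cj, c.cA, h] at h1
    omega
  have bW := e.le (mem_sup_right hb)
  have uA : u ∈ Q ⊔ P := mem_sup_left hu
  have m := conj_mem_of_norm bW.2 uA
  have ab := c.abA h
  have z : u⁻¹ * (b * u * b⁻¹) ∈ cj s (Q ⊔ P) := by
    have := mul_mem (conj_mem_of_norm' (nB (l (c.QR hu))) hb) (inv_mem hb)
    rwa [show u⁻¹ * b * u * b⁻¹ = u⁻¹ * (b * u * b⁻¹) by group] at this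
  have e1 := mul_comm_of_comm (comm_cj.2 ab) hb z
  have m2 := conj_mem_of_norm (c.nQ (idx2' i2 bW bW hb' hb')) hu
  have : b * u * b⁻¹ * (b * u * b⁻¹) = u * (b * b * u * (b * b)⁻¹) := by
    calc _ = u * (b * u * b⁻¹ * (u⁻¹ * (b * u * b⁻¹))) := by
          rw [← mul_assoc (b * u * b⁻¹) u⁻¹, mul_comm_of_comm ab m (inv_mem uA)]; group
      _ = u * (b * u * b⁻¹ * (b * (u⁻¹ * (b * u * b⁻¹)) * b⁻¹)) := by rw [e1]; group
      _ = _ := by group
  refine u2 ((c.cQ (e.le (mem_sup_right hb)).1 hb').le ⟨mul_mem hu hu, by_contra fun _ => hb' ?_⟩)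
  exact c.ti bW.1 (mul_mem hu hu) u2 (by
    rw [show b * (u * u) * b⁻¹ = b * u * b⁻¹ * (b * u * b⁻¹) by group, this]; exact mul_mem hu m2)

theorem four_ex (h : #Q = 4) (x : Ex Q) (eR : Q ⊔ P = R) : Bk 16 S := by
  have xA : Ex R := eR ▸ ex_sup x (c.eP ▸ ex_J x g) c.cent
  have cA : #R = 16 := by rw [← eR, c.cA, h]
  have i4 : R.relIndex (S ⊓ N(R)) ≤ 4 := by
    refine pwi (c.pg.infl _) 2 ?_
    have := ti_count (X := S ⊓ N(R)) (R := R) (s := (Q : Set G) \ {1}) (s' := (R : Set G) \ {1})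
      (fun w hw q hq => ⟨conj_mem_of_norm hw.2 (c.QR hq.1), fun e => hq.2 (by
        rw [show q = w⁻¹ * (w * q * w⁻¹) * w by group, show w * q * w⁻¹ = 1 from e]; simp)⟩)
      fun w hw q hq q' hq' e => c.ti hw.1 hq.1 hq.2 (e ▸ hq'.1)
    rw [ncard_ne, ncard_ne, cA, h] at this
    omega
  have fW := c.finW h (inf_le_left (b := N(R))) (eR ▸ i4)
  by_cases n : S ≤ S ⊓ N(R)
  · exact fW.mono n
  obtain ⟨s, nB, e, c4, k⟩ := c.exB h eR.symm rfl i4 n
  set B := cj s R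
  have nA : B ≤ N(R) := (le_sup_right.trans e.le).trans inf_le_right
  have xB : Ex B := ex_J xA s
  have tw : Tw R B := ⟨xA, xB, cA, by rw [card_cj, cA], c4, fun y hy y2 => by
    obtain ⟨a, ha, b, hb, rfl⟩ := (mem_sup_of_norm nA).1 hy
    rcases k a ha b hb (by rw [← inv_eq_of_mul_eq_one_right y2, mul_inv_rev, xA.inv ha, xB.inv hb]) with k | k
    exacts [.inr (mul_mem k hb), .inl (mul_mem ha k)]⟩
  obtain ⟨n1, i2⟩ := tw.main c.pg e.symm
  intro H M l1 l2 sq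
  by_cases hH : H ≤ S ⊓ N(R)
  · exact fW H M hH l2 sq
  obtain ⟨y, hy, hy'⟩ := SetLike.not_le_iff_exists.1 hH
  refine t1 sq hy ((card_le (inf_le_inf_right _ l1)).trans ((card_idx (R ⊔ B) S _).trans
    (Nat.mul_le_mul i2 (show _ ≤ 8 from pw (c.pg.of_le (inf_le_left.trans (e.le.trans inf_le_left))) 3 ?_))))
  obtain ⟨e1, e2⟩ := tw.swap (n1 (l1 hy)) fun h => hy' ⟨l1 hy, h⟩
  by_contra hc
  have nB' : R ⊔ B ≤ N(B) := e.le.trans nB
  have lZ : B ⊓ ((R ⊔ B) ⊓ C[y]) ≤ R ⊓ B := fun z hz => ⟨e2 ▸ mem_cj.2 (by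
    rw [mul_assoc, mem_cent1.1 hz.2.2]; simpa using hz.1), hz.1⟩
  have h1 := card_sup_mul_inf (A := B) (B := (R ⊔ B) ⊓ C[y]) (inf_le_left.trans nB')
  have h2 := card_le lZ
  have l3 : B ⊔ (R ⊔ B) ⊓ C[y] ≤ R ⊔ B := sup_le le_sup_right inf_le_left
  have h3 := card_le l3
  have h4 := card_sup_mul_inf nA
  rw [c4, cA, tw.cB] at h4
  rw [c4] at h2
  rw [tw.cB] at h1
  have h5 : 16 * 16 ≤ #(B ⊔ (R ⊔ B) ⊓ C[y]) * #(B ⊓ ((R ⊔ B) ⊓ C[y])) := by rw [h1]; omega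
  have eZ := eq_of_le_of_card_eq lZ (by
    by_contra e
    have := Nat.mul_le_mul (show _ ≤ 64 from h3.trans (by omega)) (show #(B ⊓ ((R ⊔ B) ⊓ C[y])) ≤ 3 by omega)
    omega)
  have eC := eq_of_le_of_card_eq l3 (by
    by_contra e
    have := Nat.mul_le_mul (show #(B ⊔ (R ⊔ B) ⊓ C[y]) ≤ 63 by omega) h2
    omega)
  obtain ⟨a0, ha0, b0, hb0, e0⟩ := (mem_sup_of_norm nA).1 (idx2' i2 (l1 hy) (l1 hy) (e ▸ hy') (e ▸ hy'))
  have key : ∀ a ∈ R, a ∉ B → y * a * y⁻¹ * b0 ∈ R := fun a ha ha' => by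
    obtain ⟨b, hb, w, hw, ew⟩ := (mem_sup_of_norm (inf_le_left.trans nB')).1 (eC.ge (mem_sup_left ha))
    have m1 : y * a * y⁻¹ ∈ B := e1 ▸ conj_mem_cj.2 ha
    have m2 : y * b * y⁻¹ ∈ R := e2 ▸ conj_mem_cj.2 hb
    have f1 : y * a * y⁻¹ = y * b * y⁻¹ * (b⁻¹ * a) := by
      rw [ew, inv_mul_cancel_left, ← mul_assoc y, mul_assoc _ w, ← mul_inv_cancel_left w y⁻¹]
      calc _ = y * b * (w * y⁻¹) := by group
        _ = y * b * (y⁻¹ * (y * w) * y⁻¹) := by group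
        _ = _ := by rw [← mem_cent1.1 hw.2]; group
    have z1 : y * a * y⁻¹ * b ∈ R ⊓ B := ⟨by
      rw [f1, mul_assoc]; exact mul_mem m2 (conj_mem_of_norm' (nA hb) ha), mul_mem m1 hb⟩
    have z2 := mem_cent1.1 (eZ.ge z1).2.2
    have f2 : b0 * a * b0⁻¹ = b⁻¹ * a * b := by
      calc _ = a0 * (b0 * a * b0⁻¹) * a0⁻¹ := by rw [xA.comm ha0 (conj_mem_of_norm (nA hb0) ha)]; group
        _ = y * y * a * (y * y)⁻¹ := by rw [e0]; group
        _ = y * (y * a * y⁻¹ * b) * y⁻¹ * (y * b * y⁻¹)⁻¹ := by group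
        _ = y * a * y⁻¹ * b * (y * b * y⁻¹)⁻¹ := by rw [← z2]; group
        _ = (y * b * y⁻¹)⁻¹ * (y * a * y⁻¹ * b) := xA.comm z1.1 (inv_mem m2)
        _ = _ := by rw [f1]; group
    have := (k a ha _ (mul_mem hb hb0) (by
      calc a * (b * b0) = b * (b⁻¹ * a * b) * b0 := by group
        _ = _ := by rw [← f2]; group)).resolve_left ha'
    have := mul_mem z1.1 (conj_mem_of_norm' (nA hb) this)
    rwa [show y * a * y⁻¹ * b * (b⁻¹ * (b * b0) * b) = y * a * y⁻¹ * (b * b0 * b) by group, xB.comm hb hb0,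
      mul_assoc b0, xB b hb, mul_one] at this
  have := idx_two (K := B) (X := R) fun a ha a' ha' n n' => by
    refine conj_mem_cj.1 (e2.ge ?_)
    convert conj_mem_of_norm (nA hb0) (mul_mem (inv_mem (key a ha n)) (key a' ha' n')) using 1
    group
  have h6 := card_inf_mul_relIndex B R
  rw [inf_comm, c4, cA] at h6
  omega

theorem two (h : #Q = 2) : Bk 16 S := by
  obtain ⟨x, hx, x1⟩ := exists_ne_one c.ne
  have x2 : x * x = 1 := by rw [← sq]; exact orderOf_dvd_iff_pow_eq_one.1 (h ▸ orderOf_dvd_card' hx)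
  have eQ : zpowers x = Q := eq_zpowers_of_prime (h ▸ Nat.prime_two) hx x1
  have k : ∀ X : Subgroup G, #X = 2 → R ≤ N(X) → R ≤ C(X) := fun X cX n r hr => mem_cent.2 fun y hy => by
    by_cases y1 : y = 1
    · simp [y1]
    have y2 : y * y = 1 := by rw [← sq]; exact orderOf_dvd_iff_pow_eq_one.1 (cX ▸ orderOf_dvd_card' hy)
    rcases mem_zp y2 ((eq_zpowers_of_prime (cX ▸ Nat.prime_two) hy y1).ge (conj_mem_of_norm (n hr) hy)) with e | e
    · exact absurd (by simpa using e) y1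
    · exact (mul_inv_eq_iff_eq_mul.1 e).symm
  have cV : R ≤ C(Q ⊔ P) := cents_sup (k Q h c.nQ) (k P (c.cP.trans h) c.symm.nQ)
  have xQ : Ex Q := eQ ▸ ex_zp x2
  have xV : Ex (Q ⊔ P) := ex_sup xQ (c.eP ▸ ex_J xQ g) c.cent
  have c4 : #(Q ⊔ P) = 4 := by rw [c.cA, h]
  have cR := c.cR
  have eR : S ⊓ C[x] ≤ R := fun s hs => c.ti hs.1 hx x1 (by rw [mem_cent1.1 hs.2]; simpa using hx)
  have na : 8 < #R → ∃ a ∈ R, ∃ b ∈ R, a * b * a⁻¹ * b⁻¹ ∉ L := fun h8 => by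
    by_contra e
    push Not at e
    have := c.i.card4 c.RD c.pR e
    rw [c.RL] at this
    omega
  by_cases hr : ∃ r ∈ R, r ∉ Q ⊔ P ∧ r * r = 1
  · obtain ⟨r, hr, h', r2⟩ := hr
    have l : Q ⊔ P ⊔ zpowers r ≤ R := sup_le c.AR (zpowers_le.2 hr)
    have ce : Q ⊔ P ≤ C(zpowers r) := cents_symm ((zpowers_le.2 hr).trans cV)
    have xE := ex_sup xV (ex_zp r2) ce
    have cE : #(Q ⊔ P ⊔ zpowers r) = 8 := by
      rw [card_sup_of_disjoint (norms_of_cents (cents_symm ce)) (eq_bot_iff.2 fun y hy =>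
        (mem_zp r2 hy.2).resolve_right fun e => h' (e ▸ hy.1)), c4, card_zp r2 fun e => h' (e ▸ one_mem _)]
    refine e8 c.pg (l.trans c.RS) xE cE fun s hs => ?_
    have l2 : Q ⊔ P ⊔ zpowers r ≤ R ⊓ C(Q ⊔ P ⊔ zpowers r) := le_inf l (comm_iff_le_cent.1 (ex_ab xE))
    refine (eq_of_card l2 ?_).ge ⟨eR ⟨hs.1, cent_le_cent1 (mem_sup_left (mem_sup_left hx)) hs.2⟩, hs.2⟩
    by_contra e
    have e' := eq_of_le_of_card_eq (inf_le_left (a := R) (b := C(Q ⊔ P ⊔ zpowers r)))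
      (le_antisymm (card_le inf_le_left) (by omega))
    obtain ⟨a, ha, b, hb, n⟩ := na (by have := card_le (inf_le_left (a := R) (b := C(Q ⊔ P ⊔ zpowers r))); omega)
    have i2 : (Q ⊔ P ⊔ zpowers r).relIndex R ≤ 2 := by have := card_mul_relIndex l; rw [cE] at this; omega
    suffices e : a * b = b * a from n (by rw [e]; simp)
    by_cases ea : a ∈ Q ⊔ P ⊔ zpowers r
    · exact mem_cent.1 (e'.ge hb).2 a ea
    by_cases eb : b ∈ Q ⊔ P ⊔ zpowers r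
    · exact (mem_cent.1 (e'.ge ha).2 b eb).symm
    have := mem_cent.1 (e'.ge ha).2 _ (idx2' i2 ha hb ea eb)
    rw [mul_assoc] at this
    exact (mul_left_cancel this).symm
  have hr : ∀ r ∈ R, r * r = 1 → r ∈ Q ⊔ P := fun r h1 h2 => by_contra fun h3 => hr ⟨r, h1, h3, h2⟩
  by_cases h8 : 8 < #R
  · exfalso
    have zV : ∀ v ∈ Q ⊔ P, ∀ y ∈ R, v * y = y * v := fun v hv y hy => mem_cent.1 (cV hy) v hv
    have sx : ∀ a ∈ R, ∀ b ∈ R, a * b ≠ b * a → a * a ∈ L → a * a = x := fun a ha b hb n e =>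
      (mem_zp x2 (eQ.ge (c.RL.le ⟨mul_mem ha ha, e⟩))).resolve_left fun e => n (zV a (hr a ha e) b hb)
    have k1 : ∃ a ∈ R, ∃ b ∈ R, a * b ≠ b * a ∧ a * a = x ∧ b * b = x := by
      obtain ⟨a, ha, b, hb, n⟩ := na h8
      have n' : a * b ≠ b * a := fun e => n (by rw [e]; simp)
      have hab := mul_mem ha hb
      have n1 : a * (a * b) ≠ a * b * a := fun e => n' (by rw [mul_assoc] at e; exact mul_left_cancel e)
      have n2 : b * (a * b) ≠ a * b * b := fun e => n' (by rw [← mul_assoc] at e; exact (mul_right_cancel e).symm)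
      rcases c.i.pair c.RD c.pR ha hb n with k | k | k
      exacts [⟨a, ha, b, hb, n', sx a ha b hb n' k.1, sx b hb a ha n'.symm k.2⟩,
        ⟨a, ha, _, hab, n1, sx a ha _ hab n1 k.1, sx _ hab a ha n1.symm k.2⟩,
        ⟨b, hb, _, hab, n2, sx b hb _ hab n2 k.1, sx _ hab b hb n2.symm k.2⟩]
    obtain ⟨a, ha, b, hb, n, a2, b2⟩ := k1
    have k2 : ∀ a ∈ R, ∀ b ∈ R, a * b ≠ b * a → (Q ⊔ P).relIndex (R ⊓ C[a]) ≤ 2 ∧ C[a].relIndex R ≤ 2 ∧
        a ∉ Q ⊔ P := fun a ha b hb n => by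
      have aV : a ∉ Q ⊔ P := fun e => n (zV a e b hb)
      have l : Q ⊔ P ≤ R ⊓ C[a] := le_inf c.AR (le_cent1_iff.2 (cV ha))
      have h1 := two_mul_le' l ⟨ha, mem_cent1_self a⟩ aV
      have h2 := two_mul_le' (inf_le_left (b := C[a])) hb fun e => n (mem_cent1.1 e.2).symm
      have h3 := card_mul_relIndex l
      have h4 := card_inf_mul_relIndex C[a] R
      rw [inf_comm, show #(R ⊓ C[a]) = 8 by omega] at h4
      rw [c4] at h3
      exact ⟨by omega, by omega, aV⟩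
    have k3 : ∀ a ∈ R, ∀ b ∈ R, a * b ≠ b * a → a * a = x → ∀ y ∈ R, y * y = g * x * g⁻¹ → y ∉ C[a] :=
      fun a ha b hb n a2 y hy y2 e => by
        obtain ⟨i1, -, aV⟩ := k2 a ha b hb n
        have x' : g * x * g⁻¹ ∈ P := c.eP ▸ conj_mem_cj.2 hx
        have yV : y ∉ Q ⊔ P := fun e => x1 (by simpa using y2.symm.trans (xV y e))
        have := xV _ (idx2' i1 ⟨hy, e⟩ ⟨ha, mem_cent1_self a⟩ yV aV)
        rw [mul_assoc, ← mul_assoc a, ← mem_cent1.1 e, mul_assoc, a2, ← mul_assoc, y2, mul_eq_one_iff_eq_inv,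
          inv_eq_of_mul_eq_one_right x2] at this
        exact x1 (c.QP.le ⟨hx, this ▸ x'⟩)
    have ga := conj_mem_of_norm c.gN ha
    have gb := conj_mem_of_norm c.gN hb
    have sa : g * a * g⁻¹ * (g * a * g⁻¹) = g * x * g⁻¹ := by rw [← a2]; group
    have sb : g * b * g⁻¹ * (g * b * g⁻¹) = g * x * g⁻¹ := by rw [← b2]; group
    obtain ⟨i1, i2, aV⟩ := k2 a ha b hb n
    have m1 := idx2' i2 ga gb (k3 a ha b hb n a2 _ ga sa) (k3 a ha b hb n a2 _ gb sb)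
    have m2 := idx2' (k2 b hb a ha n.symm).2.1 ga gb (k3 b hb a ha n.symm b2 _ ga sa) (k3 b hb a ha n.symm b2 _ gb sb)
    have m3 : g * a * g⁻¹ * (g * b * g⁻¹) ∈ Q ⊔ P := by_contra fun e => n (by
      have := zV _ (idx2' i1 ⟨mul_mem ga gb, m1⟩ ⟨ha, mem_cent1_self a⟩ e aV) b hb
      rw [mul_assoc, ← mul_assoc b, ← mem_cent1.1 m2, mul_assoc _ b a] at this
      exact mul_left_cancel this)
    have := zV _ m3 _ ga
    rw [mul_assoc] at this
    have := mul_left_cancel this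
    exact n (mul_right_cancel (b := g⁻¹) (by simpa [mul_assoc] using this.symm))
  rcases four c.pg with k | ⟨W, l, n, xW, cW, iW⟩
  · exact k.le (by norm_num)
  by_cases e : W ≤ C[x]
  · have l1 := (le_inf l e).trans eR
    have e' := eq_of_le_of_card_eq (fun w hw => hr w (l1 hw) (xW w hw)) (cW.trans c4.symm)
    have h1 := card_idx C(W) S S
    have h2 := card_le (show C(W) ⊓ S ≤ R from fun s hs => eR ⟨hs.2, cent_le_cent1 (e'.ge (mem_sup_left hx)) hs.1⟩)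
    rw [inf_idem] at h1
    exact bk_card (h1.trans (Nat.mul_le_mul iW (show _ ≤ 8 by omega)))
  have xS := c.RS (c.QR hx)
  refine bk_quo (k := 4) (m := 4) n (bk_card cW.le) (mc4 (c.pg.quo W) (x := qmk W ⟨x, n xS⟩) (mem_im_of xS) ?_)
  have h1 := card_qpre (quo W S ⊓ C[qmk W ⟨x, n xS⟩])
  have lY : qpre W (quo W S ⊓ C[qmk W ⟨x, n xS⟩]) ≤ S := qpre_le l inf_le_left
  have h2 := cent_bd (X := qpre W (quo W S ⊓ C[qmk W ⟨x, n xS⟩])) (y := x) (Y := W ⊓ C[x]) fun s hs => by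
    obtain ⟨sN, hs'⟩ := mem_pre.1 hs
    have m : s * x * s⁻¹ * x⁻¹ ∈ W := (qmk_eq_one (x := ⟨s, sN⟩ * ⟨x, n xS⟩ * ⟨s, sN⟩⁻¹ * ⟨x, n xS⟩⁻¹)).1 (by
      simp only [map_mul, map_inv]; rw [mem_cent1.1 hs'.2]; group)
    refine ⟨m, mem_cent1.2 ?_⟩
    nth_rw 2 [← xW.inv m]
    have xi := inv_eq_of_mul_eq_one_right x2
    simp only [mul_inv_rev, inv_inv, xi]
    rw [mul_assoc _ x x, x2, ← mul_assoc, ← mul_assoc, x2]; group
  have h3 := card_le ((inf_le_inf_right C[x] lY).trans eR)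
  have h4 := two_mul_le (inf_lt_left.2 e)
  have := Nat.mul_le_mul (show _ ≤ 8 from h3.trans (by omega)) (show #(W ⊓ C[x]) ≤ 2 by omega)
  rw [cW] at h1
  omega

theorem main : Bk 16 S := by
  rcases c.cases with h | h | h
  · exact c.two h
  · by_cases x : Ex Q
    · by_cases e : R ≤ Q ⊔ P
      · exact c.four_ex h x (le_antisymm c.AR e)
      · obtain ⟨r, hr, h'⟩ := SetLike.not_le_iff_exists.1 e
        exact c.four_e8 h x hr h'
    · exact c.four_cyc h x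
  · exact c.eight h

end Nn

theorem T4.nn (i : T4 D L) (hS : PG 2 S) (h : S ⊓ L ≠ ⊥) (n : ¬ S ≤ D) : Bk 16 S := by
  obtain ⟨g, gS, gN, g'⟩ := grow hS (inf_le_left (b := D)) fun e => n (e.trans inf_le_right)
  exact Nn.main ⟨i, hS, rfl, rfl, rfl, gS, gN, fun e => g' ⟨gS, e⟩, h⟩

end H17.FX
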