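/-
Fixity four, part 2: a TI-subgroup `L` with `N(L)/L ≤ S₄` and a conjugate meeting `N(L)` in a group of even
order: local structure.
-/
import Cfsg.Agent.H17.FX1

set_option autoImplicit false
set_option linter.unusedSectionVars false

namespace H17.FX
open Cfsg Subgroup H24.E8
open H19 hiding eq_bot_mono

variable {G : Type*} [Group G] [Finite G] {A B D D' E H K L L' M P Q R S T V W X Y Z : Subgroup G}
  {a b c g n q r s t u x y : G} {k m : ℕ}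

/-- elements commuting with `y` modulo `Z` -/
def cm (Z : Subgroup G) (y : G) : Subgroup G where
  carrier := {x | x ∈ N(Z) ∧ x * y * x⁻¹ * y⁻¹ ∈ Z}
  one_mem' := ⟨one_mem _, by simp⟩
  mul_mem' := fun {a b} ha hb => ⟨mul_mem ha.1 hb.1, by
    convert mul_mem (conj_mem_of_norm ha.1 hb.2) ha.2 using 1; group⟩
  inv_mem' := fun {a} ha => ⟨inv_mem ha.1, by
    convert conj_mem_of_norm' ha.1 (inv_mem ha.2) using 1; group⟩

theorem gen3 (l : V ≤ K) (l' : K ≤ X) (c : #X ≤ 4 * #V) (ha : a ∈ K) (hb : b ∈ K) (a' : a ∉ V) (b' : b ∉ V)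
    (h : a * b ∉ V) : K = X := by
  by_contra e
  have h1 := two_mul_le (lt_of_le_of_ne l' e)
  have h2 := card_mul_relIndex l
  refine h (idx2' (X := K) (Nat.le_of_mul_le_mul_left ?_ (card_pos V)) ha hb a' b')
  omega

theorem T4.selfc (i : T4 D L) (l : S ≤ D) (hS : PG 2 S) (lT : T ≤ S) (d : T ⊓ L = ⊥) (c : #T = 4) (hu : u ∈ S)
    (h : ∀ t ∈ T, u * t * u⁻¹ * t⁻¹ ∈ L) : ∃ t ∈ T, u * t⁻¹ ∈ L := by
  obtain ⟨φ, hφ⟩ := i.hom
  have c4 : #(im φ T) = 4 := by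
    have := card_inf_mul_relIndex L T
    rw [inf_comm, d, card_bot, one_mul] at this
    rw [i.idx hφ (lT.trans l), this, c]
  have ab : Ab (im φ T ⊔ zpowers (φ ⟨u, l hu⟩)) := comm_sup (ab4 c4) (comm_zpowers _) (by
    rw [cent_zpowers]
    intro _ hx
    obtain ⟨t, ht, rfl⟩ := mem_im.1 hx
    have := (hφ (⟨u, l hu⟩ * t * ⟨u, l hu⟩⁻¹ * t⁻¹)).2 (h _ ht)
    simp only [map_mul, map_inv] at this
    rw [mem_cent1, eq_comm, ← mul_inv_eq_one, ← this]; group)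
  have h4 := s4_ab ((hS.im φ).of_le (sup_le (im_mono lT) (zpowers_le.2 (mem_im_of (x := ⟨u, l hu⟩) hu))))
    fun x hx y hy => mul_comm_of_comm ab hx hy
  obtain ⟨t, ht, e⟩ := mem_im.1 ((eq_of_le_of_card_eq le_sup_left (le_antisymm (card_le le_sup_left)
    (h4.trans c4.ge))).ge (mem_sup_right (mem_zpowers _)))
  exact ⟨t, ht, (hφ (⟨u, l hu⟩ * t⁻¹)).1 (by rw [map_mul, map_inv, e, mul_inv_cancel])⟩

structure Pr (D L D' L' T Q V A X : Subgroup G) : Prop where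
  i : T4 D L
  i' : T4 D' L'
  dj : L ⊓ L' = ⊥
  TL : T ≤ L'
  TD : T ≤ D
  pT : PG 2 T
  ne : T ≠ ⊥
  QL : Q ≤ L
  pQ : PG 2 Q
  nQ : T ≤ N(Q)
  mx : ∀ Y ≤ L ⊓ D', PG 2 Y → #Y ≤ #T
  nle : ¬ Q ≤ D'
  eV : V = Q ⊓ D'
  eA : A = T ⊔ V
  eX : X = Q ⊓ N(A)

namespace Pr
variable (p : Pr D L D' L' T Q V A X)
include p

theorem VQ : V ≤ Q := p.eV.le.trans inf_le_left
theorem VD : V ≤ D' := p.eV.le.trans inf_le_right
theorem XQ : X ≤ Q := p.eX.le.trans inf_le_left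
theorem XN : X ≤ N(A) := p.eX.le.trans inf_le_right
theorem TA : T ≤ A := p.eA ▸ le_sup_left
theorem VA : V ≤ A := p.eA ▸ le_sup_right
theorem TLd : T ⊓ L = ⊥ := eq_bot_mono (le_inf inf_le_right (inf_le_left.trans p.TL)) p.dj
theorem nV : T ≤ N(V) := p.eV ▸ norms_inf p.nQ (norms_of_le (p.TL.trans p.i'.le))

theorem cVT : V ≤ C(T) := commg_eq_bot.1 (eq_bot_mono (le_inf ((commg_le_left p.nV).trans (p.VQ.trans p.QL))
  ((commutator_mono le_rfl p.TL).trans (commg_le_right (p.VD.trans p.i'.norm)))) p.dj)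

theorem cQ (ht : t ∈ T) (t1 : t ≠ 1) (hq : q ∈ Q) (h : q * t = t * q) : q ∈ V :=
  p.eV.ge ⟨hq, p.i'.cent (p.TL ht) t1 h⟩

theorem TV : T ⊓ V = ⊥ := eq_bot_mono (inf_le_inf_left _ (p.VQ.trans p.QL)) p.TLd
theorem cA : #A = #T * #V := p.eA ▸ card_sup_of_disjoint (norms_of_cents p.cVT) p.TV
theorem pU : PG 2 (T ⊔ Q) := p.pT.sup' p.pQ p.nQ
theorem AU : A ≤ T ⊔ Q := p.eA ▸ sup_le_sup_left p.VQ T
theorem pA : PG 2 A := p.pU.of_le p.AU

theorem AL : A ⊓ L = V := by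
  rw [p.eA, sup_inf_modr (norms_of_cents p.cVT) (p.VQ.trans p.QL), p.TLd, bot_sup_eq]

theorem VX : V ≤ X := p.eX ▸ le_inf p.VQ (norms_of_le p.VA)
theorem nXV : X ≤ N(V) := p.AL ▸ norms_inf p.XN ((p.XQ.trans p.QL).trans le_normalizer)

theorem exX : ∃ x ∈ X, x ∉ V := by
  obtain ⟨u, uS, hu, hu'⟩ := grow p.pU p.AU fun e => p.nle ((le_inf (le_sup_right.trans e) p.QL).trans
    (p.AL.le.trans p.VD))
  obtain ⟨t, ht, q, hq, rfl⟩ := (mem_sup_of_norm' p.nQ).1 uS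
  exact ⟨q, p.eX.ge ⟨hq, (mul_mem_cancel_left (le_normalizer (p.TA ht))).1 hu⟩, fun e =>
    hu' (mul_mem (p.TA ht) (p.VA e))⟩

theorem del' (hx : x ∈ L ⊓ N(A)) (ht : t ∈ T) : x * t * x⁻¹ * t⁻¹ ∈ V :=
  p.AL.le ⟨A.mul_mem (conj_mem_of_norm hx.2 (p.TA ht)) (inv_mem (p.TA ht)), by
    rw [mul_assoc, mul_assoc, ← mul_assoc t]
    exact L.mul_mem hx.1 (p.i.conj (p.TD ht) (inv_mem hx.1))⟩

theorem del (hx : x ∈ X) (ht : t ∈ T) : x * t * x⁻¹ * t⁻¹ ∈ V := p.del' ⟨p.QL (p.XQ hx), p.XN hx⟩ ht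

theorem card : #V = #T ∧ Ab A := by
  obtain ⟨x, hx, hx'⟩ := p.exX
  have d : T ⊓ cj x T = ⊥ := by
    by_contra e
    obtain ⟨y, hy, y1⟩ := exists_ne_one e
    exact hx' (p.eV.ge ⟨p.XQ hx, p.i'.ti x y (p.TL hy.1) y1 (cj_mono x p.TL hy.2)⟩)
  have nT : A ≤ N(T) := p.eA ▸ sup_le le_normalizer (norms_of_cents p.cVT)
  have l := cj_le_of_mem_norm (p.XN hx) p.TA
  have nT' : A ≤ N(cj x T) := by rw [← cj_norm, ← cj_of_mem_norm (p.XN hx)]; exact cj_mono x nT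
  have ce := cents_of_norms_disjoint (l.trans nT) (p.TA.trans nT') d
  have h1 := dj_le p.TA l (l.trans nT) d
  rw [card_cj, p.cA] at h1
  have h2 := le_antisymm (p.mx V (le_inf (p.VQ.trans p.QL) p.VD) (p.pQ.of_le p.VQ))
    (Nat.le_of_mul_le_mul_left h1 (card_pos _))
  have e : T ⊔ cj x T = A := eq_of_le_of_card_eq (sup_le p.TA l) (by
    rw [card_sup_of_disjoint (l.trans nT) d, card_cj, p.cA, h2])
  have ce' : A ≤ C(cj x T) := p.eA ▸ sup_le ce (by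
    rw [← cj_of_mem_norm (p.nXV hx), ← cj_cent]; exact cj_mono x p.cVT)
  have ab := comm_iff_le_cent.2 (l.trans ce')
  exact ⟨h2, e ▸ comm_sup (comm_cj.1 ab) ab ce⟩

theorem cases : #T = 2 ∨ #T = 4 := by
  have h1 := p.i.card4 p.TD p.pT fun x hx y hy => by
    rw [mul_comm_of_comm p.card.2 (p.TA hx) (p.TA hy)]; simp
  rw [p.TLd, card_bot] at h1
  have h2 := ne_bot_iff_one_lt_card.1 p.ne
  obtain ⟨n, hn⟩ := p.pT.exists_card
  rw [hn] at h1 h2 ⊢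
  have := (Nat.pow_le_pow_iff_right one_lt_two (m := 2)).1 h1
  interval_cases n <;> simp at h2 ⊢

theorem two (h : #T = 2) : Bk 4 Q := by
  obtain ⟨t, ht, t1⟩ := exists_ne_one p.ne
  refine (mc4 p.pU (mem_sup_left ht) ((card_le (K := A) fun y hy => ?_).trans (by rw [p.cA, p.card.1, h]))).mono
    le_sup_right
  obtain ⟨u, hu, q, hq, rfl⟩ := (mem_sup_of_norm' p.nQ).1 hy.1
  refine mul_mem (p.TA hu) (p.VA (p.cQ ht t1 hq (mem_cent1.1 ((mul_mem_cancel_left ?_).1 hy.2))))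
  exact mem_cent1.2 (mul_comm_of_comm p.card.2 (p.TA hu) (p.TA ht))

theorem fib (ht : t ∈ T) (t1 : t ≠ 1) : ∀ x ∈ X, ∀ x' ∈ X, x * t * x⁻¹ * t⁻¹ = x' * t * x'⁻¹ * t⁻¹ → x⁻¹ * x' ∈ V :=
  fun x hx x' hx' e => p.cQ ht t1 (mul_mem (inv_mem (p.XQ hx)) (p.XQ hx')) (by
    calc x⁻¹ * x' * t = x⁻¹ * (x' * t * x'⁻¹) * x' := by group
      _ = t * (x⁻¹ * x') := by rw [← mul_right_cancel e]; group)

theorem bij (hx : x ∈ X) (hx' : x ∉ V) : ∀ c ∈ V, ∃ t ∈ T, x * t * x⁻¹ * t⁻¹ = c :=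
  surj_of_fun (K := ⊥) _ (fun t ht => p.del hx ht) (fun t ht t' ht' e => by
    by_contra n
    refine hx' (p.cQ (mul_mem (inv_mem ht) ht') n (p.XQ hx) ?_)
    have c := mul_comm_of_comm p.card.2 (conj_mem_of_norm (p.XN hx) (p.TA (inv_mem ht))) (p.VA (p.del hx ht'))
    have c' := mul_comm_of_comm p.card.2 (p.TA (inv_mem ht)) (p.VA (p.del hx ht))
    calc x * (t⁻¹ * t') = x * t⁻¹ * x⁻¹ * (x * t' * x⁻¹ * t'⁻¹) * t' * x := by group
      _ = _ := by rw [← e]; group) (by rw [relIndex_bot_left, p.card.1])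

theorem sq (xV : Ex V) (hx : x ∈ X) : x * x ∈ V ∧ x ∈ C(V) := by
  by_cases hx' : x ∈ V
  · exact ⟨mul_mem hx' hx', comm_iff_le_cent.1 (ex_ab xV) hx'⟩
  have k : ∀ t, x * x * t * (x * x)⁻¹ = x * (x * t * x⁻¹ * t⁻¹) * x⁻¹ * (x * t * x⁻¹ * t⁻¹) * t := fun t => by group
  obtain ⟨c, hc, c1⟩ := exists_ne_one ((p.pQ.of_le p.VQ).meet_cent (p.pQ.of_le (zpowers_le.2 (p.XQ hx)))
    (zpowers_le.2 (p.nXV hx)) (ne_bot_iff_one_lt_card.2 (p.card.1 ▸ ne_bot_iff_one_lt_card.1 p.ne)))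
  obtain ⟨t, ht, e⟩ := p.bij hx hx' c hc.1
  have h1 : x * x ∈ V := p.cQ ht (fun e' => c1 (by rw [← e, e']; group)) (mul_mem (p.XQ hx) (p.XQ hx)) (by
    rw [← mul_inv_eq_iff_eq_mul, k, e, mem_cent.1 hc.2 x (mem_zpowers x), mul_inv_cancel_right, xV c hc.1, one_mul])
  refine ⟨h1, mem_cent.2 fun c hc => ?_⟩
  obtain ⟨t, ht, e⟩ := p.bij hx hx' c hc
  have := k t
  rw [← mem_cent.1 (p.cVT h1) t ht, mul_inv_cancel_right, e, eq_comm, mul_eq_right, mul_eq_one_iff_eq_inv,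
    xV.inv hc, mul_inv_eq_iff_eq_mul] at this
  exact this.symm

theorem idx4 (h : #T = 4) : V.relIndex X ≤ 4 := by
  obtain ⟨t, ht, t1⟩ := exists_ne_one p.ne
  exact (relIndex_le_of_fun _ (fun x hx => p.del hx ht) (p.fib ht t1)).trans (p.card.1.trans h).le

theorem sur (h : #T ≤ V.relIndex X) (ht : t ∈ T) (t1 : t ≠ 1) : ∀ c ∈ V, ∃ x ∈ X, x * t * x⁻¹ * t⁻¹ = c :=
  surj_of_fun _ (fun x hx => p.del hx ht) (p.fib ht t1) (p.card.1 ▸ h)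

theorem ex (h : #T ≤ V.relIndex X) : Ex V ∧ Ex T := by
  obtain ⟨t, ht, t2⟩ := exists_orderOf_eq_prime Nat.prime_two (p.pT.dvd_of_ne_bot p.ne)
  have t2' : t * t = 1 := by rw [← pow_two, ← t2, pow_orderOf_eq_one]
  have k : ∀ x ∈ X, ∀ u ∈ T, x * (u * u) * x⁻¹ = x * u * x⁻¹ * u⁻¹ * (x * u * x⁻¹ * u⁻¹) * (u * u) :=
    fun x hx u hu => by
      calc _ = x * u * x⁻¹ * u⁻¹ * (u * (x * u * x⁻¹ * u⁻¹)) * u := by group
        _ = _ := by rw [mem_cent.1 (p.cVT (p.del hx hu)) u hu]; group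
  have xV : Ex V := fun c hc => by
    obtain ⟨x, hx, e⟩ := p.sur h ht (fun e => by simp [e] at t2) c hc
    simpa [e, t2'] using (k x hx t ht).symm
  refine ⟨xV, fun u hu => by_contra fun u2 => ?_⟩
  obtain ⟨x, hx, hx'⟩ := p.exX
  refine hx' (p.cQ (mul_mem hu hu) u2 (p.XQ hx) ?_)
  rw [← mul_inv_eq_iff_eq_mul, k x hx u hu, xV _ (p.del hx hu), one_mul]

theorem nX : T ≤ N(X) := p.eX ▸ norms_inf p.nQ (norms_norm (norms_of_le p.TA))
theorem P0 : (T ⊔ Q) ⊓ N(A) = T ⊔ X := by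
  rw [sup_comm, sup_inf_modr p.nQ (norms_of_le p.TA), ← p.eX, sup_comm]
theorem P0Q : (T ⊔ X) ⊓ Q = X := by
  rw [sup_comm, sup_inf_modl p.nX p.XQ, eq_bot_mono (inf_le_inf_left _ p.QL) p.TLd, sup_bot_eq]
theorem cP0 : #(T ⊔ X) = #T * #X := by
  rw [sup_comm, card_sup_of_disjoint p.nX (eq_bot_mono (le_inf inf_le_right (inf_le_left.trans (p.XQ.trans p.QL)))
    p.TLd), mul_comm]

theorem exY (h : ¬ Q ≤ X) : ∃ y ∈ Q, y ∈ N(T ⊔ X) ∧ y ∉ X := by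
  obtain ⟨u, uS, hu, hu'⟩ := grow p.pU (sup_le_sup_left p.XQ T) fun e => h ((le_inf (le_sup_right.trans e)
    le_rfl).trans p.P0Q.le)
  obtain ⟨t, ht, q, hq, rfl⟩ := (mem_sup_of_norm' p.nQ).1 uS
  exact ⟨q, hq, (mul_mem_cancel_left (le_normalizer (mem_sup_left ht))).1 hu, fun e =>
    hu' (mul_mem (mem_sup_left ht) (mem_sup_right e))⟩

theorem small (h : #T = 4) (i : V.relIndex X ≤ 2) : #Q ≤ 8 := by
  have cV := p.card.1.trans h
  have cX : #X ≤ 8 := by rw [← card_mul_relIndex p.VX, cV]; omega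
  by_cases e : Q ≤ X
  · exact (card_le e).trans cX
  exfalso
  obtain ⟨y, hy, yN, yX⟩ := p.exY e
  have AP : A ≤ T ⊔ X := p.eA ▸ sup_le_sup_left p.VX T
  have l := cj_le_of_mem_norm yN AP
  have nA : T ⊔ X ≤ N(A) := p.P0.ge.trans inf_le_right
  have cA : #A = 16 := by rw [p.cA, cV, h]
  have h1 := card_sup_mul_inf (l.trans nA)
  have h2 := card_le (sup_le AP l)
  obtain ⟨b, hb, hb'⟩ := SetLike.not_le_iff_exists.1 fun e => yX (p.eX.ge ⟨hy, mem_norm_of_cj_le e⟩)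
  rw [p.cP0, h] at h2
  rw [card_cj, cA] at h1
  have h3 : T ⊓ (A ⊓ cj y A) ≠ ⊥ := fun e => by
    have := dj_le p.TA inf_le_left (norms_of_comm p.card.2 inf_le_left p.TA) e
    rw [h] at this
    have := Nat.mul_le_mul (show _ ≤ 32 from h2.trans (by omega)) (show #(A ⊓ cj y A) ≤ 4 by omega)
    omega
  obtain ⟨t, ht, t1⟩ := exists_ne_one h3
  obtain ⟨u, hu, x, hx, rfl⟩ := (mem_sup_of_norm' p.nX).1 (l hb)
  refine hb' (mul_mem (p.TA hu) (p.VA (p.cQ ht.1 t1 (p.XQ hx) ?_)))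
  have := mul_comm_of_comm (comm_cj.2 p.card.2) hb ht.2.2
  rw [← mul_assoc, ← mul_comm_of_comm p.card.2 (p.TA hu) (p.TA ht.1), mul_assoc, mul_assoc] at this
  exact mul_left_cancel this

theorem trans {Q' : Subgroup G} (p' : Pr D' L' D L V Q' T A Y) (h : #T = 4) (i : #T ≤ V.relIndex X) (ha : a ∈ V)
    (a1 : a ≠ 1) (hb : b ∈ V) (b1 : b ≠ 1) : ∃ n ∈ N(X), n * a * n⁻¹ = b := by
  obtain ⟨xV, xT⟩ := p.ex i
  obtain ⟨y, hy, hy'⟩ := p'.exX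
  let r : G → G → Prop := fun a b => ∃ n ∈ N(A), n * a * n⁻¹ = b
  have r1 : ∀ {a b}, r a b → r b a := fun ⟨n, hn, e⟩ => ⟨n⁻¹, inv_mem hn, by rw [← e]; group⟩
  have r2 : ∀ {a b c}, r a b → r b c → r a c := fun ⟨n, hn, e⟩ ⟨n', hn', e'⟩ =>
    ⟨n' * n, mul_mem hn' hn, by rw [← e', ← e]; group⟩
  have k1 : ∀ t ∈ T, t ≠ 1 → ∀ c ∈ V, r t (c * t) := fun t ht t1 c hc => by
    obtain ⟨x, hx, e⟩ := p.sur i ht t1 c hc
    exact ⟨x, p.XN hx, by rw [← e]; group⟩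
  have k2 : ∀ c ∈ V, c ≠ 1 → ∃ t ∈ T, t ≠ 1 ∧ r c t := fun c hc c1 =>
    have m := p'.del hy hc
    have n1 : y * c * y⁻¹ * c⁻¹ ≠ 1 := fun e => hy' (p'.cQ hc c1 (p'.XQ hy) (by
      rwa [mul_inv_eq_one, mul_inv_eq_iff_eq_mul] at e))
    ⟨_, m, n1, r2 ⟨y, p'.XN hy, by rw [← mem_cent.1 (p.cVT hc) _ m]; group⟩ (r1 (k1 _ m n1 c hc))⟩
  have k3 : ∀ t ∈ T, t ≠ 1 → ∀ t' ∈ T, t' ≠ 1 → r t t' := fun t ht t1 t' ht' t1' => by
    obtain ⟨c, hc, e⟩ := p'.bij hy hy' _ (mul_mem ht' (inv_mem ht))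
    refine r2 (k1 t ht t1 c hc) (r2 ⟨y, p'.XN hy, ?_⟩ (r1 (k1 t' ht' t1' c hc)))
    calc y * (c * t) * y⁻¹ = y * c * y⁻¹ * c⁻¹ * (c * (y * t * y⁻¹)) := by group
      _ = t' * t⁻¹ * (c * t) := by rw [e, ← mem_cent.1 (p'.sq xT hy).2 t ht, mul_inv_cancel_right]
      _ = _ := by rw [← mem_cent.1 (p.cVT hc) t ht, ← mem_cent.1 (p.cVT hc) t' ht']; group
  obtain ⟨t, ht, t1, e1⟩ := k2 a ha a1
  obtain ⟨t', ht', t1', e2⟩ := k2 b hb b1
  obtain ⟨n, hn, e⟩ := r2 e1 (r2 (k3 t ht t1 t' ht' t1') (r1 e2))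
  have nD : n ∈ D := D.inv_mem_iff.1 (p.i.ti _ a (p.QL (p.VQ ha)) a1 (mem_cj_inv.2 (e ▸ p.QL (p.VQ hb))))
  have nn : D ⊓ N(A) ≤ N(L ⊓ N(A)) := norms_inf (inf_le_left.trans p.i.norm) (norms_norm inf_le_right)
  have nC : L ⊓ N(A) ⊓ C(V) ⊴ D ⊓ N(A) := ⟨inf_le_left.trans (inf_le_inf_right _ p.i.le), norms_inf nn (norms_cent
    (p.AL ▸ norms_inf inf_le_right (inf_le_left.trans p.i.norm)))⟩
  have sy : Syl 2 X (L ⊓ N(A) ⊓ C(V)) := syl_of_max (le_inf (le_inf (p.XQ.trans p.QL) p.XN) fun x hx =>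
    (p.sq xV hx).2) (p.pQ.of_le p.XQ) fun X1 l p1 l1 => (eq_of_le_of_card_eq l1 (le_antisymm (card_le l1) (by
      have h1 := cent_bd (X := X1) (y := t) fun x hx => p.del' (l hx).1 ht
      have h2 := p.mx (X1 ⊓ C[t]) (fun x hx => ⟨(l hx.1).1.1, p.i'.cent (p.TL ht) t1 (mem_cent1.1 hx.2)⟩) (p1.infl _)
      rw [← card_mul_relIndex p.VX, mul_comm]
      exact h1.trans (Nat.mul_le_mul_right _ (h2.trans i))))).symm
  obtain ⟨c, hc, n', hn', rfl⟩ := (mem_sup_of_norm (inf_le_left.trans nC.norm)).1 ((sy.frattini nC).ge ⟨nD, hn⟩)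
  refine ⟨n', hn'.2, ?_⟩
  calc _ = c⁻¹ * (c * n' * a * (c * n')⁻¹) * c := by group
    _ = _ := by rw [e, mul_assoc, mem_cent.1 hc.2 b hb]; group

theorem abX {Q' : Subgroup G} (p' : Pr D' L' D L V Q' T A Y) (h : #T = 4) (i : #T ≤ V.relIndex X) : Ab X := by
  obtain ⟨xV, xT⟩ := p.ex i
  have cV := p.card.1.trans h
  have cX : #X ≤ 4 * #V := by rw [← card_mul_relIndex p.VX, mul_comm]; exact Nat.mul_le_mul_right _ (p.idx4 h)
  have zV : ∀ v ∈ V, ∀ x ∈ X, v * x = x * v := fun v hv x hx => mem_cent.1 (p.sq xV hx).2 v hv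
  refine comm_iff_le_cent.2 fun a ha => mem_cent.2 fun b hb => by_contra fun n => ?_
  have m : a * b * a⁻¹ * b⁻¹ ∈ V := comm_mem (fun x hx => (p.sq xV hx).1) ha hb
  have n1 : a * b * a⁻¹ * b⁻¹ ≠ 1 := fun e => n (by rw [mul_inv_eq_one, mul_inv_eq_iff_eq_mul] at e; exact e.symm)
  set Z := zpowers (a * b * a⁻¹ * b⁻¹)
  have nZ : X ≤ N(Z) := norms_of_cents (by rw [cent_zpowers]; exact fun x hx => mem_cent1.2 (zV _ m x hx).symm)
  have k : ∀ y ∈ X, a * y * a⁻¹ * y⁻¹ ∈ Z → b * y * b⁻¹ * y⁻¹ ∈ Z → ∀ x ∈ X, x * y * x⁻¹ * y⁻¹ ∈ Z :=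
    fun y hy h1 h2 x hx => ((gen3 (K := X ⊓ cm Z y) (fun v hv => ⟨p.VX hv, nZ (p.VX hv), by
      rw [zV v hv y hy]; simp⟩) inf_le_left cX ⟨ha, nZ ha, h1⟩ ⟨hb, nZ hb, h2⟩ (fun e => n (zV a e b hb).symm)
      (fun e => n (zV b e a ha)) fun e => n (by
        have := zV _ e a ha
        rw [mul_assoc] at this
        exact mul_left_cancel this)).ge hx).2.2
  have sy : ∀ x y : G, x * y * x⁻¹ * y⁻¹ ∈ Z → y * x * y⁻¹ * x⁻¹ ∈ Z := fun x y h => by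
    convert inv_mem h using 1; group
  have ka := k a ha (by simp) (sy _ _ (mem_zpowers _))
  have kb := k b hb (mem_zpowers _) (by simp)
  obtain ⟨c, hc, hc'⟩ := SetLike.not_le_iff_exists.1 fun e : V ≤ Z => by
    have := card_le e
    rw [card_zp (xV _ m) n1] at this
    omega
  obtain ⟨n, hn, e⟩ := p.trans p' h i m n1 hc fun e => hc' (e ▸ one_mem _)
  have ha' := conj_mem_of_norm hn ha
  have hb' := conj_mem_of_norm hn hb
  refine hc' ?_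
  convert k _ hb' (sy _ _ (ka _ hb')) (sy _ _ (kb _ hb')) _ ha' using 1
  rw [← e]; group

theorem omega {Q' : Subgroup G} (p' : Pr D' L' D L V Q' T A Y) (h : #T = 4) (i : #T ≤ V.relIndex X) (ha : a ∈ X)
    (a2 : a * a ≠ 1) : ∀ x ∈ X, x * x = 1 → x ∈ V := fun x hx x2 => by
  obtain ⟨xV, xT⟩ := p.ex i
  have ab := p.abX p' h i
  by_contra hx'
  have l : V ⊔ zpowers x ≤ X := sup_le p.VX (zpowers_le.2 hx)
  have xK := ex_sup xV (ex_zp x2) (cents_of_comm ab p.VX (zpowers_le.2 hx))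
  have h1 := le_relIndex_of_fun (K := V ⊔ zpowers x) (X := X) (Y := V) (fun x => x * x) (fun c hc => by
    by_cases c1 : c = 1
    · exact ⟨1, one_mem _, by simp [c1]⟩
    obtain ⟨n, hn, e⟩ := p.trans p' h i (p.sq xV ha).1 a2 hc c1
    exact ⟨_, conj_mem_of_norm hn ha, by rw [← e]; group⟩) fun y hy y' hy' e => by
      have := xK _ e
      rw [mul_assoc, ← mul_assoc y', mul_comm_of_comm ab hy' (inv_mem hy)] at this
      calc y * y = y * y * (y⁻¹ * (y⁻¹ * y' * y')) := by rw [this, mul_one]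
        _ = _ := by group
  have h2 := two_mul_le' (K := V ⊔ zpowers x) le_sup_left (mem_sup_right (mem_zpowers x)) hx'
  have h3 := card_mul_relIndex l
  have h4 := card_mul_relIndex p.VX
  have h5 := p.idx4 h
  rw [p.card.1, h] at h1 h2 h4
  have := Nat.mul_le_mul h2 h1
  omega

theorem finAb (lS : S ≤ D) (hS : PG 2 S) (eQ : Q = S ⊓ L) (lT : T ≤ S) (h : #T = 4) (ab : Ab Q) (c : #Q ≤ 16) :
    Bk 16 S := fun H M l1 l2 s => by
  have lQ : H ⊓ L ≤ Q := eQ ▸ inf_le_inf_right _ l1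
  have nL : ∀ h ∈ H, ∀ x ∈ H ⊓ L, x * h * x⁻¹ * h⁻¹ ∈ M ⊓ L := fun h hh x hx => ⟨comm_mem s hx.1 hh, by
    rw [mul_assoc, mul_assoc, ← mul_assoc h]
    exact L.mul_mem hx.2 (p.i.conj (lS (l1 hh)) (inv_mem hx.2))⟩
  by_cases e : H ⊓ (T ⊔ Q) ≤ L
  · have lU : T ⊔ Q ≤ S := sup_le lT (eQ.le.trans inf_le_left)
    have i2 : (T ⊔ Q).relIndex S ≤ 2 := by
      have h1 := card_mul_relIndex lU
      have h2 := p.i.card8 lS hS
      rw [sup_comm, card_sup_of_disjoint p.nQ (eq_bot_mono (le_inf inf_le_right (inf_le_left.trans p.QL)) p.TLd), h,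
        sup_comm] at h1
      refine Nat.le_of_mul_le_mul_left ?_ (show 0 < #Q * 4 from Nat.mul_pos (card_pos _) (by norm_num))
      rw [← eQ] at h2
      omega
    have i3 := idx_two (K := L) (X := H) fun x hx y hy hx' hy' => e ⟨H.mul_mem (inv_mem hx) hy, idx2' i2
      (inv_mem (l1 hx)) (l1 hy) (fun k => hx' (e ⟨hx, (T ⊔ Q).inv_mem_iff.1 k⟩)) fun k => hy' (e ⟨hy, k⟩)⟩
    by_cases e1 : #(H ⊓ L) ≤ 8 * #(M ⊓ L)
    · exact mul_bd e1 (b := 2) (i3.trans (Nat.le_mul_of_pos_right _ (relIndex_pos _ _)))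
    by_cases e2 : H ≤ L
    · exact bk_card c H M (le_inf le_rfl e2 |>.trans lQ) l2 s
    exfalso
    obtain ⟨u, hu, hu'⟩ := SetLike.not_le_iff_exists.1 e2
    have h1 := card_le lQ
    have h2 := card_pos (M ⊓ L)
    have e3 := eq_of_card lQ (by omega)
    have e4 : M ⊓ L = ⊥ := by by_contra k; have := ne_bot_iff_one_lt_card.1 k; omega
    have uC : u ∈ C(Q) := mem_cent.2 fun q hq => by
      have := e4.le (nL u hu q (e3.ge hq))
      rwa [mem_bot, mul_inv_eq_one, mul_inv_eq_iff_eq_mul] at this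
    have uU : u ∉ T ⊔ Q := fun k => hu' (e ⟨hu, k⟩)
    obtain ⟨t, ht, k⟩ := p.i.selfc lS hS lT p.TLd h (l1 hu) fun t ht => by
      obtain ⟨t', ht', q, hq, e⟩ := (mem_sup_of_norm' p.nQ).1 (mul_mem (idx2' i2 (mul_mem (l1 hu) (lT ht))
        (inv_mem (l1 hu)) (fun k => uU ((mul_mem_cancel_right (mem_sup_left ht)).1 k)) fun k => uU (inv_mem_iff.1 k))
        (inv_mem (mem_sup_left ht)))
      have m : t' * q ∈ C(Q) := by
        rw [← e, mul_assoc, mul_assoc, ← mul_assoc t]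
        exact mul_mem uC (conj_mem_of_norm (norms_cent p.nQ ht) (inv_mem uC))
      have m' := (mul_mem_cancel_right (comm_iff_le_cent.1 ab hq)).1 m
      by_cases t1 : t' = 1
      · rw [e, t1, one_mul]; exact p.QL hq
      · exact absurd (fun q hq => p.VD (p.cQ ht' t1 hq (mem_cent.1 m' q hq))) p.nle
    exact uU ((mul_mem_cancel_right (inv_mem (mem_sup_left ht))).1
      (mem_sup_right (eQ.ge ⟨S.mul_mem (l1 hu) (inv_mem (lT ht)), k⟩)))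
  · obtain ⟨y, hy, hy'⟩ := SetLike.not_le_iff_exists.1 e
    obtain ⟨t, ht, q, hq, rfl⟩ := (mem_sup_of_norm' p.nQ).1 hy.2
    refine mul_bd (a := 4) ((cent_bd (nL _ hy.1)).trans (Nat.mul_le_mul_right _ ((card_le fun x hx => ?_).trans
      (p.card.1.trans h).le))) (p.i.qb (l1.trans lS) (hS.of_le l1) l2 s)
    refine p.cQ ht (fun e => hy' (by rw [e, one_mul]; exact p.QL hq)) (lQ hx.1) ?_
    have := mem_cent1.1 hx.2
    rw [mul_assoc, ← mul_comm_of_comm ab (lQ hx.1) hq, ← mul_assoc, ← mul_assoc] at this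
    exact mul_right_cancel this

theorem xt (i : #T ≤ V.relIndex X) (hy : y ∈ Q) (yN : y ∈ N(T ⊔ X)) (yX : y ∉ X) (ht : t ∈ T) :
    y * t * y⁻¹ * t⁻¹ ∈ X ∧ (t ≠ 1 → y * t * y⁻¹ * t⁻¹ ∉ V) ∧
      t * (y * t * y⁻¹ * t⁻¹) * t⁻¹ = (y * t * y⁻¹ * t⁻¹)⁻¹ := by
  refine ⟨p.P0Q.le ⟨(T ⊔ X).mul_mem (conj_mem_of_norm yN (mem_sup_left ht)) (inv_mem (mem_sup_left ht)), ?_⟩,
    fun t1 m => ?_, ?_⟩
  · rw [mul_assoc, mul_assoc, ← mul_assoc t]
    exact Q.mul_mem hy (conj_mem_of_norm (p.nQ ht) (inv_mem hy))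
  · obtain ⟨x, hx, e⟩ := p.sur i ht t1 _ m
    refine yX ((mul_mem_cancel_left (inv_mem hx)).1 (p.VX (p.cQ ht t1 (mul_mem (inv_mem (p.XQ hx)) hy) ?_)))
    calc x⁻¹ * y * t = x⁻¹ * (y * t * y⁻¹) * y := by group
      _ = t * (x⁻¹ * y) := by rw [← mul_right_cancel e]; group
  · have := inv_eq_of_mul_eq_one_right ((p.ex i).2 t ht)
    simp only [mul_inv_rev, inv_inv, this]
    rw [mul_assoc t, mul_assoc _ t t, (p.ex i).2 t ht]; group

theorem xt2 (i : #T ≤ V.relIndex X) (hy : y ∈ Q) (yN : y ∈ N(T ⊔ X)) (yX : y ∉ X) (ht : t ∈ T) (hu : u ∈ T)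
    (n : t ≠ u) : y * t * y⁻¹ * t⁻¹ * (y * u * y⁻¹ * u⁻¹) ∉ V := fun m => by
  refine (p.xt i hy yN yX (mul_mem ht hu)).2.1 (fun e => n (by
    rw [eq_inv_of_mul_eq_one_left e, (p.ex i).2.inv hu])) ?_
  have hx := (p.xt i hy yN yX hu).1
  convert mul_mem m (p.del (inv_mem hx) ht) using 1
  group

theorem big {Q' : Subgroup G} (p' : Pr D' L' D L V Q' T A Y) (h : #T = 4) (i : #T ≤ V.relIndex X) (n : ¬ Q ≤ X)
    (lS : S ≤ D) (hS : PG 2 S) (eQ : Q = S ⊓ L) (lT : T ≤ S) : Bk 16 S := by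
  obtain ⟨xV, xT⟩ := p.ex i
  have ab := p.abX p' h i
  have cV := p.card.1.trans h
  have cX : #X = 4 * #V := by rw [← card_mul_relIndex p.VX, mul_comm, le_antisymm (p.idx4 h) (h ▸ i)]
  obtain ⟨y, hy, yN, yX⟩ := p.exY n
  have ci : ∀ t ∈ T, t ≠ 1 → ∀ x ∈ X, x ∉ V → t * x * t⁻¹ ≠ x := fun t ht t1 x hx hx' e =>
    hx' (p.cQ ht t1 (p.XQ hx) (mul_inv_eq_iff_eq_mul.1 e).symm)
  have ex2 : ∀ t ∈ T, ∃ u ∈ T, u ≠ 1 ∧ t ≠ u := fun t ht => by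
    obtain ⟨u, hu, hu'⟩ := SetLike.not_le_iff_exists.1 fun e : T ≤ zpowers t => by
      have := card_le e
      have := orderOf_le_of_pow_eq_one two_pos ((pow_two t).trans (xT t ht))
      rw [Nat.card_zpowers] at *
      omega
    exact ⟨u, hu, fun e => hu' (e ▸ one_mem _), fun e => hu' (e ▸ mem_zpowers _)⟩
  obtain ⟨t0, ht0, t01⟩ := exists_ne_one p.ne
  obtain ⟨m1, m2, m3⟩ := p.xt i hy yN yX ht0
  have om := p.omega p' h i m1 fun e => ci t0 ht0 t01 _ m1 (m2 t01) (m3.trans (inv_eq_of_mul_eq_one_right e))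
  have AP : A ≤ T ⊔ X := p.eA ▸ sup_le_sup_left p.VX T
  have BP := cj_le_of_mem_norm yN AP
  have nA : T ⊔ X ≤ N(A) := p.P0.ge.trans inf_le_right
  have xA : Ex A := p.eA ▸ ex_sup xT xV (cents_symm p.cVT)
  have cA : #A = 16 := by rw [p.cA, cV, h]
  have yX' : y ∈ N(X) := p.P0Q ▸ (norms_inf (zpowers_le.2 yN) (norms_of_le (zpowers_le.2 hy))) (mem_zpowers y)
  have VB : V ≤ cj y A := fun c hc => mem_cj.2 (p.VA (om _ (conj_mem_of_norm' yX' (p.VX hc)) (by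
    rw [show y⁻¹ * c * y * (y⁻¹ * c * y) = y⁻¹ * (c * c) * y by group, xV c hc]; group)))
  have eZ : A ⊓ cj y A = V := le_antisymm (fun b hb => by
    obtain ⟨a, ha, rfl⟩ := mem_cj'.1 hb.2
    obtain ⟨t, ht, c, hc, rfl⟩ := (mem_sup_of_norm (norms_of_cents p.cVT)).1 (p.eA.le ha)
    have m : y * c * y⁻¹ ∈ V := om _ (conj_mem_of_norm yX' (p.VX hc)) (by
      rw [show y * c * y⁻¹ * (y * c * y⁻¹) = y * (c * c) * y⁻¹ by group, xV c hc]; group)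
    by_cases t1 : t = 1
    · simpa [t1] using m
    refine absurd (p.AL.le ⟨?_, p.QL (p.XQ (p.xt i hy yN yX ht).1)⟩) ((p.xt i hy yN yX ht).2.1 t1)
    rw [show y * t * y⁻¹ * t⁻¹ = y * (t * c) * y⁻¹ * (y * c * y⁻¹)⁻¹ * t⁻¹ by group]
    exact A.mul_mem (A.mul_mem hb.1 (inv_mem (p.VA m))) (inv_mem (p.TA ht))) (le_inf p.VA VB)
  have eP : A ⊔ cj y A = T ⊔ X := eq_of_le_of_card_eq (sup_le AP BP) (by
    have := card_sup_mul_inf (BP.trans nA)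
    rw [eZ, card_cj, cA, cV] at this
    rw [p.cP0, cX, cV, h]; omega)
  have tw : Tw A (cj y A) := ⟨xA, ex_J xA y, cA, by rw [card_cj, cA], by rw [eZ, cV], fun z hz z2 => by
    obtain ⟨t, ht, x, hx, rfl⟩ := (mem_sup_of_norm' p.nX).1 (eP.le hz)
    by_cases t1 : t = 1
    · rw [t1, one_mul] at z2 ⊢; exact .inl (p.VA (om x hx z2))
    by_cases hx' : x ∈ V
    · exact .inl (mul_mem (p.TA ht) (p.VA hx'))
    obtain ⟨m1, m2, m3⟩ := p.xt i hy yN yX ht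
    have ti := xT.inv ht
    let K : Subgroup G :=
      { carrier := {x | x ∈ X ∧ t * x * t⁻¹ = x⁻¹}
        one_mem' := ⟨one_mem _, by simp⟩
        mul_mem' := fun {a b} ha hb => ⟨mul_mem ha.1 hb.1, by
          rw [mul_comm_of_comm ab ha.1 hb.1, mul_inv_rev, ← ha.2, ← hb.2, ← mul_comm_of_comm ab ha.1 hb.1]; group⟩
        inv_mem' := fun {a} ha => ⟨inv_mem ha.1, by rw [← congrArg Inv.inv ha.2]; group⟩ }
    by_cases e : x * (y * t * y⁻¹ * t⁻¹) ∈ V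
    · right
      have m := mul_mem (conj_mem_cj.2 (p.TA ht) : y * t * y⁻¹ ∈ cj y A) (VB e)
      convert m using 1
      rw [mul_comm_of_comm ab hx m1]
      calc t * x = y * (t * t) * y⁻¹ * t⁻¹ * x := by rw [xT t ht, ti]; group
        _ = _ := by group
    exfalso
    have eK := gen3 (K := K) (fun c hc => ⟨p.VX hc, by
      rw [mem_cent.1 (p.cVT hc) t ht, xV.inv hc]; group⟩) (fun _ h => h.1) cX.le ⟨hx, by
        rw [ti]; exact eq_inv_of_mul_eq_one_left (by rw [← z2]; group)⟩ ⟨m1, m3⟩ hx' (m2 t1) e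
    obtain ⟨u, hu, u1, tu⟩ := ex2 t ht
    obtain ⟨k1, k2, k3⟩ := p.xt i hy yN yX hu
    refine ci _ (mul_mem ht hu) (fun e => tu (by rw [eq_inv_of_mul_eq_one_left e, xT.inv hu])) _ k1 (k2 u1) ?_
    calc _ = t * (u * (y * u * y⁻¹ * u⁻¹) * u⁻¹) * t⁻¹ := by group
      _ = _ := by rw [k3, (eK.ge (inv_mem k1)).2, inv_inv]⟩
  obtain ⟨nU, i2⟩ := tw.main p.pU (p.P0.trans eP.symm)
  rw [eP] at nU i2
  have i3 : ∀ q ∈ Q, ∀ q' ∈ Q, q ∉ X → q' ∉ X → q * q' ∈ X := fun q hq q' hq' n n' => p.P0Q.le ⟨idx2' i2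
    (mem_sup_right hq) (mem_sup_right hq') (fun e => n (p.P0Q.le ⟨e, hq⟩)) fun e => n' (p.P0Q.le ⟨e, hq'⟩),
    mul_mem hq hq'⟩
  have f2 : ∀ y ∈ Q, y ∉ X → ∀ x ∈ X, x * y * x⁻¹ * y⁻¹ ∈ V := fun y hy yX x hx => by
    have yN := nU (mem_sup_right hy)
    have k : ∀ t ∈ T, y * t * y⁻¹ * t⁻¹ ∈ X ⊓ cm V y := fun t ht => by
      have m := (p.xt i hy yN yX ht).1
      refine ⟨m, p.nXV m, ?_⟩
      have m' := conj_mem_of_norm (p.nXV m) (inv_mem (p.del (i3 y hy y hy yX yX) ht))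
      convert mul_mem (p.sq xV m).1 (conj_mem_of_norm' (p.nXV m) m') using 1
      group
    obtain ⟨u, hu, u1, tu⟩ := ex2 t0 ht0
    have yX' : y ∈ N(X) := p.P0Q ▸ (norms_inf (zpowers_le.2 yN) (norms_of_le (zpowers_le.2 hy))) (mem_zpowers y)
    exact ((gen3 (K := X ⊓ cm V y) (fun c hc => ⟨p.VX hc, le_normalizer hc, by
      rw [mul_assoc, mul_assoc, ← mul_assoc y]
      exact V.mul_mem hc (om _ (conj_mem_of_norm yX' (inv_mem (p.VX hc))) (by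
        rw [show y * c⁻¹ * y⁻¹ * (y * c⁻¹ * y⁻¹) = y * (c * c)⁻¹ * y⁻¹ by group, xV c hc]; group))⟩) inf_le_left cX.le
      (k _ ht0) (k _ hu) ((p.xt i hy yN yX ht0).2.1 t01) ((p.xt i hy yN yX hu).2.1 u1)
      (p.xt2 i hy yN yX ht0 hu tu)).ge hx).2.2
  have bX : Bk 4 X := cV ▸ bk_sq ab om
  have iX : X.relIndex Q ≤ 2 := idx_two fun x hx y hy hx' hy' => i3 _ (inv_mem hx) _ hy (fun e => hx' (inv_mem_iff.1 e)) hy'
  intro H M l1 l2 s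
  have lQ : H ⊓ L ≤ Q := eQ ▸ inf_le_inf_right _ l1
  have sL : Sq (H ⊓ L) (M ⊓ L) := fun x hx => ⟨s x hx.1, mul_mem hx.2 hx.2⟩
  by_cases e : H ⊓ (T ⊔ Q) ≤ L
  · have lU : T ⊔ Q ≤ S := sup_le lT (eQ.le.trans inf_le_left)
    have i2 : (T ⊔ Q).relIndex S ≤ 2 := by
      have h1 := card_mul_relIndex lU
      have h2 := p.i.card8 lS hS
      rw [sup_comm, card_sup_of_disjoint p.nQ (eq_bot_mono (le_inf inf_le_right (inf_le_left.trans p.QL)) p.TLd), h,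
        sup_comm] at h1
      refine Nat.le_of_mul_le_mul_left ?_ (show 0 < #Q * 4 from Nat.mul_pos (card_pos _) (by norm_num))
      rw [← eQ] at h2
      omega
    have i3 := idx_two (K := L) (X := H) fun x hx y hy hx' hy' => e ⟨H.mul_mem (inv_mem hx) hy, idx2' i2
      (inv_mem (l1 hx)) (l1 hy) (fun k => hx' (e ⟨hx, (T ⊔ Q).inv_mem_iff.1 k⟩)) fun k => hy' (e ⟨hy, k⟩)⟩
    exact mul_bd (a := 4 * 2) (b := 2) (bX.idx iX _ _ lQ (inf_le_inf_right _ l2) sL)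
      (i3.trans (Nat.le_mul_of_pos_right _ (relIndex_pos _ _)))
  refine mul_bd (a := 4) ?_ (p.i.qb (l1.trans lS) (hS.of_le l1) l2 s)
  by_cases e1 : H ⊓ L ≤ X
  · exact bX _ _ e1 (inf_le_inf_right _ l2) sL
  obtain ⟨y, hy, yX⟩ := SetLike.not_le_iff_exists.1 e1
  have k : ∃ t ∈ T, t ≠ 1 ∧ ∃ x ∈ X, t * x ∈ H := by
    obtain ⟨z, hz, hz'⟩ := SetLike.not_le_iff_exists.1 e
    obtain ⟨t, ht, q, hq, rfl⟩ := (mem_sup_of_norm' p.nQ).1 hz.2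
    refine ⟨t, ht, fun e => hz' (by rw [e, one_mul]; exact p.QL hq), ?_⟩
    by_cases hq' : q ∈ X
    · exact ⟨q, hq', hz.1⟩
    · exact ⟨_, i3 q hq y (lQ hy) hq' yX, mul_assoc t q y ▸ mul_mem hz.1 hy.1⟩
  obtain ⟨t, ht, t1, x, hx, hz⟩ := k
  obtain ⟨m1, m2, -⟩ := p.xt i (lQ hy) (nU (mem_sup_right (lQ hy))) yX ht
  have m3 := conj_mem_of_norm (p.nV ht) (inv_mem (f2 y (lQ hy) yX x hx))
  have e2 : y * (t * x) * y⁻¹ * (t * x)⁻¹ = y * t * y⁻¹ * t⁻¹ * (t * (x * y * x⁻¹ * y⁻¹)⁻¹ * t⁻¹) := by group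
  have m4 := mul_mem m1 (p.VX m3)
  have h1 := two_mul_le' (H := M ⊓ L ⊓ V) (K := M ⊓ L ⊓ X) (inf_le_inf_left _ p.VX) ⟨⟨e2 ▸ comm_mem s hy.1 hz,
    p.QL (p.XQ m4)⟩, m4⟩ fun k => m2 t1 ((mul_mem_cancel_right m3).1 k.2)
  have h2 : #(H ⊓ L ⊓ X) ≤ 4 * #(M ⊓ L ⊓ V) := by
    rw [← card_inf_mul_relIndex V (H ⊓ L ⊓ X)]
    refine Nat.mul_le_mul ((card_le inf_le_left).trans cV.le) (relIndex_le_of_fun (fun x => x * x)
      (fun x hx => ⟨sL x hx.1, (p.sq xV hx.2).1⟩) fun x hx y hy e => om _ (mul_mem (inv_mem hx.2) hy.2) ?_)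
    calc x⁻¹ * y * (x⁻¹ * y) = x⁻¹ * (y * x⁻¹) * y := by group
      _ = (x * x)⁻¹ * (y * y) := by rw [← mul_comm_of_comm ab (inv_mem hx.2) hy.2]; group
      _ = 1 := by rw [show x * x = y * y from e]; group
  have h3 := card_idx X Q (H ⊓ L)
  rw [inf_eq_right.2 lQ, inf_comm X] at h3
  have h4 := card_le (inf_le_left (a := M ⊓ L) (b := X))
  have := Nat.mul_le_mul iX h2
  omega

end Pr

theorem T4.one (i : T4 D L) (hS : Syl 2 S D) (gD : g ∉ D) (TL : T ≤ cj g L) (lT : T ≤ S) (ne : T ≠ ⊥)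
    (mx : ∀ h ∉ D, ∀ Y ≤ cj h L ⊓ D, PG 2 Y → #Y ≤ #T) : Bk 16 S := by
  have i' := i.J g
  have dj : L ⊓ cj g L = ⊥ := by
    by_contra e
    obtain ⟨x, hx, x1⟩ := exists_ne_one e
    exact gD (i.ti g x hx.1 x1 hx.2)
  by_cases e : S ⊓ L ≤ cj g D
  · exact i.ext (k := 4) hS.le hS.pi (i'.bk4 e (hS.pi.infl _) (eq_bot_mono (inf_le_inf_right _ inf_le_right) dj))
  have p : Pr D L (cj g D) (cj g L) T (S ⊓ L) _ _ _ := ⟨i, i', dj, TL, lT.trans hS.le, hS.pi.of_le lT, ne,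
    inf_le_right, hS.pi.infl _, norms_inf (norms_of_le lT) ((lT.trans hS.le).trans i.norm), fun Y l pY => by
      rw [← card_cj g⁻¹]
      exact mx g⁻¹ (fun h => gD (inv_mem_iff.1 h)) _ (le_inf (cj_mono _ (l.trans inf_le_left))
        (cj_le_iff.2 (by rw [inv_inv]; exact l.trans inf_le_right))) (pY.J _), e, rfl, rfl, rfl⟩
  set Q := S ⊓ L
  set V := Q ⊓ cj g D
  set A := T ⊔ V
  set X := Q ⊓ N(A)
  rcases p.cases with h | h
  · exact i.ext (k := 4) hS.le hS.pi (p.two h)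
  by_cases i2 : V.relIndex X ≤ 2
  · have c := p.small h i2
    by_cases x : Ex Q
    · exact p.finAb hS.le hS.pi rfl lT h (ex_ab x) (by omega)
    refine i.ext (k := 4) hS.le hS.pi fun H M (l1 : H ≤ Q) l2 s => ?_
    by_cases c4 : #H ≤ 4
    · exact c4.trans (Nat.le_mul_of_pos_right _ (card_pos _))
    have e := eq_of_card l1 (by omega)
    have := ne_bot_iff_one_lt_card.1 fun e' : M = ⊥ => x fun y hy => e'.le (s y (e.ge hy))
    have := card_le l1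
    omega
  have i4 : #T ≤ V.relIndex X := by
    by_contra c
    exact i2 (pwi (p.pQ.of_le p.XQ) 1 (by omega))
  have nL : V ≤ N(cj g L) := p.VD.trans i'.norm
  obtain ⟨S1, s1, l1⟩ := p.pA.exists_syl (M := cj g L ⊔ V) (sup_le_sup_right TL V)
  have s2 := s1.inf_normal (left_normal_sup nL)
  have s3 := ((hS.inf_normal ⟨i.le, i.norm⟩).J g).card_eq s2
  have lT1 : T ≤ S1 ⊓ cj g L := le_inf (p.TA.trans l1) TL
  have eT : T = S1 ⊓ cj g L ⊓ D := eq_of_le_of_card_eq (le_inf lT1 p.TD) (le_antisymm (card_le (le_inf lT1 p.TD))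
    (mx g gD _ (inf_le_inf_right _ inf_le_right) (s2.pi.infl _)))
  have p' : Pr (cj g D) (cj g L) D L V (S1 ⊓ cj g L) T A _ := ⟨i', i, inf_comm L _ ▸ dj, p.VQ.trans p.QL, p.VD,
    p.pQ.of_le p.VQ, ne_bot_iff_one_lt_card.2 (by rw [p.card.1, h]; norm_num), inf_le_right, s2.pi,
    norms_inf (norms_of_le (p.VA.trans l1)) nL, fun Y l pY => p.card.1 ▸ mx g gD Y l pY, fun l => by
      rw [inf_eq_left.2 l] at eT
      rw [← eT, card_cj, ← p.card.1] at s3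
      exact e ((eq_of_le_of_card_eq p.VQ s3.symm).ge.trans p.VD), eT, sup_comm _ _, rfl⟩
  by_cases n : Q ≤ X
  · have cX := card_mul_relIndex p.VX
    have := p.idx4 h
    have := card_le n
    rw [p.card.1, h] at cX
    exact p.finAb hS.le hS.pi rfl lT h (comm_mono (p.abX p' h i4) n) (by omega)
  · exact p.big p' h i4 n hS.le hS.pi rfl lT

/-- TI-subgroups with `N(L)/L ≤ S₄` -/
theorem T4.main (i : T4 D L) (h : ∃ g ∉ D, 2 ∣ #(cj g L ⊓ D)) : SectionalPRankLE 2 4 G := by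
  obtain ⟨⟨g, T⟩, ⟨gD, l, pT⟩, mx⟩ := Set.exists_max_image
    {p : G × Subgroup G | p.1 ∉ D ∧ p.2 ≤ cj p.1 L ⊓ D ∧ PG 2 p.2} (fun p => #p.2) (Set.toFinite _)
    ⟨(h.choose, ⊥), h.choose_spec.1, bot_le, PiN.bot⟩
  obtain ⟨S0, s0, l0⟩ := pT.exists_syl (l.trans inf_le_right)
  obtain ⟨S, hS, lS⟩ := s0.pi.exists_syl le_top
  have ne : T ≠ ⊥ := by
    obtain ⟨g', hg', e⟩ := h
    obtain ⟨Y, lY, cY⟩ := exists_card_eq_prime Nat.prime_two e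
    have := mx (g', Y) ⟨hg', lY, PiN.of_card Nat.prime_two cY⟩
    exact ne_bot_iff_one_lt_card.2 (by dsimp only at this; omega)
  refine sec_of_bk hS ?_
  by_cases e : S ≤ D
  · rw [s0.max lS e hS.pi]
    exact i.one s0 gD (l.trans inf_le_left) l0 ne fun h hh Y lY pY => mx (h, Y) ⟨hh, lY, pY⟩
  · refine i.nn hS.pi (ne_bot_mono (inf_le_inf_right _ lS) ((s0.inf_normal ⟨i.le, i.norm⟩).sne_bot Nat.prime_two ?_)) e
    rw [← card_cj g]
    exact (pT.dvd_of_ne_bot ne).trans (card_dvd (l.trans inf_le_left))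

end H17.FX
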