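/-
Fixity four, part 3: `3`-groups with an element whose centralizer has order at most `9`.
-/
import Cfsg.Agent.H17.FX2
import Cfsg.Agent.H1.Frattini

set_option autoImplicit false
set_option linter.unusedSectionVars false

namespace H17.FX
open Cfsg Subgroup H24.E8
open H19 hiding eq_bot_mono
open Equiv (Perm)

theorem prod_ne {V : Type*} [CommGroup V] [Finite V] (h9 : Nat.card V ≤ 9) (O : Finset V) (e3 : ∀ v ∈ O, v ^ 3 = 1)
    (h1 : ∀ v ∈ O, v⁻¹ ∉ O) (h3 : ¬ 3 ∣ O.card) : ∏ v ∈ O, v ≠ 1 := by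
  classical
  have := Fintype.ofFinite V
  have n1 : (1 : V) ∉ O := fun h => h1 1 h (by simpa using h)
  have hc : (insert 1 (O ∪ O.image Inv.inv)).card = 2 * O.card + 1 := by
    rw [Finset.card_insert_of_notMem (by simpa using n1), Finset.card_union_of_disjoint (by
      rw [Finset.disjoint_left]
      intro a ha h
      obtain ⟨b, hb, rfl⟩ := Finset.mem_image.1 h
      exact h1 b hb ha), Finset.card_image_of_injective _ inv_injective]; ring
  have hl := Finset.card_le_univ (insert 1 (O ∪ O.image Inv.inv))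
  rw [← Nat.card_eq_fintype_card] at hl
  have sq : ∀ v ∈ O, v * v = v⁻¹ := fun v hv => eq_inv_of_mul_eq_one_left (by rw [← e3 v hv, pow_succ, pow_two])
  intro e
  have : O.card = 1 ∨ O.card = 2 ∨ O.card = 4 := by omega
  rcases this with h | h | h
  · obtain ⟨a, rfl⟩ := Finset.card_eq_one.1 h
    simp only [Finset.prod_singleton] at e
    simp [e] at n1
  · obtain ⟨a, b, ab, rfl⟩ := Finset.card_eq_two.1 h
    rw [Finset.prod_pair ab] at e
    exact h1 a (by simp) (by simp [inv_eq_of_mul_eq_one_right e])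
  · have hu := Finset.eq_univ_of_card _ (le_antisymm (Finset.card_le_univ _) (by
      rw [← Nat.card_eq_fintype_card, hc]; omega) : (insert 1 (O ∪ O.image Inv.inv)).card = _)
    obtain ⟨a, s, ha, rfl, h'⟩ := Finset.card_eq_succ.1 h
    obtain ⟨b, c, d, bc, bd, cd, rfl⟩ := Finset.card_eq_three.1 h'
    rw [Finset.prod_insert ha, Finset.prod_insert (by simp [bc, bd]), Finset.prod_pair cd, ← mul_assoc] at e
    simp only [Finset.mem_insert, Finset.mem_singleton, not_or] at ha n1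
    have k : ∀ c d, c ≠ d → 1 ≠ d → c * c = c⁻¹ → a * b * (c * d) = 1 → a * b ≠ c ∧ a * b ≠ c⁻¹ := fun c d cd d1 sq e =>
      ⟨fun h => cd (by rwa [h, ← mul_assoc, sq, inv_mul_eq_one] at e), fun h => d1 (by simpa [h] using e.symm)⟩
    have k1 := k c d cd n1.2.2.2 (sq c (by simp)) e
    have k2 := k d c cd.symm n1.2.2.1 (sq d (by simp)) (by rwa [mul_comm d c])
    have := hu.ge (Finset.mem_univ (a * b))
    simp only [Finset.mem_insert, Finset.mem_union, Finset.mem_singleton, Finset.image_insert,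
      Finset.image_singleton] at this
    rcases this with h | (h | h | h | h) | h | h | h | h
    · exact h1 a (by simp) (by simp [inv_eq_of_mul_eq_one_right h])
    · exact n1.2.1 (Eq.symm (by simpa using h))
    · exact n1.1 (Eq.symm (by simpa using h))
    · exact k1.1 h
    · exact k2.1 h
    · exact ha.1 (by rw [← sq a (by simp)] at h; exact (mul_left_cancel h).symm)
    · exact ha.1 (by rw [← sq b (by simp)] at h; exact mul_right_cancel h)
    · exact k1.2 h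
    · exact k2.2 h

variable {G : Type*} [Group G] [Finite G] {K P V : Subgroup G} {v y : G}

theorem inv_ab (hV : Ab V) (c : #V ≤ 9) (n : K ≤ N(V)) (h3 : ¬ 3 ∣ #K) (d : V ⊓ C(K) = ⊥) (hv : v ∈ V)
    (v3 : v ^ 3 = 1) : ∃ k ∈ K, k * v * k⁻¹ = v⁻¹ := by
  classical
  by_contra h
  push Not at h
  let : CommGroup V := { mul_comm := hV.is_comm.comm }
  let f : K →* MulAut V := V.normalizerMonoidHom.comp (inclusion n)
  have hf : ∀ (k : K) (w : V), (f k w : G) = k * w * k⁻¹ := fun _ _ => rfl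
  let : MulAction K V := MulAction.compHom V f
  let O := (MulAction.orbit K (⟨v, hv⟩ : V)).toFinite.toFinset
  have hO : ∀ w, w ∈ O ↔ ∃ k : K, f k ⟨v, hv⟩ = w := fun w => Set.Finite.mem_toFinset _
  refine prod_ne c O (fun w hw => ?_) (fun w hw hw' => ?_) (fun e => h3 (e.trans ?_)) ?_
  · obtain ⟨k, rfl⟩ := (hO w).1 hw
    rw [← map_pow, show (⟨v, hv⟩ : V) ^ 3 = 1 from Subtype.ext v3, map_one]
  · obtain ⟨k, rfl⟩ := (hO w).1 hw
    obtain ⟨k', e⟩ := (hO _).1 hw'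
    refine h _ (k⁻¹ * k').2 ((hf _ ⟨v, hv⟩).symm.trans ?_)
    rw [map_mul, MulAut.mul_apply, e, ← map_inv, ← MulAut.mul_apply, ← map_mul, inv_mul_cancel, map_one]; rfl
  · rw [← Set.ncard_eq_toFinset_card, ← MulAction.index_stabilizer]
    exact index_dvd_card _
  · refine Subtype.ext (d.le ⟨Subtype.prop _, mem_cent.2 fun k hk => ?_⟩)
    have : f ⟨k, hk⟩ (∏ w ∈ O, w) = ∏ w ∈ O, w := by
      rw [map_prod]
      refine Finset.prod_equiv (f ⟨k, hk⟩).toEquiv (fun w => ?_) fun _ _ => rfl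
      rw [hO, hO]
      exact ⟨fun ⟨k', e⟩ => ⟨⟨k, hk⟩ * k', by rw [map_mul, MulAut.mul_apply, e]; rfl⟩, fun ⟨k', e⟩ =>
        ⟨⟨k, hk⟩⁻¹ * k', by rw [map_mul, MulAut.mul_apply, e, map_inv]; exact (f ⟨k, hk⟩).symm_apply_apply w⟩⟩
    exact mul_inv_eq_iff_eq_mul.1 ((hf _ _).symm.trans (congrArg Subtype.val this))

theorem inv_or (hP : Syl 3 P N(P)) (hy : y ∈ P) (y3 : y ^ 3 = 1) (c : #(P ⊓ C[y]) ≤ 9) (c' : 9 < #P)
    (h : P ≤ ⁅N(P), N(P)⁆) : ∃ n ∈ N(P), n * y * n⁻¹ = y⁻¹ := by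
  have m : ∀ x ∈ P, x * y * x⁻¹ * y⁻¹ ∈ ⁅P, P⁆ := fun x hx => commutator_mem_commutator hx hy
  have h1 := cent_bd m
  have h2 := card_mul_relIndex (der_le P)
  have i9 : (⁅P, P⁆).relIndex P ≤ 9 := Nat.le_of_mul_le_mul_left (by
    rw [h2, mul_comm]; exact h1.trans (Nat.mul_le_mul_right _ c)) (card_pos ⁅P, P⁆)
  have i9' : 9 ≤ (⁅P, P⁆).relIndex P := by
    obtain ⟨k, hk⟩ := (hP.pi.relIndex ⁅P, P⁆).exists_pow (relIndex_ne_zero' _ _)
    have lt := sol_der_lt hP.pi.sol (ne_bot_iff_one_lt_card.2 (by omega))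
    rw [hk]
    rcases k with _ | _ | k
    · exact absurd (relIndex_eq_one.1 hk) lt.2
    · obtain ⟨x, hx, hx'⟩ := SetLike.exists_of_lt lt
      have l : zpowers x ⊔ ⁅P, P⁆ ≤ P := sup_le (zpowers_le.2 hx) (der_le P)
      have e := H1.eq_of_sup_of_le_frattiniOf (zpowers_le.2 hx) (H1.commutator_le_frattiniOf_of_isNilpotent hP.pi.nil)
        ((eq_of_prime_index le_sup_right l (hk ▸ Nat.prime_three)).resolve_left fun e =>
          hx' (e.le (mem_sup_left (mem_zpowers x)))).ge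
      rw [inf_eq_left.2 (le_cent1_iff.2 (comm_iff_le_cent.1 (e ▸ comm_zpowers x) hy))] at c
      omega
    · exact Nat.pow_le_pow_right (n := 3) (i := 2) (by norm_num) (by omega)
  obtain ⟨K, hK⟩ := hP.exists_compl le_rfl
  have n : N(P) ≤ N(⁅P, P⁆) := norms_der le_rfl
  have nP := hP.le.trans n
  have nK := hK.right_le.trans n
  have ab : Ab (quo ⁅P, P⁆ P) := (ab_quo_iff nP).2 le_rfl
  have pK := (hK.hall_right hP).pi.quo ⁅P, P⁆
  have co := (hP.pi.quo ⁅P, P⁆).coprime pK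
  have nV := quo_norms (K := ⁅P, P⁆) hK.norm
  have e : quo ⁅P, P⁆ P ≤ ⁅quo ⁅P, P⁆ P, quo ⁅P, P⁆ K⁆ := by
    have := le_inf (quo_mono ⁅P, P⁆ h) le_rfl
    rwa [quo_comm n n, ← congrArg (quo ⁅P, P⁆) hK.sup, quo_sup nP nK, der_sup nV, comm_iff_der.1 ab, bot_sup_eq,
      sup_inf_modl ((der_le _).trans (commg_normr _ _)) (commg_le_left nV),
      eq_bot_mono (inf_le_inf_right _ (der_le _)) (inf_eq_bot_of_cop co.symm), sup_bot_eq] at this
  obtain ⟨_, hk, e'⟩ := inv_ab ab ((card_quo nP).le.trans i9) nV (pK.not_dvd Nat.prime_three rfl)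
    (eq_bot_mono (inf_le_inf_right _ e) (ab_commg_inf_cent ab nV co)) (mem_im_of (x := ⟨y, nP hy⟩) hy)
    (by rw [← map_pow, show (⟨y, nP hy⟩ : N(⁅P, P⁆)) ^ 3 = 1 from Subtype.ext y3, map_one])
  obtain ⟨k, hk', rfl⟩ := mem_im.1 hk
  have m' : (k : G) * y * (k : G)⁻¹ * y ∈ ⁅P, P⁆ := (qmk_eq_one (x := k * ⟨y, nP hy⟩ * k⁻¹ * ⟨y, nP hy⟩)).1 (by
    simp only [map_mul, map_inv]; rw [e']; group)
  obtain ⟨x, hx, e⟩ := surj_of_fun (K := C[y]) _ m (fun x _ x' _ e => mem_cent1.2 (by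
    calc x⁻¹ * x' * y = x⁻¹ * (x' * y * x'⁻¹) * x' := by group
      _ = y * (x⁻¹ * x') := by rw [← mul_right_cancel e]; group)) (Nat.le_of_mul_le_mul_left (by
        have h3 := card_inf_mul_relIndex C[y] P
        rw [inf_comm] at h3
        calc 9 * #⁅P, P⁆ ≤ #P := by rw [← h2, mul_comm]; exact Nat.mul_le_mul_left _ i9'
          _ ≤ 9 * C[y].relIndex P := h3 ▸ Nat.mul_le_mul_right _ c) (by norm_num)) _
    (inv_mem (conj_mem_of_norm (nP hy) m'))
  refine ⟨x⁻¹ * k, mul_mem (inv_mem (hP.le hx)) (hK.right_le hk'), ?_⟩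
  calc _ = x⁻¹ * y⁻¹ * (y * (k * y * (k : G)⁻¹ * y) * y⁻¹)⁻¹⁻¹ * x := by group
    _ = _ := by rw [← e]; group

theorem cube {a b w : G} (h : b * a = w * a * b) (hw : ∀ x, w * x = x * w) (w3 : w ^ 3 = 1) :
    (a * b) ^ 3 = a ^ 3 * b ^ 3 := by
  calc (a * b) ^ 3 = a * (b * a) * (b * a) * b := by simp only [pow_succ]; group
    _ = a * w * a * (b * w) * a * b * b := by rw [h]; group
    _ = a * w * a * w * (b * a) * b * b := by rw [← hw b]; group
    _ = a * w * a * w * w * a * b * b * b := by rw [h]; group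
    _ = a * a * (w * w * w) * a * b * b * b := by rw [mul_assoc a w a, hw a]; group
    _ = _ := by rw [← pow_three', w3, pow_three', pow_three']; group

theorem star {H : Type*} [Group H] {a b c : H} (h1 : a * b = b * a) (h2 : c * b = b * c) (h3 : c * a = a * c)
    (a3 : a ^ 3 = 1) (b3 : b ^ 3 = 1) (h : a * b * c * b * a * b * a = 1) : c = 1 := by
  have l1 : ∀ x, b * (a * x) = a * (b * x) := fun x => by rw [← mul_assoc, ← h1, mul_assoc]
  have l2 : ∀ x, c * (b * x) = b * (c * x) := fun x => by rw [← mul_assoc, h2, mul_assoc]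
  calc c = a ^ 3 * (b ^ 3 * c) := by rw [a3, b3]; group
    _ = _ := by rw [← h]; simp only [pow_three, mul_assoc, l1, l2, h3]

theorem wr_aux {E Z : Subgroup G} (cE : #E = 81) (cZ : #Z = 3) (l : Z ≤ E) (zc : ∀ z ∈ Z, ∀ x, z * x = x * z)
    (n : y ∈ N(E)) (y3 : y ∈ E ∨ y ^ 3 ∈ E) (c : #C[y] ≤ 9) (h1 : ∀ a ∈ E, ∀ b ∈ E, a * b * a⁻¹ * b⁻¹ ∈ Z)
    (h3 : ∀ a ∈ E, a ^ 3 ∈ Z) : False := by
  have z3 : ∀ z ∈ Z, z ^ 3 = 1 := fun z hz => orderOf_dvd_iff_pow_eq_one.1 (cZ ▸ orderOf_dvd_card' hz)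
  have yE : y ∉ E := fun hy => by
    have := cent_bd fun x hx => h1 x hx y hy
    have := card_le (inf_le_right (a := E) (b := C[y]))
    rw [cZ] at *; omega
  have lZ : Z ≤ E ⊓ C[y] := le_inf l fun z hz => mem_cent1.2 (zc z hz y)
  have eZ : Z = E ⊓ C[y] := eq_of_card lZ (by
    have := two_mul_le' (inf_le_right (a := E)) (mem_cent1_self y) fun h => yE h.1
    omega)
  have dE : ∀ s ∈ E, s * y * s⁻¹ * y⁻¹ ∈ E := fun s hs => by
    rw [mul_assoc, mul_assoc, ← mul_assoc y]; exact mul_mem hs (conj_mem_of_norm n (inv_mem hs))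
  have nz : ∀ X, Z ≤ X → X ≤ E → E ≤ N(X) := fun X l1 l2 => norms_of_der_le
    ((commutator_le.2 h1).trans l1) l2
  have b1 := cent_bd (X := E ⊓ cm Z y) fun x hx => hx.2.2
  have b2 := cent_bd (X := E ⊓ cm (E ⊓ cm Z y) y) fun x hx => hx.2.2
  have b3 := card_le ((inf_le_inf_right C[y] (inf_le_left (b := cm Z y))).trans eZ.ge)
  have b4 := card_le ((inf_le_inf_right C[y] (inf_le_left (b := cm (E ⊓ cm Z y) y))).trans eZ.ge)
  obtain ⟨s1, m1, k1⟩ := SetLike.not_le_iff_exists.1 fun e : E ≤ cm (E ⊓ cm Z y) y => by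
    rw [inf_eq_left.2 e] at b2 b4
    have := Nat.mul_le_mul b4 (b1.trans (Nat.mul_le_mul_right _ b3))
    rw [cZ] at this; omega
  obtain ⟨s2, e2⟩ : ∃ s, s = s1 * y * s1⁻¹ * y⁻¹ := ⟨_, rfl⟩
  obtain ⟨s3, e3⟩ : ∃ s, s = s2 * y * s2⁻¹ * y⁻¹ := ⟨_, rfl⟩
  obtain ⟨s4, e4⟩ : ∃ s, s = s3 * y * s3⁻¹ * y⁻¹ := ⟨_, rfl⟩
  have m2 : s2 ∈ E := e2 ▸ dE _ m1
  have m3 : s3 ∈ E := e3 ▸ dE _ m2
  have m4 : s4 ∈ E := e4 ▸ dE _ m3
  have k3 : s3 ∉ Z := fun h => k1 ⟨nz _ (le_inf l fun z hz => (⟨le_normalizer hz, by rw [zc z hz y]; simp⟩ : z ∈ cm Z y))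
    inf_le_left m1, e2 ▸ ⟨m2, nz Z le_rfl l m2, e3 ▸ h⟩⟩
  have f1 : y * s1 * y⁻¹ = s2⁻¹ * s1 := by rw [e2]; group
  have f2 : y * s2 * y⁻¹ = s3⁻¹ * s2 := by rw [e3]; group
  have f3 : y * s3 * y⁻¹ = s4⁻¹ * s3 := by rw [e4]; group
  have st : s2⁻¹ * s3 * s4⁻¹ * s3 * s2⁻¹ * s3 * s2⁻¹ = 1 := by
    have := zc _ (eZ.ge ⟨y3.resolve_left yE, mem_cent1.2 (by group)⟩) s1
    refine mul_right_cancel (b := s1) ?_
    calc _ = (s3⁻¹ * s2)⁻¹ * (s4⁻¹ * s3) * (s3⁻¹ * s2)⁻¹ * (s2⁻¹ * s1) := by group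
      _ = y * (s2⁻¹ * s3 * s2⁻¹ * s1) * y⁻¹ := by rw [← f1, ← f2, ← f3]; group
      _ = y * ((s3⁻¹ * s2)⁻¹ * (s2⁻¹ * s1)) * y⁻¹ := by group
      _ = y * (y * (s2⁻¹ * s1) * y⁻¹) * y⁻¹ := by rw [← f2]; nth_rw 1 [← f1]; group
      _ = y ^ 3 * s1 * (y ^ 3)⁻¹ := by rw [← f1, pow_three']; group
      _ = _ := by rw [this]; group
  have z4 : s4 ∈ Z := by
    have nE := nz Z le_rfl l
    let q : E →* Quo Z := (qmk Z).comp (inclusion nE)
    have hq : ∀ a : E, q a = 1 ↔ a.1 ∈ Z := fun a => qmk_eq_one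
    have cq : ∀ a b : E, q a * q b = q b * q a := fun a b => by
      have := (hq (a * b * a⁻¹ * b⁻¹)).2 (h1 _ a.2 _ b.2)
      simp only [map_mul, map_inv] at this
      rw [← mul_inv_eq_one, ← this]; group
    have q2 := (hq (⟨s2, m2⟩ ^ 3)).2 (h3 _ m2)
    have q3 := (hq (⟨s3, m3⟩ ^ 3)).2 (h3 _ m3)
    have := congrArg q (show (⟨s2, m2⟩⁻¹ * ⟨s3, m3⟩ * ⟨s4, m4⟩⁻¹ * ⟨s3, m3⟩ * ⟨s2, m2⟩⁻¹ * ⟨s3, m3⟩ * ⟨s2, m2⟩⁻¹ : E) = 1
      from Subtype.ext st)
    simp only [map_mul, map_one] at this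
    exact inv_mem_iff.1 ((hq ⟨s4, m4⟩⁻¹).1 (star (cq _ _) (cq _ _) (cq _ _) (by
      rw [← map_pow, inv_pow, map_inv, q2, inv_one]) (by rw [← map_pow, q3]) this))
  have c3 : ∀ a ∈ E, ∀ b ∈ E, y * a * y⁻¹ = b⁻¹ * a → b⁻¹ ^ 3 = 1 := fun a ha b hb e => by
    have := cube (a := b⁻¹) (b := a) (w := a * b⁻¹ * a⁻¹ * b⁻¹⁻¹) (by group) (zc _ (h1 _ ha _ (inv_mem hb)))
      (z3 _ (h1 _ ha _ (inv_mem hb)))
    rw [← e, conj_pow, ← zc _ (h3 a ha), mul_inv_cancel_right] at this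
    simpa using this.symm
  have cm : s2⁻¹ * s3 = s3 * s2⁻¹ := by
    have hz := zc _ (h1 _ m1 _ m3)
    have : y * (s1 * s3 * s1⁻¹ * s3⁻¹) * y⁻¹ = s1 * s3 * s1⁻¹ * s3⁻¹ := by rw [← hz]; group
    have e : s2⁻¹ * (s1 * s3 * s1⁻¹ * s3⁻¹) * s3 * s2 * s3⁻¹ = s1 * s3 * s1⁻¹ * s3⁻¹ := by
      calc _ = s2⁻¹ * s1 * (s4 * s4⁻¹) * s3 * s1⁻¹ * s2 * s3⁻¹ := by group
        _ = s2⁻¹ * s1 * s4⁻¹ * (s4 * (s3 * s1⁻¹ * s2 * s3⁻¹)) := by group
        _ = s2⁻¹ * s1 * (s4⁻¹ * s3) * (s2⁻¹ * s1)⁻¹ * (s4⁻¹ * s3)⁻¹ := by rw [zc s4 z4]; group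
        _ = _ := by rw [← f1, ← f3, ← this]; group
    rw [← hz, mul_assoc, mul_assoc, mul_assoc, mul_eq_left] at e
    rw [← mul_inv_eq_one, ← e]; group
  refine k3 (eZ.ge ⟨m3, mem_cent1.2 ?_⟩)
  have := star cm (zc _ (inv_mem z4) _) (zc _ (inv_mem z4) _) (c3 _ m1 _ m2 f1) (by
    simpa using c3 _ m2 _ m3 f2) st
  rw [inv_eq_one, e4, mul_inv_eq_one, mul_inv_eq_iff_eq_mul] at this
  exact this

theorem wr {T : Type*} [Group T] [Finite T] (cT : Nat.card T = 81) {E : Subgroup T} (cE : #E = 27) (ab : Ab E)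
    (e3 : ∀ e ∈ E, e ^ 3 = 1) (n : ℕ) : ∀ (X : Type*) [Group X] [Finite X], Nat.card X = n → IsPGroup 3 X →
      ∀ y : X, #C[y] ≤ 9 → ∀ f : X →* T, Function.Surjective f → f.ker = ⊥ := by
  induction n using Nat.strong_induction_on with | _ n ih =>
  intro X _ _ hn hX y c f hf
  by_contra h
  have pX : PG 3 (⊤ : Subgroup X) := PiN.of_isPGroup Nat.prime_three (hX.to_subgroup _)
  have h1 := nil_meet_center pX.nil (normalIn_top (H := f.ker)) h
  obtain ⟨Z, lZ, cZ⟩ := exists_card_eq_prime Nat.prime_three ((pX.of_le le_top).dvd_of_ne_bot h1)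
  have zc : ∀ z ∈ Z, ∀ x, z * x = x * z := fun z hz x => (mem_cent.1 (lZ hz).2 x trivial).symm
  have : Z.Normal := ⟨fun z hz x => by rw [← zc z hz x]; simpa using hz⟩
  have lK : Z ≤ f.ker := lZ.trans inf_le_left
  have := ih _ (by
    have := card_eq_card_quotient_mul_card_subgroup Z
    have := Nat.card_pos (α := X ⧸ Z)
    rw [cZ] at *; omega) (X ⧸ Z) rfl (hX.to_quotient Z) y ((H10.card_centralizer_quotient_le Z y).trans c)
    (QuotientGroup.lift Z f lK) (QuotientGroup.lift_surjective_of_surjective Z f hf lK)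
  have hK : ∀ x, f x = 1 → x ∈ Z := fun x hx => (QuotientGroup.eq_one_iff x).1 (this.le hx)
  have eK : Z = f.ker := le_antisymm lK hK
  have iE : E.index = 3 := by have := E.card_mul_index; rw [cE, cT] at this; omega
  have : E.Normal := normal_of_index_eq_minFac_card (by rw [iE, cT]; norm_num)
  have l : Z ≤ E.comap f := fun z hz => by rw [mem_comap, lK hz]; exact one_mem _
  refine wr_aux (E := E.comap f) (y := y) ?_ cZ l zc (by rw [normalizer_eq_top]; trivial) (.inr ?_) c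
    (fun a ha b hb => hK _ (by simp only [map_mul, map_inv]; rw [mul_comm_of_comm ab ha hb]; group))
    fun a ha => hK _ (by rw [map_pow, e3 _ ha])
  · rw [← card_mul_relIndex l, cZ, eK, relIndex_ker, map_comap_eq_self_of_surjective hf, cE]
  · rw [mem_comap, map_pow, ← iE]; exact E.pow_index_mem _

theorem syl9 (T : Sylow 3 (Perm (Fin 9))) : Nat.card T = 81 ∧
    ∃ E : Subgroup T, #E = 27 ∧ Ab E ∧ ∀ e ∈ E, e ^ 3 = 1 := by
  have s := syl_sylow_top T
  refine ⟨?_, ?_⟩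
  · obtain ⟨k, hk⟩ := s.pi.exists_card
    have h1 := s.card_mul
    have h2 := s.not_dvd Nat.prime_three
    rw [card_top, Nat.card_perm, Nat.card_eq_fintype_card (α := Fin 9), Fintype.card_fin, hk] at h1
    show #(T : Subgroup (Perm (Fin 9))) = 81
    rw [hk]
    have : k ≤ 4 := by
      by_contra c
      have := (pow_dvd_pow 3 (show 5 ≤ k by omega)).trans (Dvd.intro _ h1)
      norm_num [Nat.factorial] at this
    simp only [Nat.factorial] at h1
    interval_cases k <;> omega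
  · let ψ : Multiplicative (Fin 3 → ZMod 3) →* Perm (Fin 3 × ZMod 3) :=
      { toFun := fun v => ⟨fun p => (p.1, p.2 + v.toAdd p.1), fun p => (p.1, p.2 - v.toAdd p.1), fun p => by simp,
          fun p => by simp⟩
        map_one' := by ext p <;> simp
        map_mul' := fun v w => by ext p <;> simp [add_comm, add_left_comm] }
    let φ := (Equiv.permCongrHom (Fintype.equivFinOfCardEq (show Fintype.card (Fin 3 × ZMod 3) = 9 by
      simp))).toMonoidHom.comp ψ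
    have inj : Function.Injective φ := fun a b e => (injective_iff_map_eq_one ψ).2 (fun v h => by
      ext i
      simpa [ψ] using congrArg (fun π : Perm (Fin 3 × ZMod 3) => (π (i, 0)).2) h) ((Equiv.permCongrHom _).injective e)
    have c : #φ.range = 3 ^ 3 := by rw [← Nat.card_congr (MonoidHom.ofInjective inj).toEquiv]; simp
    obtain ⟨g, -, l⟩ := s.scj_le le_top (PiN.of_card_pow Nat.prime_three c)
    refine ⟨(cj g φ.range).subgroupOf T, by rw [card_subgroupOf' l, card_cj, c]; rfl, ?_, fun e he => ?_⟩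
    · have : Ab (cj g φ.range) := comm_cj.2 inferInstance
      infer_instance
    · obtain ⟨_, ⟨v, rfl⟩, e'⟩ := mem_cj'.1 he
      refine Subtype.ext ?_
      rw [SubgroupClass.coe_pow, ← show _ = (e : Perm (Fin 9)) from e', conj_pow, ← map_pow, show v ^ 3 = 1 from by
        ext i; simp [nsmul_eq_mul]; left; rfl]
      simp

end H17.FX
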