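/-
Fixity four, part 4: Sylow subgroups of groups acting with few fixed points.
-/
import Cfsg.Agent.H17.FX3
import Cfsg.Agent.H17.Prim
import Cfsg.Agent.S4216

set_option autoImplicit false
set_option linter.unusedSectionVars false

namespace H17.FX
open Cfsg Subgroup H24.E8 MulAction
open H19 hiding eq_bot_mono
open Equiv (Perm)
open scoped Pointwise

variable {G Ω : Type*} [Group G] [Finite G] [MulAction G Ω] [Finite Ω] {p m : ℕ} {P X : Subgroup G} {x y : G}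
  {F s : Set Ω}

theorem fix_eq (c : (fixedBy Ω y).ncard ≤ F.ncard) (h : y ∈ fixingSubgroup G F) : fixedBy Ω y = F :=
  (Set.eq_of_subset_of_ncard_le ((mem_fixingSubgroup_iff G).1 h) c).symm

theorem fix_stab {g : G} : g ∈ stabilizer G (fixedBy Ω y) ↔ fixedBy Ω (g * y * g⁻¹) = fixedBy Ω y := by
  rw [mem_stabilizer_iff, smul_fixedBy]

theorem fix_card (g y : G) : (fixedBy Ω (g * y * g⁻¹)).ncard = (fixedBy Ω y).ncard := by
  rw [← smul_fixedBy, Set.ncard_smul_set]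

theorem fix_conj {g : G} (h : x ∈ fixingSubgroup G F) : g * x * g⁻¹ ∈ fixingSubgroup G (g • F) :=
  (mem_fixingSubgroup_iff G).2 fun _ ⟨a, ha, e⟩ => by
    rw [← e, smul_smul, inv_mul_cancel_right, mul_smul, (mem_fixingSubgroup_iff G).1 h a ha]

theorem fix_self (y : G) : y ∈ fixingSubgroup G (fixedBy Ω y) := (mem_fixingSubgroup_iff G).2 fun _ h => h

theorem fix_le (F : Set Ω) : fixingSubgroup G F ≤ stabilizer G F := fun g hg =>
  Set.ext fun a => ⟨fun ⟨b, hb, e⟩ => e.symm.trans ((mem_fixingSubgroup_iff G).1 hg b hb) ▸ hb,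
    fun h => ⟨a, h, (mem_fixingSubgroup_iff G).1 hg a h⟩⟩

theorem stab_norm (F : Set Ω) : stabilizer G F ≤ N(fixingSubgroup G F) := fun g hg => mem_norm_of_cj_le fun _ hy => by
  obtain ⟨x, hx, rfl⟩ := mem_cj'.1 hy
  have := fix_conj (g := g) hx
  rwa [hg] at this

theorem stab_ne [FaithfulSMul G Ω] [IsPretransitive G Ω] (h : y ≠ 1) (h' : (fixedBy Ω y).Nonempty) :
    stabilizer G (fixedBy Ω y) ≠ ⊤ := fun e => h (eq_of_smul_eq_smul (α := Ω) fun a => by
  obtain ⟨b, hb⟩ := h'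
  obtain ⟨g, rfl⟩ := exists_smul_eq G b a
  rw [one_smul]
  exact (mem_stabilizer_iff.1 (e.ge (mem_top g))).le (Set.smul_mem_smul_set hb))

theorem orb (hp : p.Prime) (hX : PG p X) (l : X ≤ stabilizer G F) (c : F.ncard ≤ p + 1)
    (h : ¬ X ≤ fixingSubgroup G F) :
    ∃ s ⊆ F, s.ncard = p ∧ (F \ s).ncard ≤ 1 ∧ N(X) ⊓ stabilizer G F ≤ stabilizer G s := by
  have := Fact.mk hp
  have h1 := ncard_modEq_fixed X hX.isPGroup F F.toFinite fun g hg a ha => (l hg).le (Set.smul_mem_smul_set ha)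
  have h2 := Set.ncard_inter_add_ncard_sdiff_eq_ncard F (fixedPoints X Ω)
  have h3 : 0 < (F \ fixedPoints X Ω).ncard := (Set.ncard_pos).2 (by
    by_contra e
    rw [Set.not_nonempty_iff_eq_empty, Set.sdiff_eq_empty] at e
    exact h fun g hg => (mem_fixingSubgroup_iff G).2 fun a ha => e ha ⟨g, hg⟩)
  obtain ⟨k, hk⟩ := (Nat.modEq_iff_dvd' (by omega)).1 h1.symm
  have h4 := hp.two_le
  have h5 : k = 1 := by
    rcases k with _ | _ | k
    · omega
    · rfl
    · have : p * (k + 1 + 1) = p * k + 2 * p := by ring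
      omega
  refine ⟨F \ fixedPoints X Ω, Set.sdiff_subset, by rw [h5] at hk; omega, by rw [Set.sdiff_sdiff_right_self]; rw [h5] at hk; omega,
    fun n hn => ?_⟩
  have k : ∀ n ∈ N(X), ∀ a ∈ fixedPoints X Ω, n • a ∈ fixedPoints X Ω := fun n hn a ha g => by
    have : (n⁻¹ * g * n⁻¹⁻¹) • a = a := ha ⟨_, conj_mem_of_norm (inv_mem hn) g.2⟩
    show (g : G) • n • a = _
    rw [← smul_left_cancel_iff n⁻¹, inv_smul_smul, smul_smul, smul_smul]; simpa using this
  rw [mem_stabilizer_iff, Set.smul_set_sdiff, show n • F = F from hn.2]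
  congr 1
  exact Set.eq_of_subset_of_ncard_le (by rintro _ ⟨a, ha, rfl⟩; exact k n hn.1 a ha) (Set.ncard_smul_set _ _).ge

/-- an element stabilizing a `p`-set and fixing a point of it fixes it pointwise -/
def Hy (G Ω : Type*) [Group G] [MulAction G Ω] (p : ℕ) : Prop :=
  ∀ s : Set Ω, s.ncard = p → ∀ n ∈ stabilizer G s, ∀ a ∈ s, n • a = a → ∀ b ∈ s, n • b = b

theorem one_fix {g : G} {a : Ω} (c : s.ncard ≤ 1) (h : g ∈ stabilizer G s) (ha : a ∈ s) : g • a = a :=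
  (Set.ncard_le_one).1 c _ (h.le (Set.smul_mem_smul_set ha)) _ ha

theorem stab_diff {g : G} (h1 : g ∈ stabilizer G F) (h2 : g ∈ stabilizer G s) : g ∈ stabilizer G (F \ s) := by
  rw [mem_stabilizer_iff, Set.smul_set_sdiff, h1, h2]

theorem orb_idx (hp : p.Prime) (H : Hy G Ω p) (hX : PG p X) (l : X ≤ stabilizer G F) (c : F.ncard ≤ p + 1)
    (h : ¬ X ≤ fixingSubgroup G F) : (fixingSubgroup G F).relIndex (N(X) ⊓ stabilizer G F) ≤ p := by
  classical
  obtain ⟨s, -, h1, h2, h3⟩ := orb hp hX l c h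
  obtain ⟨a, ha⟩ := (Set.ncard_pos).1 (h1 ▸ hp.pos)
  refine (idx_le (fun g => if h : g • a ∈ s then (⟨_, h⟩ : s) else ⟨a, ha⟩) fun g hg g' hg' e => ?_).trans h1.le
  have m := mul_mem (inv_mem hg) hg'
  rw [dif_pos ((h3 hg).le (Set.smul_mem_smul_set ha)), dif_pos ((h3 hg').le (Set.smul_mem_smul_set ha))] at e
  refine (mem_fixingSubgroup_iff G).2 fun b hb => ?_
  by_cases hs : b ∈ s
  · exact H s h1 _ (h3 m) a ha (by rw [mul_smul, inv_smul_eq_iff]; exact (congrArg Subtype.val e).symm) b hs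
  · exact one_fix h2 (stab_diff m.2 (h3 m)) ⟨hb, hs⟩

theorem hy2 : Hy G Ω 2 := fun s c n hn a ha e b hb => by
  by_cases h : b = a
  · rwa [h]
  · exact one_fix (s := s \ {a}) (by rw [Set.ncard_sdiff_singleton_of_mem ha]; omega)
      (stab_diff hn (by simpa using e)) ⟨hb, h⟩

theorem mem_sq (h : Odd (orderOf x)) : x ∈ zpowers (x ^ 2) :=
  mem_zpowers_pow_iff.2 (Nat.coprime_two_left.2 h)

theorem hy3 (h : ∀ (g : G) (a : Ω), g • a = a → Odd (orderOf g)) : Hy G Ω 3 := fun s c n hn a ha e b hb => by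
  by_contra k
  have m : ∀ b ∈ s \ {a}, n • b ∈ s \ {a} := fun b hb =>
    (stab_diff (s := {a}) hn (by simpa using e)).le (Set.smul_mem_smul_set hb)
  have hb' : b ∈ s \ {a} := ⟨hb, fun h => k (by rwa [h])⟩
  refine k (zpowers_le.2 (show n ^ 2 ∈ stabilizer G b from ?_) (mem_sq (h n a e)))
  rw [mem_stabilizer_iff, pow_two, mul_smul]
  refine (Set.ncard_le_one (s := (s \ {a}) \ {n • b})).1 (by
    rw [Set.ncard_sdiff_singleton_of_mem (m b hb'), Set.ncard_sdiff_singleton_of_mem ha]; omega)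
    _ ⟨m _ (m b hb'), fun h => k (MulAction.injective n h)⟩ _ ⟨hb', Ne.symm k⟩

theorem tri [FaithfulSMul G Ω] [IsPretransitive G Ω] [hp : Fact p.Prime] (p3 : p ≤ 3) (H : Hy G Ω p)
    (hG : commutator G = ⊤) (P : Sylow p G) (hm : ∀ g : G, orderOf g = p → (fixedBy Ω g).ncard ≤ m) (m1 : m ≤ p + 1)
    (m0 : 0 < m) (ox : orderOf x = p) (cx : (fixedBy Ω x).ncard = m) :
    (∃ H : Subgroup G, H ≠ ⊤ ∧ p ∣ #H ∧ ∀ g ∉ H, ¬ p ∣ #(H ⊓ cj g H)) ∨ ∃ y ∈ (P : Subgroup G), orderOf y = p ∧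
      #((P : Subgroup G) ⊓ C[y]) ≤ p * p ∧ (∃ w ∈ (P : Subgroup G), orderOf w = p ∧ w ∉ zpowers y) ∧
      ∃ s : Set Ω, s.ncard = p ∧ ∀ n ∈ N((P : Subgroup G)), n * y * n⁻¹ = y⁻¹ → n ∈ stabilizer G s := by
  have hP := syl_sylow_top P
  have gr := Cfsg.Agent.S4216.result P
  generalize (P : Subgroup G) = P at *
  have pz : ∀ {z : G}, orderOf z = p → PG p (zpowers z) := fun h =>
    PiN.of_card_prime hp.out ((Nat.card_zpowers _).trans h) rfl
  have n1 : ∀ {z : G}, orderOf z = p → z ≠ 1 := fun h e => hp.out.ne_one (by rw [← h, e, orderOf_one])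
  refine or_iff_not_imp_left.2 fun nse => ?_
  have hw : ∀ y ∈ P, orderOf y = p → (fixedBy Ω y).ncard = m → ∃ w ∈ P, orderOf w = p ∧ fixedBy Ω w ≠ fixedBy Ω y := by
    intro y hy oy cy
    by_contra! h
    have l : P ≤ stabilizer G (fixedBy Ω y) := fun g hg =>
      fix_stab.2 (h _ (mul_mem (mul_mem hg hy) (inv_mem hg)) (by rwa [orderOf_conj']))
    have k : ∀ z ∈ stabilizer G (fixedBy Ω y), orderOf z = p → fixedBy Ω z = fixedBy Ω y := fun z hz oz => by
      obtain ⟨g, hg, e⟩ := (hP.of_le l le_top).scj_le (zpowers_le.2 hz) (pz oz)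
      have := h _ (e (conj_mem_cj.2 (mem_zpowers z))) (by rwa [orderOf_conj'])
      rw [← smul_fixedBy] at this
      exact MulAction.injective g (this.trans hg.symm)
    refine nse ⟨_, stab_ne (n1 oy) ((Set.ncard_pos).1 (cy ▸ m0)), oy ▸ orderOf_dvd_card' (l hy), fun g hg e => hg ?_⟩
    obtain ⟨z, ⟨h1, h2⟩, oz⟩ := exists_orderOf_eq_prime hp.out e
    obtain ⟨z, h3, rfl⟩ := mem_cj'.1 h2
    have := k _ h1 oz
    rwa [← smul_fixedBy, k z h3 (by rwa [orderOf_conj'] at oz)] at this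
  have nl : ∀ y ∈ P, orderOf y = p → (fixedBy Ω y).ncard = m →
      ¬ P ⊓ stabilizer G (fixedBy Ω y) ≤ fixingSubgroup G (fixedBy Ω y) := fun y hy oy cy h => by
    obtain ⟨w, hw, ow, e⟩ := hw y hy oy cy
    refine e (fix_eq (cy ▸ hm w ow) (h ⟨hw, by_contra fun k => ?_⟩))
    obtain ⟨g, hg, h'⟩ := SetLike.exists_of_lt (hP.pi.lt_norm (inf_lt_left.2 fun l => k (l hw)))
    exact h' ⟨hg.1, fix_stab.2 (fix_eq (by rw [fix_card]) (h (conj_mem_of_norm hg.2 ⟨hy, fix_le _ (fix_self y)⟩)))⟩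
  have ix : ∀ y ∈ P, orderOf y = p → (fixedBy Ω y).ncard = m → (fixingSubgroup G (fixedBy Ω y)).relIndex
      (N(P ⊓ stabilizer G (fixedBy Ω y)) ⊓ stabilizer G (fixedBy Ω y)) ≤ p := fun y hy oy cy =>
    orb_idx hp.out H (hP.pi.of_le inf_le_left) inf_le_right (cy ▸ m1) (nl y hy oy cy)
  have ix' : ∀ y ∈ P, orderOf y = p → (fixedBy Ω y).ncard = m → ∀ X ≤ P ⊓ stabilizer G (fixedBy Ω y),
      #X ≤ #(fixingSubgroup G (fixedBy Ω y) ⊓ X) * p := fun y hy oy cy X l => by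
    rw [← card_inf_mul_relIndex (fixingSubgroup G (fixedBy Ω y)) X]
    exact Nat.mul_le_mul_left _ ((relIndex_le_of_le_right (l.trans (le_inf le_normalizer inf_le_right))
      (relIndex_ne_zero' _ _)).trans (ix y hy oy cy))
  by_cases al : ∃ y ∈ P, orderOf y = p ∧ (fixedBy Ω y).ncard = m ∧ ∃ y' ∈ P, orderOf y' = p ∧ (fixedBy Ω y').ncard = m ∧
      fixedBy Ω y ≠ fixedBy Ω y' ∧ P ⊓ stabilizer G (fixedBy Ω y) ≤ stabilizer G (fixedBy Ω y')
  · obtain ⟨y, hy, oy, cy, y', hy', oy', cy', e, l⟩ := al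
    obtain ⟨s, -, cs, -, hs⟩ := orb hp.out (hP.pi.of_le inf_le_left) inf_le_right (cy ▸ m1) (nl y hy oy cy)
    refine ⟨y, hy, oy, ?_, ⟨y', hy', oy', fun h => e (fix_eq (cy.trans cy'.symm).ge (zpowers_le.2 (fix_self y) h)).symm⟩,
      s, cs, fun n hn k => ?_⟩
    · have h1 := ix' y hy oy cy _ le_rfl
      have h2 := ix' y' hy' oy' cy' (fixingSubgroup G (fixedBy Ω y) ⊓ (P ⊓ stabilizer G (fixedBy Ω y)))
        (inf_le_right.trans (le_inf inf_le_left l))
      rw [(eq_bot_iff_card (fixingSubgroup G (fixedBy Ω y') ⊓ _)).1 (by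
        by_contra k
        obtain ⟨z, hz, oz⟩ := exists_orderOf_eq_prime hp.out
          ((hP.pi.of_le (inf_le_right.trans (inf_le_right.trans inf_le_left))).dvd_of_ne_bot k)
        exact e ((fix_eq (cy ▸ hm z oz) hz.2.1).symm.trans (fix_eq (cy' ▸ hm z oz) hz.1))), one_mul] at h2
      exact (card_le (inf_le_inf_left P fun g hg => fix_stab.2 (by
        rw [mem_cent1.1 hg, mul_inv_cancel_right]))).trans (h1.trans (Nat.mul_le_mul_right _ h2))
    · have : n ∈ stabilizer G (fixedBy Ω y) := fix_stab.2 (by rw [k, fixedBy_inv])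
      exact hs ⟨norms_inf (zpowers_le.2 hn) (zpowers_le.2 (le_normalizer this)) (mem_zpowers n), this⟩
  exfalso
  push Not at al
  have lP : ∀ y ∈ P, orderOf y = p → (fixedBy Ω y).ncard = m → P ≤ stabilizer G (fixedBy Ω y) := fun y hy oy cy => by
    by_contra k
    obtain ⟨g, hg, h'⟩ := SetLike.exists_of_lt (hP.pi.lt_norm (inf_lt_left.2 k))
    refine al y hy oy cy _ (mul_mem (mul_mem hg.1 hy) (inv_mem hg.1)) (by rwa [orderOf_conj']) (by rwa [fix_card])
      (fun e => h' ⟨hg.1, fix_stab.2 e.symm⟩) fun a ha => ?_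
    have : (g⁻¹ * a * g⁻¹⁻¹) • _ = _ := (conj_mem_of_norm (inv_mem hg.2) ha).2
    rw [mem_stabilizer_iff, ← smul_fixedBy, ← smul_left_cancel_iff g⁻¹, inv_smul_smul, smul_smul, smul_smul]
    simpa using this
  obtain ⟨g, -, e⟩ := hP.scj_le le_top (pz ox)
  obtain ⟨y, hy, oy, cy⟩ : ∃ y ∈ P, orderOf y = p ∧ (fixedBy Ω y).ncard = m :=
    ⟨_, e (conj_mem_cj.2 (mem_zpowers x)), by rwa [orderOf_conj'], by rwa [fix_card]⟩
  have eq : ∀ z ∈ P, orderOf z = p → (fixedBy Ω z).ncard = m → fixedBy Ω z = fixedBy Ω y := fun z hz oz cz =>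
    by_contra fun k => al z hz oz cz y hy oy cy k (inf_le_left.trans (lP y hy oy cy))
  have lN : N(P) ≤ stabilizer G (fixedBy Ω y) := fun n hn =>
    fix_stab.2 (eq _ (conj_mem_of_norm hn hy) (by rwa [orderOf_conj']) (by rwa [fix_card]))
  have i := ix y hy oy cy
  rw [inf_eq_left.2 (lP y hy oy cy), inf_eq_left.2 lN] at i
  have d : ⁅N(P), N(P)⁆ ≤ fixingSubgroup G (fixedBy Ω y) := by
    have nL := lN.trans (stab_norm _)
    refine (ab_quo_iff nL).1 ?_
    have c := (card_quo nL).le.trans (i.trans p3)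
    have c0 := card_pos (quo (fixingSubgroup G (fixedBy Ω y)) N(P))
    generalize quo (fixingSubgroup G (fixedBy Ω y)) N(P) = Q at *
    have : #Q ∣ 2 ^ 2 ∨ #Q ∣ 3 ^ 2 := by interval_cases #Q <;> norm_num
    exact this.elim (ab_of_card_sq Nat.prime_two) (ab_of_card_sq Nat.prime_three)
  refine nl y hy oy cy (inf_le_left.trans ?_)
  rw [hG, inf_top_eq] at gr
  refine gr.le.trans (sup_le (inf_le_right.trans d) (iSup_le fun z w hw => ?_))
  by_contra k
  have fw : ∀ w ∈ cj z ⁅P, P⁆, w ∈ fixingSubgroup G (z • fixedBy Ω y) := fun w hw => by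
    obtain ⟨v, hv, rfl⟩ := mem_cj'.1 hw
    exact fix_conj (d (commutator_mono le_normalizer le_normalizer hv))
  obtain ⟨v, hv, ov⟩ := exists_orderOf_eq_prime hp.out ((hP.pi.of_le (inf_le_left (b := cj z ⁅P, P⁆))).dvd_of_ne_bot
    fun e => k (by rw [mem_bot.1 (e.le hw)]; exact one_mem _))
  have c : (z • fixedBy Ω y).ncard = m := by rwa [Set.ncard_smul_set]
  have := fix_eq (c ▸ hm v ov) (fw v hv.2)
  exact k (eq v hv.1 ov (this ▸ c) ▸ this ▸ fw w hw.2)

end H17.FX
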