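import Cfsg.Agent.H9.RL0

/-! S3860: real `2`-elements. -/

set_option autoImplicit false
set_option linter.unusedVariables false
set_option linter.unusedSectionVars false

namespace H17.RL
open Cfsg Subgroup H19 H17.GS H9.RL

universe u
variable {G : Type u} [Group G] [Finite G] {a b : ℕ} {M P Q S : Subgroup G} {g t v w x y : G}

theorem cc1 : g ∈ C[x] ↔ g * x * g⁻¹ = x := by rw [mem_cent1, mul_inv_eq_iff_eq_mul]
theorem cci : g * x⁻¹ * g⁻¹ = (g * x * g⁻¹)⁻¹ := conj_inv.symm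
theorem c2 (a b x : G) : a * (b * x * b⁻¹) * a⁻¹ = a * b * x * (a * b)⁻¹ := by group
theorem cent_inv (y : G) : C[y⁻¹] = C[y] := by rw [← cent_zpowers, zpowers_inv, cent_zpowers]

theorem odd_mem (o : Odd (orderOf x)) (h : x * x ∈ M) : x ∈ M := by
  obtain ⟨m, hm⟩ := o
  have := pow_mem h (m + 1)
  rwa [← sq, ← pow_mul, show 2 * (m + 1) = orderOf x + 1 by omega, pow_succ, pow_orderOf_eq_one, one_mul] at this

theorem fr2 (hQ : Syl 2 Q M) (hg : g ∈ N(M)) (gg : g * g ∈ M) : ∃ t, t * g⁻¹ ∈ M ∧ t ∈ N(Q) ∧ t * t ∈ Q := by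
  have n : M ⊴ M ⊔ zpowers g := ⟨le_sup_left, sup_le le_normalizer (zpowers_le.2 hg)⟩
  obtain ⟨m, hm, s, hs, e⟩ := (mem_sup_of_norm (inf_le_left.trans n.norm)).1
    ((hQ.frattini n).ge (mem_sup_right (mem_zpowers g)))
  obtain rfl : s = m⁻¹ * g := by rw [e, inv_mul_cancel_left]
  have ss : ∀ y ∈ zpowers (m⁻¹ * g), y * y ∈ M := by
    rintro _ ⟨k, rfl⟩
    beta_reduce
    rw [← (Commute.refl _).mul_zpow, show m⁻¹ * g * (m⁻¹ * g) = m⁻¹ * (g * m⁻¹ * g⁻¹) * (g * g) by group]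
    exact zpow_mem (mul_mem (mul_mem (inv_mem hm) (conj_mem_of_norm hg (inv_mem hm))) gg) k
  obtain ⟨c1, c2, c3⟩ := constt_spec {2} (m⁻¹ * g)
  generalize constt {2} (m⁻¹ * g) = t at c1 c2 c3
  have o := odd_mem (Nat.odd_iff.2 (Nat.two_dvd_ne_zero.1 (c3.not_dvd Nat.prime_two rfl)))
    (ss _ (mul_mem (inv_mem c1) (mem_zpowers _)))
  have tn := zpowers_le.2 hs.2 c1
  refine ⟨t, ?_, tn, hQ.mem_of_norm (ss t c1) (c2.e_mul c2 rfl) (mul_mem tn tn)⟩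
  rw [show t * g⁻¹ = m⁻¹ * (g * (t⁻¹ * (m⁻¹ * g))⁻¹ * g⁻¹) by group]
  exact mul_mem (inv_mem hm) (conj_mem_of_norm hg (inv_mem o))

theorem le2 (h : St G a b) (r : Re v) (n : v ∉ center G) (p : H19.PG 2 P) (l : P ≤ C[v]) : #P ≤ 2 ^ b := by
  obtain ⟨S, hS, k⟩ := p.exists_syl l
  exact h.hy v r n S hS ▸ card_le k

theorem big (h : St G a b) (r : Re v) (c : #Q = 2 ^ b) (p : H19.PG 2 P) (hQ : Q ≤ P) (ht : t ∈ P) (n : t ∉ Q)
    (l1 : Q ≤ C[v]) (l2 : t ∈ C[v]) : v ∈ center G := by_contra fun k => by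
  have h1 := le2 h r k (p.infl C[v]) inf_le_right
  have h2 := card_lt (lt_of_le_of_ne (le_inf hQ l1) fun e => n (e.ge ⟨ht, l2⟩))
  omega

theorem pg2 (p : H19.PG 2 Q) (n : t ∈ N(Q)) (tt : t * t ∈ Q) : H19.PG 2 (Q ⊔ zpowers t) :=
  p.sup (piG_zpowers.2 fun q hq d => by_contra fun k => by
    have := (p.elt tt) q hq (by
      rw [← sq, orderOf_pow]
      exact (Nat.Coprime.dvd_mul_right ((Nat.coprime_primes hq Nat.prime_two).2 k |>.coprime_dvd_right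
        (Nat.gcd_dvd_right _ _))).1 (by rwa [Nat.div_mul_cancel (Nat.gcd_dvd_left _ _)]))
    exact k this) (zpowers_le.2 n)

theorem inv_n (h : g * y * g⁻¹ = y⁻¹) : g ∈ N(C[y]) ∧ g * g ∈ C[y] :=
  ⟨mem_norm_iff_cj.2 (by rw [cj_cent1, h, cent_inv]), cc1.2 (by rw [← c2, h, cci, h, inv_inv])⟩

theorem f1 : F1.{u} := fun {G} _ _ {a b x t t' v} h o o' pv vx e e' => by
  have c := mem_cent1.1 vx
  have cy := cent1_mul pv (PiN.of_not_dvd (Nat.two_dvd_ne_zero.2 (Nat.odd_iff.1 o.odd))) c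
  have tv := cc1.2 e'
  have tx : t' ∉ C[x] := fun k => o.ne (odd_mem (M := ⊥) o.odd (by
    rw [mem_bot, mul_eq_one_iff_eq_inv, ← o'.inv, cc1.1 k]))
  obtain ⟨Q, hQ⟩ := exists_syl 2 C[v * x]
  have cQ := h.hy (v * x) ⟨t, by rw [← conj_mul, e, o.inv, c, mul_inv_rev]⟩
    (fun k => tx (cy.le (mem_cent1.2 (mem_center_iff.1 k t'))).2) Q hQ
  obtain ⟨s, s1, s2, s3⟩ := fr2 hQ (g := t') (cy ▸ norms_inf (zpowers_le.2 tv |>.trans le_normalizer)
    (zpowers_le.2 (inv_n o'.inv).1) (mem_zpowers _)) (cy ▸ ⟨mul_mem tv tv, (inv_n o'.inv).2⟩)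
  rw [cy] at s1 hQ
  exact big h ⟨t, e⟩ cQ (pg2 hQ.pi s2 s3) le_sup_left (mem_sup_right (mem_zpowers s))
    (fun k => tx (by simpa using (C[x].mul_mem_cancel_left (hQ.le k).2).1 s1.2)) (hQ.le.trans inf_le_left)
    ((mul_mem_cancel_right (inv_mem tv)).1 s1.1)

/-- a Sylow subgroup of the extended centralizer -/
theorem ext (h : g * y * g⁻¹ = y⁻¹) : ∃ Q t, Syl 2 Q C[y] ∧ t * y * t⁻¹ = y⁻¹ ∧ t ∈ N(Q) ∧ t * t ∈ Q := by
  obtain ⟨Q, hQ⟩ := exists_syl 2 C[y]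
  obtain ⟨s, s1, s2, s3⟩ := fr2 hQ (inv_n h).1 (inv_n h).2
  refine ⟨Q, s, hQ, ?_, s2, s3⟩
  rw [← inv_mul_cancel_right s g, ← c2, h, cci, cc1.1 s1]

theorem four (h : St G a b) (r : Re v) (v4 : v * v * (v * v) = 1) : v * v ∈ center G := by_contra fun k => by
  obtain ⟨g, e⟩ := r
  obtain ⟨Q, t, hQ, e, s2, s3⟩ := ext e
  have i := inv_eq_of_mul_eq_one_right v4
  refine k (big h ⟨1, by rw [i]; simp⟩ (h.hy v ⟨t, e⟩ (fun q => k (mul_mem q q)) Q hQ) (pg2 hQ.pi s2 s3) le_sup_left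
    (mem_sup_right (mem_zpowers t)) (fun q => k ?_) (hQ.le.trans (cent1_le_cent1_of_mem_zpowers
      (mul_mem (mem_zpowers v) (mem_zpowers v)))) (cc1.2 (by rw [← conj_mul, e, ← mul_inv_rev, i])))
  rw [cc1.1 (hQ.le q)] at e
  rw [mul_eq_one_iff_eq_inv.2 e]; exact one_mem _

theorem eight (r2 : R2.{u}) (h : St G a b) (a2 : 2 ≤ a) (r : Re w) (pw : PiE {2} w)
    (w8 : w * w * (w * w) * (w * w * (w * w)) = 1) : w * w * (w * w) = 1 := by_contra fun w4 => by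
  obtain ⟨g, e⟩ := r
  obtain ⟨P, t, hP, e, s2, s3⟩ := ext e
  have e2 : t * (w * w) * t⁻¹ = (w * w)⁻¹ := by rw [← conj_mul, e, mul_inv_rev]
  have nc : w * w ∉ center G := fun k => w4 (by
    rw [mul_eq_one_iff_eq_inv, ← e2, mem_center_iff.1 k t, mul_inv_cancel_right])
  have rr : Rr (w * w) := ⟨⟨t, e2⟩, nc, four h ⟨t, e2⟩ w8⟩
  have cP := h.hy w ⟨t, e⟩ (fun q => nc (mul_mem q q)) P hP
  obtain ⟨S, hS, l⟩ := (pg2 hP.pi s2 s3).exists_syl le_top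
  have PS := le_sup_left.trans l
  have tS := l (mem_sup_right (mem_zpowers t))
  have Pr := hP.le.trans (cent1_le_cent1_of_mem_zpowers (mul_mem (mem_zpowers w) (mem_zpowers w)))
  have eP : P = S ⊓ C[w * w] := eq_of_le_of_card_ge (le_inf PS Pr) (cP ▸ le2 h rr.re nc (hS.pi.infl _) inf_le_right)
  have k := r2 h rr hS (by
    obtain ⟨T, hT⟩ := exists_syl 2 C[w * w]
    exact hT.of_card inf_le_right (by rw [← eP, cP, h.hy _ rr.re nc T hT]))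
  have wP : w ∈ P := hP.mem_of_norm (mem_cent1_self w) pw (cent_le_norm _ (le_cent1_iff.1 hP.le))
  have wZ : w ∈ C(P) := le_cent1_iff.1 hP.le
  have sq := rr.sq
  have er : ∀ g, g * (w * w) * g⁻¹ = g * w * g⁻¹ * (g * w * g⁻¹) := fun g => conj_mul.symm
  generalize w * w = r at *
  have k' : ∀ s ∈ S, ∃ z, (∀ g, g * z = z * g) ∧ z * z = 1 ∧ s * r * s⁻¹ = z * r := fun s hs => by
    have c := mem_center_iff.1 (k s hs)
    refine ⟨_, c, ?_, (inv_mul_cancel_right _ _).symm⟩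
    have : s * r * s⁻¹ * (s * r * s⁻¹) = s * (r * r) * s⁻¹ := conj_mul
    rw [mem_center_iff.1 sq s, mul_inv_cancel_right, ← inv_mul_cancel_right (s * r * s⁻¹) r] at this
    generalize s * r * s⁻¹ * r⁻¹ = z at c this
    exact mul_right_cancel (b := r * r) (by rw [one_mul]; nth_rw 2 [← this]; rw [mul_assoc, mul_assoc, ← mul_assoc r z, c r, mul_assoc])
  have nP : S ≤ N(P) := fun s hs => mem_norm_of_cj_le (cj_le_iff.2 fun p hp => mem_cj_inv.2 (eP.ge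
    ⟨conj_mem_of_norm (le_normalizer hs) (PS hp), by
      obtain ⟨z, c, -, q⟩ := k' s hs
      have m : s * p * s⁻¹ ∈ C[s * r * s⁻¹] := cj_cent1 s r ▸ mem_cj.2 (by simpa [mul_assoc] using Pr hp)
      rw [q, mem_cent1, ← mul_assoc, c, mul_assoc, mul_assoc z r, mul_left_cancel_iff] at m
      exact mem_cent1.2 m⟩))
  obtain ⟨g, gS, ng⟩ : ∃ g ∈ S, g ∉ P ⊔ zpowers t := SetLike.not_le_iff_exists.1 fun q => by
    have h1 := card_le q
    have h2 : #(P ⊔ zpowers t) ≤ #P * 2 := by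
      rw [← card_mul_relIndex (le_sup_left : P ≤ _), relIndex_sup_of_norm (zpowers_le.2 s2), ← card_quo (zpowers_le.2 s2),
        quo_zpowers s2, Nat.card_zpowers]
      exact Nat.mul_le_mul_left _ (orderOf_le_of_pow_eq_one two_pos (by
        rw [pow_two, ← map_mul]; exact qmk_eq_one.2 s3))
    have h3 : 2 ^ (2 + b) ≤ 2 ^ (a + b) := Nat.pow_le_pow_right two_pos (by omega)
    have := Nat.two_pow_pos b
    rw [h.sy S hS] at h1
    rw [cP] at h2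
    rw [pow_add] at h3
    omega
  obtain ⟨z, zc, zz, ez⟩ := k' g gS
  obtain ⟨z', zc', zz', ez'⟩ := k' t tS
  have gg : g * g ∈ P := eP.ge ⟨mul_mem gS gS, cc1.2 (by
    rw [← c2, ez, ← conj_mul, ez, zc g, mul_inv_cancel_right, ← mul_assoc, zz, one_mul])⟩
  have tg : t * g * (g * t)⁻¹ ∈ P := by
    have : t * g * r * (t * g)⁻¹ = g * t * r * (g * t)⁻¹ := by
      rw [← c2, ← c2, ez, ez', ← conj_mul, ← conj_mul, ez, ez', zc t, zc' g, mul_inv_cancel_right,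
        mul_inv_cancel_right, ← mul_assoc, ← mul_assoc, zc z']
    have m : (g * t)⁻¹ * (t * g) ∈ P := eP.ge ⟨S.mul_mem (S.inv_mem (mul_mem gS tS)) (mul_mem tS gS), cc1.2 (by
      rw [← c2, this]; group)⟩
    have := conj_mem_of_norm (nP (mul_mem gS tS)) m
    rwa [mul_inv_cancel_left] at this
  have uZ : g * w * g⁻¹ ∈ C(P) := conj_mem_of_norm (norm_le_norm_cent _ (nP gS)) wZ
  have uP := conj_mem_of_norm (nP gS) wP
  have d1 : g * (w⁻¹ * (g * w * g⁻¹)) * g⁻¹ = (w⁻¹ * (g * w * g⁻¹))⁻¹ := by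
    rw [← conj_mul, c2, mem_cent.1 wZ _ gg]; group
  have d2 : t * (w⁻¹ * (g * w * g⁻¹)) * t⁻¹ = (w⁻¹ * (g * w * g⁻¹))⁻¹ := by
    rw [← conj_mul, cci, e, inv_inv, show t * (g * w * g⁻¹) * t⁻¹ =
      t * g * (g * t)⁻¹ * (g * (t * w * t⁻¹) * g⁻¹) * (t * g * (g * t)⁻¹)⁻¹ by group, e, cci,
      mem_cent.1 (inv_mem uZ) _ tg, mul_inv_cancel_right, mem_cent.1 (inv_mem uZ) _ wP, mul_inv_rev w⁻¹, inv_inv]
  have dZ := big h ⟨g, d1⟩ cP hS.pi PS (mul_mem gS tS) (fun q => ng ((mul_mem_cancel_right (mem_sup_right (mem_zpowers t))).1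
    (mem_sup_left q))) (le_cent1_iff.2 (mul_mem (inv_mem wZ) uZ)) (cc1.2 (by
      rw [← c2, d2, cci, d1, inv_inv]))
  have c := mem_center_iff.1 dZ
  rw [c g, mul_inv_cancel_right] at d1
  refine ng (mem_sup_left (eP.ge ⟨gS, cc1.2 ?_⟩))
  have e1 := er 1
  simp only [one_mul, inv_one, mul_one] at e1
  rw [er, ← mul_inv_cancel_left w (g * w * g⁻¹), e1]
  generalize w⁻¹ * (g * w * g⁻¹) = δ at c d1
  rw [mul_assoc, ← mul_assoc δ, ← c, mul_assoc, mul_eq_one_iff_eq_inv.2 d1, mul_one]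

theorem r1 (r2 : R2.{u}) : R1.{u} := fun {G} _ _ {a b v} h a2 r pv => by
  refine four h r (by_contra fun n => ?_)
  obtain ⟨k, hk⟩ := pv.exists_pow (orderOf_pos v).ne'
  have e : ∀ y : G, y * y * (y * y) = y ^ 2 ^ 2 := fun y => by simp [pow_succ, mul_assoc]
  obtain ⟨j, rfl⟩ : ∃ j, k = j + 3 := ⟨k - 3, by
    by_contra q
    exact n (e v ▸ orderOf_dvd_iff_pow_eq_one.1 (hk ▸ pow_dvd_pow 2 (by omega)))⟩
  obtain ⟨g, eg⟩ := r
  have := eight r2 h a2 (w := v ^ 2 ^ j) ⟨g, by rw [← conj_pow, eg, inv_pow]⟩ (pv.e_pow _) (by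
    rw [e (_ ^ _), ← sq, ← pow_mul, ← pow_mul, ← pow_succ, ← pow_add, ← hk, pow_orderOf_eq_one])
  rw [e, ← pow_mul, ← pow_add, ← orderOf_dvd_iff_pow_eq_one, hk, Nat.pow_dvd_pow_iff_le_right one_lt_two] at this
  omega

end H17.RL
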